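/-
The projective plane formed by the elementary abelian subgroups of order `q²` of `L₃(q)`, `q` even,
described by abstract properties.
-/
import Mathlib
set_option autoImplicit false
set_option linter.unusedSectionVars false

namespace CF.H3
open Subgroup
open scoped commutatorElement

variable {G : Type*} [Group G]

/-- conjugate subgroup -/
def cj (g : G) (A : Subgroup G) : Subgroup G := (MulAut.conj g).mapSubgroup A

theorem mem_cj {g x : G} {A : Subgroup G} : x ∈ cj g A ↔ g⁻¹ * x * g ∈ A := by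
  have := Subgroup.mem_map_equiv (f := MulAut.conj g) (K := A) (x := x)
  rw [MulAut.conj_symm_apply] at this
  exact this

theorem conj_mem_cj {x : G} {A : Subgroup G} (g : G) (h : x ∈ A) : g * x * g⁻¹ ∈ cj g A := by
  rw [mem_cj]; simpa [mul_assoc] using h

theorem cj_mul (g h : G) (A : Subgroup G) : cj (g * h) A = cj g (cj h A) := by
  ext x; simp [mem_cj, mul_assoc]

@[simp] theorem cj_one (A : Subgroup G) : cj 1 A = A := by ext x; simp [mem_cj]

@[simp] theorem cj_inv_cj (g : G) (A : Subgroup G) : cj g⁻¹ (cj g A) = A := by rw [← cj_mul]; simp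

@[simp] theorem cj_cj_inv (g : G) (A : Subgroup G) : cj g (cj g⁻¹ A) = A := by rw [← cj_mul]; simp

theorem cj_inj {g : G} {A B : Subgroup G} : cj g A = cj g B ↔ A = B :=
  (MulAut.conj g).mapSubgroup.injective.eq_iff

theorem cj_le {g : G} {A B : Subgroup G} : cj g A ≤ cj g B ↔ A ≤ B :=
  (MulAut.conj g).mapSubgroup.le_iff_le

theorem cj_inf (g : G) (A B : Subgroup G) : cj g (A ⊓ B) = cj g A ⊓ cj g B :=
  (MulAut.conj g).mapSubgroup.map_inf A B

theorem cj_sup (g : G) (A B : Subgroup G) : cj g (A ⊔ B) = cj g A ⊔ cj g B :=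
  (MulAut.conj g).mapSubgroup.map_sup A B

@[simp] theorem cj_bot (g : G) : cj g (⊥ : Subgroup G) = ⊥ := (MulAut.conj g).mapSubgroup.map_bot

theorem cj_eq_bot {g : G} {A : Subgroup G} : cj g A = ⊥ ↔ A = ⊥ := by
  rw [← cj_bot g, cj_inj, cj_bot]

theorem card_cj (g : G) (A : Subgroup G) : Nat.card (cj g A) = Nat.card A :=
  (Nat.card_congr ((MulAut.conj g).subgroupMap A).toEquiv).symm

theorem cj_inv_eq {g : G} {A : Subgroup G} (h : cj g A = A) : cj g⁻¹ A = A := by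
  conv_lhs => rw [← h]
  simp

theorem cj_mul_eq {g h : G} {A : Subgroup G} (hg : cj g A = A) (hh : cj h A = A) : cj (g * h) A = A := by
  rw [cj_mul, hh, hg]

theorem cj_eq_of_mem {g : G} {A : Subgroup G} (h : g ∈ A) : cj g A = A := by
  ext x; rw [mem_cj]
  constructor
  · intro hx; have := A.mul_mem (A.mul_mem h hx) (A.inv_mem h); simpa [mul_assoc] using this
  · intro hx; exact A.mul_mem (A.mul_mem (A.inv_mem h) hx) h

theorem cj_eq_of_le [Finite G] {g : G} {A : Subgroup G} (h : ∀ x ∈ A, g * x * g⁻¹ ∈ A) : cj g A = A := by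
  refine Subgroup.eq_of_le_of_card_ge (fun x hx => ?_) (card_cj g A).ge
  have := h _ (mem_cj.1 hx); simpa [mul_assoc] using this

theorem cj_eq_of_comm {g : G} {A : Subgroup G} (h : ∀ x ∈ A, Commute g x) : cj g A = A := by
  ext x; rw [mem_cj]
  constructor
  · intro hx
    have h1 := (h _ hx).eq
    have : x = g⁻¹ * x * g := by
      calc x = g * (g⁻¹ * x * g) * g⁻¹ := by group
        _ = g⁻¹ * x * g := by rw [h1]; group
    rwa [this]
  · intro hx
    have : g⁻¹ * x * g = x := by rw [mul_assoc, ← (h x hx).eq]; group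
    rwa [this]

theorem mem_of_cj_eq {g x : G} {A : Subgroup G} (h : cj g A = A) (hx : x ∈ A) : g * x * g⁻¹ ∈ A :=
  h ▸ conj_mem_cj g hx

theorem comm_mem_of_cj_eq {g x : G} {A : Subgroup G} (h : cj g A = A) (hx : x ∈ A) : ⁅g, x⁆ ∈ A :=
  A.mul_mem (mem_of_cj_eq h hx) (A.inv_mem hx)

theorem comm_mem_of_cj_eq' {g x : G} {A : Subgroup G} (h : cj g A = A) (hx : x ∈ A) : ⁅x, g⁆ ∈ A := by
  rw [← commutatorElement_inv]; exact A.inv_mem (comm_mem_of_cj_eq h hx)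

/-- the conjugation action on subgroups -/
@[reducible] def cjAct : MulAction G (Subgroup G) where
  smul := cj
  one_smul := cj_one
  mul_smul := cj_mul

/-- orbit counting -/
theorem orbit_fill {H X : Type*} [Group H] [Finite H] [MulAction H X] (S : Set X) (hS : S.Finite) (x : X)
    (hx : ∀ h : H, h • x ∈ S) (m : ℕ) (hm : Nat.card (MulAction.stabilizer H x) ≤ m)
    (hc : m * S.ncard ≤ Nat.card H) (y : X) (hy : y ∈ S) : ∃ h : H, h • x = y := by
  have h1 : MulAction.orbit H x ⊆ S := by rintro _ ⟨h, rfl⟩; exact hx h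
  have h3 : (MulAction.orbit H x).ncard * Nat.card (MulAction.stabilizer H x) = Nat.card H := by
    rw [← MulAction.index_stabilizer, mul_comm]; exact Subgroup.card_mul_index _
  have hp : 0 < Nat.card (MulAction.stabilizer H x) := Nat.card_pos
  have h4 : S.ncard ≤ (MulAction.orbit H x).ncard := by
    by_contra hlt
    push Not at hlt
    have : (MulAction.orbit H x).ncard * Nat.card (MulAction.stabilizer H x) < m * S.ncard := by
      calc _ < S.ncard * Nat.card (MulAction.stabilizer H x) := Nat.mul_lt_mul_of_pos_right hlt hp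
        _ ≤ S.ncard * m := Nat.mul_le_mul_left _ hm
        _ = _ := mul_comm _ _
    omega
  have := Set.eq_of_subset_of_ncard_le h1 h4 hS
  rw [← this] at hy
  exact hy

theorem cj_fill [Finite G] (H K : Subgroup G) (S : Set (Subgroup G)) (C : Subgroup G)
    (hx : ∀ h ∈ H, cj h C ∈ S) (hK : ∀ h ∈ H, cj h C = C → h ∈ K)
    (hc : Nat.card K * S.ncard ≤ Nat.card H) (D : Subgroup G) (hD : D ∈ S) : ∃ h ∈ H, cj h C = D := by
  letI := cjAct (G := G)
  obtain ⟨h, hh⟩ := orbit_fill (H := H) S (Set.toFinite _) C (fun h => hx h h.2) (Nat.card K) (by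
    refine Nat.card_le_card_of_injective (fun x => (⟨x.1.1, hK _ x.1.2 x.2⟩ : K)) ?_
    intro x y e
    exact Subtype.ext (Subtype.ext (congrArg (fun t : K => (t : G)) e))) hc D hD
  exact ⟨h, h.2, hh⟩

/-- elementary abelian subgroups of order `q²` -/
def El (N : Subgroup G) (q : ℕ) (A : Subgroup G) : Prop :=
  A ≤ N ∧ (∀ x ∈ A, x * x = 1) ∧ Nat.card A = q ^ 2

/-- incidence -/
def I (A B : Subgroup G) : Prop := A ≠ B ∧ A ⊓ B ≠ ⊥

theorem I.symm {A B : Subgroup G} (h : I A B) : I B A := ⟨h.1.symm, by rw [inf_comm]; exact h.2⟩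

theorem I_cj {g : G} {A B : Subgroup G} : I (cj g A) (cj g B) ↔ I A B := by
  simp only [I, ne_eq, cj_inj, ← cj_inf, cj_eq_bot]

theorem I.ex {A B : Subgroup G} (h : I A B) : ∃ z, z ≠ 1 ∧ z ∈ A ∧ z ∈ B := by
  obtain ⟨⟨z, hz⟩, h1⟩ := (Subgroup.ne_bot_iff_exists_ne_one).1 h.2
  exact ⟨z, fun e => h1 (Subtype.ext e), hz.1, hz.2⟩

theorem I_of_mem {A B : Subgroup G} (h : A ≠ B) {z : G} (h1 : z ≠ 1) (hA : z ∈ A) (hB : z ∈ B) : I A B :=
  ⟨h, fun e => h1 ((Subgroup.eq_bot_iff_forall _).1 e z ⟨hA, hB⟩)⟩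

theorem El.cj {N A : Subgroup G} {q : ℕ} (h : El N q A) (g : G) : El (cj g N) q (cj g A) := by
  refine ⟨cj_le.2 h.1, fun x hx => ?_, by rw [card_cj, h.2.2]⟩
  have := h.2.1 _ (mem_cj.1 hx)
  calc x * x = g * (g⁻¹ * x * g * (g⁻¹ * x * g)) * g⁻¹ := by group
    _ = 1 := by rw [this]; group

theorem El.cj' {N A : Subgroup G} {q : ℕ} (h : El N q A) {g : G} (hg : H3.cj g N = N) : El N q (H3.cj g A) :=
  hg ▸ h.cj g

theorem El.cjN {N A : Subgroup G} {q : ℕ} (h : El N q A) {g : G} (hg : g ∈ N) : El N q (H3.cj g A) :=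
  h.cj' (cj_eq_of_mem hg)

theorem El.mono {N N' A : Subgroup G} {q : ℕ} (h : El N q A) (h' : A ≤ N') : El N' q A := ⟨h', h.2⟩

theorem inv_eq_of_sq {x : G} (h : x * x = 1) : x⁻¹ = x := inv_eq_of_mul_eq_one_right h

theorem El.inv {N A : Subgroup G} {q : ℕ} (h : El N q A) {x : G} (hx : x ∈ A) : x⁻¹ = x :=
  inv_eq_of_sq (h.2.1 x hx)

theorem El.comm {N A : Subgroup G} {q : ℕ} (h : El N q A) {x y : G} (hx : x ∈ A) (hy : y ∈ A) : Commute x y := by
  have := h.inv (A.mul_mem hx hy)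
  rw [mul_inv_rev, h.inv hx, h.inv hy] at this
  exact this.symm

/-- the subgroup generated by the members incident with `A` -/
def LL (N : Subgroup G) (q : ℕ) (A : Subgroup G) : Subgroup G :=
  closure {x | ∃ B, El N q B ∧ I A B ∧ x ∈ B}

theorem cj_LL_le (g : G) (N : Subgroup G) (q : ℕ) (A : Subgroup G) : cj g (LL N q A) ≤ LL (cj g N) q (cj g A) := by
  have : LL N q A ≤ cj g⁻¹ (LL (cj g N) q (cj g A)) := by
    rw [LL, closure_le]
    rintro x ⟨B, h1, h2, h3⟩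
    rw [SetLike.mem_coe, mem_cj, inv_inv]
    exact subset_closure ⟨cj g B, h1.cj g, I_cj.2 h2, conj_mem_cj g h3⟩
  simpa using (cj_le (g := g)).2 this

theorem cj_LL (g : G) (N : Subgroup G) (q : ℕ) (A : Subgroup G) : cj g (LL N q A) = LL (cj g N) q (cj g A) := by
  refine le_antisymm (cj_LL_le g N q A) ?_
  have := cj_LL_le g⁻¹ (cj g N) q (cj g A)
  simp only [cj_inv_cj] at this
  simpa using (cj_le (g := g)).2 this

/-- the abstract properties of `L₃(q)`, `q` even -/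
structure PL (N : Subgroup G) (q : ℕ) (ty : Subgroup G → Bool) : Prop where
  two_le : 2 ≤ q
  inv : ∀ x ∈ N, x ≠ 1 → x * x = 1 → ∀ τ, ∃ A, El N q A ∧ ty A = τ ∧ x ∈ A
  disj : ∀ A B, El N q A → El N q B → ty A = ty B → A ≠ B → A ⊓ B = ⊥
  card_inf : ∀ A B, El N q A → El N q B → I A B → Nat.card (A ⊓ B : Subgroup G) = q
  join : ∀ A A', El N q A → El N q A' → ty A = ty A' → A ≠ A' → ∃ B, El N q B ∧ I A B ∧ I A' B
  uniq : ∀ A A' B B', El N q A → El N q A' → El N q B → El N q B' → I A B → I A' B → I A B' → I A' B' →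
    A = A' ∨ B = B'
  comm : ∀ A B, El N q A → El N q B → I A B → ∀ a ∈ A, ∀ b ∈ B, ⁅a, b⁆ ∈ A ⊓ B
  cent : ∀ A B, El N q A → El N q B → I A B → ∀ a ∈ A, a ∉ B → ∀ b ∈ B, Commute a b → b ∈ A
  fix : ∀ x ∈ N, x * x = 1 → ∀ C, El N q C → cj x C = C → x ∈ C ∨ ∃ D, El N q D ∧ I C D ∧ x ∈ D
  conj : ∀ x ∈ N, ∀ y ∈ N, x ≠ 1 → x * x = 1 → y ≠ 1 → y * y = 1 → ∃ n ∈ N, n * x * n⁻¹ = y
  tyN : ∀ n ∈ N, ∀ A, El N q A → ty (cj n A) = ty A
  faith : ∀ n ∈ N, (∀ A, El N q A → cj n A = A) → n = 1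
  gen : N ≤ closure {x | x ∈ N ∧ x * x = 1}
  syl : ∀ X, X ≤ N → Odd (X.relIndex N) → ∃ A B, El N q A ∧ El N q B ∧ I A B ∧ A ≤ X ∧ B ≤ X
  tor : ∀ τ, ∃ A0 B h, El N q A0 ∧ El N q B ∧ ty A0 = τ ∧ ty B ≠ τ ∧ ¬ I A0 B ∧ h ∈ N ∧
    orderOf h * Nat.gcd 3 (q - 1) = q - 1 ∧
    (∀ A, El N q A → (A = A0 ∨ I A B) → cj h A = A ∧ (∀ g ∈ N, cj g A = A → ∃ k ∈ zpowers h, g * k⁻¹ ∈ LL N q A) ∧
      LL N q A ⊓ zpowers h = ⊥) ∧
    (∀ k ∈ zpowers h, k ≠ 1 → ∀ A, El N q A → ty A = τ → cj k A = A → A = A0 ∨ I A B)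
  tri : 3 ∣ q - 1 → ∀ τ, ∃ A1 A2 A3 g, El N q A1 ∧ El N q A2 ∧ El N q A3 ∧ ty A1 = τ ∧ ty A2 = τ ∧ A1 ≠ A2 ∧
    (∀ B, El N q B → I A1 B → I A2 B → ¬ I A3 B) ∧ g ∈ N ∧ g ∈ LL N q A1 ∧ g ∈ LL N q A2 ∧
    ∀ A, El N q A → ty A = τ → cj g A = A → A = A1 ∨ A = A2 ∨ A = A3

end CF.H3
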