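/-
Consequences of the abstract properties of the plane of elation groups.
-/
import Cfsg.Agent.H3.A
set_option autoImplicit false
set_option linter.unusedSectionVars false

namespace CF.H3
open Subgroup
open scoped commutatorElement

theorem dc_le {X Y : Type*} [Finite X] [Finite Y] (S : Set X) (T : Set Y) (R : X → Y → Prop) (a b : ℕ)
    (h1 : ∀ x ∈ S, a ≤ {y | y ∈ T ∧ R x y}.ncard) (h2 : ∀ y ∈ T, {x | x ∈ S ∧ R x y}.ncard ≤ b) :
    S.ncard * a ≤ T.ncard * b := by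
  classical
  have := Finset.card_mul_le_card_mul (s := S.toFinite.toFinset) (t := T.toFinite.toFinset) R (m := a) (n := b)
    (fun x hx => by
      refine (h1 x (by simpa using hx)).trans (le_of_eq ?_)
      rw [← Set.ncard_coe_finset]; congr 1; ext y; simp)
    (fun y hy => by
      refine le_trans (le_of_eq ?_) (h2 y (by simpa using hy))
      rw [← Set.ncard_coe_finset]; congr 1; ext y; simp)
  rwa [← Set.ncard_eq_toFinset_card, ← Set.ncard_eq_toFinset_card] at this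

theorem dc_eq {X Y : Type*} [Finite X] [Finite Y] (S : Set X) (T : Set Y) (R : X → Y → Prop) (a b : ℕ)
    (h1 : ∀ x ∈ S, {y | y ∈ T ∧ R x y}.ncard = a) (h2 : ∀ y ∈ T, {x | x ∈ S ∧ R x y}.ncard = b) :
    S.ncard * a = T.ncard * b :=
  le_antisymm (dc_le S T R a b (fun x hx => (h1 x hx).ge) (fun y hy => (h2 y hy).le))
    (dc_le T S (fun y x => R x y) b a (fun y hy => (h2 y hy).ge) (fun x hx => (h1 x hx).le))

theorem ncard_eq_one_of {Y : Type*} {T : Set Y} (y : Y) (h1 : y ∈ T) (h2 : ∀ y' ∈ T, y' = y) : T.ncard = 1 := by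
  rw [Set.ncard_eq_one]; exact ⟨y, Set.eq_singleton_iff_unique_mem.2 ⟨h1, h2⟩⟩

variable {G : Type*} [Group G] [Finite G]

theorem ncard_ne_one (A : Subgroup G) : {x | x ∈ A ∧ x ≠ 1}.ncard = Nat.card A - 1 := by
  have : {x | x ∈ A ∧ x ≠ 1} = (A : Set G) \ {1} := by ext x; simp
  rw [this, Set.ncard_sdiff_singleton_of_mem A.one_mem]
  rfl

omit [Finite G] in
theorem comm_mul_right {a b c : G} (h : Commute ⁅a, c⁆ b) : ⁅a, b * c⁆ = ⁅a, b⁆ * ⁅a, c⁆ := by
  have h1 := h.inv_right.eq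
  simp only [commutatorElement_def] at h1 ⊢
  calc a * (b * c) * a⁻¹ * (b * c)⁻¹ = a * b * a⁻¹ * (a * c * a⁻¹ * c⁻¹ * b⁻¹) := by group
    _ = _ := by rw [h1]; group

namespace PL
variable {N : Subgroup G} {q : ℕ} {ty : Subgroup G → Bool} (P : PL N q ty)
variable {A A' B B' C D : Subgroup G}
include P

theorem ty_ne (hA : El N q A) (hB : El N q B) (h : I A B) : ty A ≠ ty B :=
  fun e => h.2 (P.disj A B hA hB e h.1)

theorem eq_of_mem (hA : El N q A) (hB : El N q B) (ht : ty A = ty B) {z : G} (h1 : z ≠ 1) (ha : z ∈ A)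
    (hb : z ∈ B) : A = B := by
  by_contra h
  exact P.ty_ne hA hB (I_of_mem h h1 ha hb) ht

theorem not_I (hA : El N q A) (hB : El N q B) (ht : ty A = ty B) : ¬ I A B := fun h => P.ty_ne hA hB h ht

theorem ty_eq (hA : El N q A) (hA' : El N q A') (hB : El N q B) (h : I A B) (h' : I A' B) : ty A = ty A' := by
  have h1 := P.ty_ne hA hB h
  have h2 := P.ty_ne hA' hB h'
  revert h1 h2; cases ty A <;> cases ty A' <;> cases ty B <;> simp

theorem ex (hA : El N q A) : ∃ z, z ≠ 1 ∧ z ∈ A := by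
  have : A ≠ ⊥ := by
    rintro rfl
    have h := hA.2.2
    have := P.two_le
    rw [Subgroup.card_bot] at h
    nlinarith
  obtain ⟨⟨z, hz⟩, h1⟩ := (Subgroup.ne_bot_iff_exists_ne_one).1 this
  exact ⟨z, fun e => h1 (Subtype.ext e), hz⟩

theorem ex_not (hA : El N q A) (hB : El N q B) (h : I A B) : ∃ a ∈ A, a ∉ B := by
  by_contra hc
  push Not at hc
  have h1 := P.card_inf A B hA hB h
  rw [inf_of_le_left hc, hA.2.2] at h1
  have := P.two_le
  nlinarith

theorem norm (hA : El N q A) (hB : El N q B) (h : I A B) {a : G} (ha : a ∈ A) : cj a B = B :=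
  cj_eq_of_le fun b hb => by
    have := B.mul_mem (P.comm A B hA hB h a ha b hb).2 hb
    simpa [commutatorElement_def] using this

theorem other (hA : El N q A) {z : G} (h1 : z ≠ 1) (hz : z ∈ A) : ∃ B, El N q B ∧ I A B ∧ z ∈ B := by
  obtain ⟨B, hB, ht, hz'⟩ := P.inv z (hA.1 hz) h1 (hA.2.1 z hz) (!ty A)
  refine ⟨B, hB, I_of_mem ?_ h1 hz hz', hz'⟩
  rintro rfl
  simp at ht

theorem two (hA : El N q A) (hB : El N q B) (h : I A B) {z : G} (h1 : z ≠ 1) (ha : z ∈ A) (hb : z ∈ B)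
    (hC : El N q C) (hc : z ∈ C) : C = A ∨ C = B := by
  by_cases e : ty C = ty A
  · exact Or.inl (P.eq_of_mem hC hA e h1 hc ha)
  · refine Or.inr (P.eq_of_mem hC hB ?_ h1 hc hb)
    have := P.ty_ne hA hB h
    revert this e; cases ty A <;> cases ty C <;> cases ty B <;> simp

theorem ctr (hA : El N q A) (hB : El N q B) {z u : G} (hz : z ∈ A ⊓ B) (hu : u ∈ A ⊔ B) : Commute z u := by
  have : A ⊔ B ≤ centralizer {z} := sup_le (fun a ha => by
      rw [mem_centralizer_singleton_iff]; exact (hA.comm ha hz.1).eq)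
    (fun a ha => by rw [mem_centralizer_singleton_iff]; exact (hB.comm ha hz.2).eq)
  exact (mem_centralizer_singleton_iff.1 (this hu)).symm

theorem comm_surj (hA : El N q A) (hB : El N q B) (h : I A B) {a : G} (ha : a ∈ A) (hb : a ∉ B) {z : G}
    (hz : z ∈ A ⊓ B) : ∃ b ∈ B, ⁅a, b⁆ = z := by
  let φ : B →* (A ⊓ B : Subgroup G) := MonoidHom.mk' (fun b => ⟨⁅a, b.1⁆, P.comm A B hA hB h a ha b b.2⟩) (by
    intro b c
    apply Subtype.ext
    exact comm_mul_right (hB.comm (P.comm A B hA hB h a ha c c.2).2 b.2))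
  have hk : Nat.card φ.ker ≤ q := by
    rw [← P.card_inf A B hA hB h]
    refine Nat.card_le_card_of_injective (fun x => (⟨x.1.1, P.cent A B hA hB h a ha hb _ x.1.2 ?_, x.1.2⟩ :
      (A ⊓ B : Subgroup G))) ?_
    · exact commutatorElement_eq_one_iff_commute.1 (congrArg Subtype.val x.2)
    · intro x y e
      exact Subtype.ext (Subtype.ext (congrArg (fun t : (A ⊓ B : Subgroup G) => (t : G)) e))
  have h2 := φ.ker.card_mul_index
  rw [Subgroup.index_ker, hB.2.2] at h2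
  have h3 : φ.range = ⊤ := by
    apply Subgroup.eq_top_of_le_card
    rw [P.card_inf A B hA hB h]
    have := P.two_le
    by_contra hlt
    push Not at hlt
    have : Nat.card φ.ker * Nat.card φ.range < q * q := by
      calc _ ≤ q * Nat.card φ.range := Nat.mul_le_mul_right _ hk
        _ < q * q := Nat.mul_lt_mul_of_pos_left hlt (by omega)
    nlinarith
  obtain ⟨b, hb⟩ : (⟨z, hz⟩ : (A ⊓ B : Subgroup G)) ∈ φ.range := h3 ▸ mem_top _
  exact ⟨b, b.2, congrArg Subtype.val hb⟩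

theorem ncard_inc (hA : El N q A) : {B | El N q B ∧ I A B}.ncard = q + 1 := by
  have := dc_eq {x | x ∈ A ∧ x ≠ 1} {B | El N q B ∧ I A B} (fun x B => x ∈ B) 1 (q - 1)
    (fun x hx => by
      obtain ⟨B, h1, h2, h3⟩ := P.other hA hx.2 hx.1
      refine ncard_eq_one_of B ⟨⟨h1, h2⟩, h3⟩ fun C hC => ?_
      exact P.eq_of_mem hC.1.1 h1 (P.ty_eq hC.1.1 h1 hA hC.1.2.symm h2.symm) hx.2 hC.2 h3)
    (fun B hB => by
      rw [← P.card_inf A B hA hB.1 hB.2, ← ncard_ne_one]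
      congr 1; ext x; simp only [Set.mem_ofPred_eq, mem_inf]; tauto)
  rw [ncard_ne_one, hA.2.2] at this
  have h2 := P.two_le
  obtain ⟨r, rfl⟩ : ∃ r, q = r + 1 := ⟨q - 1, by omega⟩
  have h3 : (r + 1) ^ 2 - 1 = (r + 2) * r := by
    have : (r + 1) ^ 2 = (r + 2) * r + 1 := by ring
    omega
  rw [h3, mul_one, Nat.add_sub_cancel] at this
  exact (Nat.eq_of_mul_eq_mul_right (by omega) this).symm

theorem ncard_inc' (hA : El N q A) (hB : El N q B) (h : I A B) :
    {C | El N q C ∧ I C A ∧ C ≠ B}.ncard = q := by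
  have : {C | El N q C ∧ I C A ∧ C ≠ B} = {C | El N q C ∧ I A C} \ {B} := by
    ext C; simp only [Set.mem_ofPred_eq, Set.mem_sdiff, Set.mem_singleton_iff]
    exact ⟨fun h => ⟨⟨h.1, h.2.1.symm⟩, h.2.2⟩, fun h => ⟨h.1.1, h.1.2.symm, h.2⟩⟩
  rw [this, Set.ncard_sdiff_singleton_of_mem (by exact ⟨hB, h⟩), P.ncard_inc hA]; rfl

theorem third (hA : El N q A) (B1 B2 : Subgroup G) : ∃ B, El N q B ∧ I A B ∧ B ≠ B1 ∧ B ≠ B2 := by
  by_contra hc
  push Not at hc
  have h1 : {B | El N q B ∧ I A B} ⊆ {B1, B2} := fun B hB => by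
    by_cases e : B = B1
    · exact Or.inl e
    · exact Or.inr (hc B hB.1 hB.2 e)
  have h2 := Set.ncard_le_ncard h1
  have h3 : ({B1, B2} : Set (Subgroup G)).ncard ≤ 2 := (Set.ncard_insert_le _ _).trans (by simp)
  rw [P.ncard_inc hA] at h2
  have := P.two_le
  omega

theorem same_iff (hA : El N q A) (hA' : El N q A') :
    ty A = ty A' ↔ A = A' ∨ ∃ B, El N q B ∧ I A B ∧ I A' B := by
  constructor
  · intro h
    by_cases e : A = A'
    · exact Or.inl e
    · exact Or.inr (P.join A A' hA hA' h e)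
  · rintro (rfl | ⟨B, h1, h2, h3⟩)
    · rfl
    · exact P.ty_eq hA hA' h1 h2 h3

theorem ty_cj {ty' : Subgroup G → Bool} {g : G} (P' : PL (cj g N) q ty') (hA : El N q A) (hA' : El N q A')
    (h : ty A = ty A') : ty' (cj g A) = ty' (cj g A') := by
  rw [P'.same_iff (hA.cj g) (hA'.cj g)]
  rcases (P.same_iff hA hA').1 h with rfl | ⟨B, h1, h2, h3⟩
  · exact Or.inl rfl
  · exact Or.inr ⟨cj g B, h1.cj g, I_cj.2 h2, I_cj.2 h3⟩

theorem ty_fix {g : G} (hg : cj g N = N) (hA : El N q A) (hA' : ty (cj g A) = ty A) (hC : El N q C) :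
    ty (cj g C) = ty C := by
  have P' : PL (cj g N) q ty := hg.symm ▸ P
  by_cases e : ty C = ty A
  · rw [P.ty_cj P' hC hA e, hA', e]
  · obtain ⟨B, h1, h2, -⟩ := P.third hA A A
    have e1 := P.ty_ne hA h1 h2
    have e2 := P.ty_ne (hA.cj' hg) (h1.cj' hg) (I_cj.2 h2)
    have e3 : ty C = ty B := by revert e e1; cases ty A <;> cases ty C <;> cases ty B <;> simp
    rw [P.ty_cj P' hC h1 e3, e3]
    revert e1 e2; rw [hA']; cases ty A <;> cases ty (cj g B) <;> cases ty B <;> simp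

theorem uniq' (hA : El N q A) (hA' : El N q A') (hB : El N q B) (hB' : El N q B') (hne : A ≠ A') (h1 : I A B)
    (h2 : I A' B) (h3 : I A B') (h4 : I A' B') : B = B' :=
  (P.uniq A A' B B' hA hA' hB hB' h1 h2 h3 h4).resolve_left hne

/-- an element of `A` fixing another member of the same type lies in the join -/
theorem mem_of_fix (hA : El N q A) (hB : El N q B) (hC : El N q C) (h : I A B) (h' : I C B) (hne : C ≠ A) {a : G}
    (ha : a ∈ A) (hf : cj a C = C) : a ∈ B := by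
  by_cases h1 : a = 1
  · exact h1 ▸ B.one_mem
  have ht := P.ty_eq hC hA hB h' h
  rcases P.fix a (hA.1 ha) (hA.2.1 a ha) C hC hf with h2 | ⟨D, h2, h3, h4⟩
  · exact absurd (P.eq_of_mem hC hA ht h1 h2 ha) hne
  · have : I A D := I_of_mem (by rintro rfl; exact P.ty_ne hC hA h3 ht) h1 ha h4
    rwa [P.uniq' hC hA hB h2 hne h' h h3 this]

theorem trans_inc (hA : El N q A) (hB : El N q B) (h : I A B) (hC : El N q C) (hD : El N q D) (h1 : I C B)
    (h2 : I D B) (n1 : C ≠ A) (n2 : D ≠ A) : ∃ a ∈ A, cj a C = D := by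
  refine cj_fill A (A ⊓ B) {C | El N q C ∧ I C B ∧ C ≠ A} C (fun a ha => ⟨hC.cjN (hA.1 ha), ?_, ?_⟩)
    (fun a ha hf => ⟨ha, P.mem_of_fix hA hB hC h h1 n1 ha hf⟩) ?_ D ⟨hD, h2, n2⟩
  · rw [← P.norm hA hB h ha]; exact I_cj.2 h1
  · rw [← cj_eq_of_mem ha]; exact fun e => n1 (cj_inj.1 e)
  · rw [P.ncard_inc' hB hA h.symm, P.card_inf A B hA hB h, hA.2.2, sq]

theorem transZ {R : Subgroup G} (hA : El N q A) (hB : El N q B) (h : I A B) (hR : El N q R) (hr : I R B) (nr : R ≠ A)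
    (hC : El N q C) (hD : El N q D) (h1 : I C R) (h2 : I D R) (n1 : C ≠ B) (n2 : D ≠ B) :
    ∃ z ∈ A ⊓ B, cj z C = D := by
  refine cj_fill (A ⊓ B) ⊥ {C | El N q C ∧ I C R ∧ C ≠ B} C (fun a ha => ⟨hC.cjN (hA.1 ha.1), ?_, ?_⟩)
    (fun a ha hf => ?_) ?_ D ⟨hD, h2, n2⟩
  · rw [← P.norm hB hR hr.symm ha.2]; exact I_cj.2 h1
  · rw [← cj_eq_of_mem ha.2]; exact fun e => n1 (cj_inj.1 e)
  · have h3 := P.mem_of_fix hB hR hC hr.symm h1 n1 ha.2 hf
    by_contra h4
    exact nr (P.eq_of_mem hR hA (P.ty_eq hR hA hB hr h) h4 h3 ha.1)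
  · rw [P.ncard_inc' hR hB hr, P.card_inf A B hA hB h]; simp

/-- fixed by two members -/
theorem fix_join {g : G} (hg : cj g N = N) (hA : El N q A) (hA' : El N q A') (hB : El N q B) (hne : A ≠ A')
    (h1 : I A B) (h2 : I A' B) (f1 : cj g A = A) (f2 : cj g A' = A') : cj g B = B :=
  P.uniq' hA hA' (hB.cj' hg) hB hne (f1 ▸ I_cj.2 h1) (f2 ▸ I_cj.2 h2) h1 h2

theorem lemQ {g : G} (hg : cj g N = N) (hA : El N q A) (hA' : El N q A') (ht : ty A = ty A') (hne : A ≠ A')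
    (f1 : ∀ B, El N q B → I A B → cj g B = B) (f2 : ∀ B, El N q B → I A' B → cj g B = B)
    (hC : El N q C) : cj g C = C := by
  obtain ⟨L, hL, l1, l2⟩ := P.join A A' hA hA' ht hne
  have s1 : ∀ R, El N q R → ty R = ty A → ¬ I R L → cj g R = R := by
    intro R hR tR nR
    obtain ⟨M, hM, m1, m2⟩ := P.join A R hA hR tR.symm (by rintro rfl; exact nR l1)
    obtain ⟨M', hM', m1', m2'⟩ := P.join A' R hA' hR (ht.symm.trans tR.symm) (by rintro rfl; exact nR l2)
    refine P.fix_join hg hM hM' hR ?_ m2.symm m2'.symm (f1 M hM m1) (f2 M' hM' m1')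
    rintro rfl
    exact nR (P.uniq' hA hA' hM hL hne m1 m1' l1 l2 ▸ m2)
  have s2 : ∀ M, El N q M → ty M = ty L → cj g M = M := by
    intro M hM tM
    by_cases e : M = L
    · exact e ▸ f1 L hL l1
    obtain ⟨R0, hR0, r1, r2⟩ := P.join M L hM hL tM e
    obtain ⟨R1, hR1, r3, n1, -⟩ := P.third hM R0 R0
    obtain ⟨R2, hR2, r4, n2, n3⟩ := P.third hM R0 R1
    have t0 := P.ty_eq hR0 hA hL r2.symm l1
    refine P.fix_join hg hR1 hR2 hM n3.symm r3.symm r4.symm (s1 R1 hR1 ?_ ?_) (s1 R2 hR2 ?_ ?_)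
    · exact (P.ty_eq hR1 hR0 hM r3.symm r1.symm).trans t0
    · exact fun h => n1 (P.uniq' hM hL hR1 hR0 e r3 h.symm r1 r2)
    · exact (P.ty_eq hR2 hR0 hM r4.symm r1.symm).trans t0
    · exact fun h => n2 (P.uniq' hM hL hR2 hR0 e r4 h.symm r1 r2)
  by_cases e : ty C = ty L
  · exact s2 C hC e
  obtain ⟨M1, h1, r1, -⟩ := P.third hC C C
  obtain ⟨M2, h2, r2, n2, -⟩ := P.third hC M1 M1
  have t1 := P.ty_ne hC h1 r1
  have t2 := P.ty_ne hC h2 r2
  refine P.fix_join hg h1 h2 hC n2.symm r1.symm r2.symm (s2 M1 h1 ?_) (s2 M2 h2 ?_)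
  · revert e t1; cases ty C <;> cases ty L <;> cases ty M1 <;> simp
  · revert e t2; cases ty C <;> cases ty L <;> cases ty M2 <;> simp

theorem cent_of_fix {g : G} (hg : cj g N = N) (f : ∀ C, El N q C → cj g C = C) {n : G} (hn : n ∈ N) :
    Commute g n := by
  rw [← commutatorElement_eq_one_iff_commute]
  refine P.faith _ (comm_mem_of_cj_eq hg hn) fun C hC => ?_
  rw [commutatorElement_def, cj_mul, cj_mul, cj_mul, cj_inv_eq (f _ (hC.cjN (N.inv_mem hn))), cj_cj_inv, f C hC]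

theorem eq_one_of_cent {n : G} (hn : n ∈ N) (h : ∀ m ∈ N, Commute n m) : n = 1 :=
  P.faith n hn fun C hC => cj_eq_of_comm fun x hx => h x (hC.1 hx)

end PL
end CF.H3
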