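/-
Automorphisms and overgroups of a Sylow 2-subgroup in the plane of elation groups.
-/
import Cfsg.Agent.H3.B
set_option autoImplicit false
set_option linter.unusedSectionVars false

namespace CF.H3
open Subgroup
open scoped commutatorElement

variable {G : Type*} [Group G] [Finite G]

omit [Finite G] in
theorem comm_ctr {s t z1 z2 : G} (h1 : Commute z1 s) (h2 : Commute z1 t) (h3 : Commute z2 s) (h4 : Commute z2 t)
    (h5 : Commute z1 z2) : ⁅z1 * s, z2 * t⁆ = ⁅s, t⁆ := by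
  simp only [commutatorElement_def, mul_inv_rev]
  calc z1 * s * (z2 * t) * (s⁻¹ * z1⁻¹) * (t⁻¹ * z2⁻¹) = z1 * (s * z2) * t * s⁻¹ * (z1⁻¹ * t⁻¹) * z2⁻¹ := by group
    _ = z1 * z2 * (s * t * s⁻¹ * t⁻¹) * z1⁻¹ * z2⁻¹ := by rw [← h3.eq, h2.inv_inv.eq]; group
    _ = s * t * s⁻¹ * t⁻¹ := by
      rw [(((((h1.mul_left h3).mul_right (h2.mul_left h4)).mul_right (h1.mul_left h3).inv_right)).mul_right
        (h2.mul_left h4).inv_right).eq, h5.eq]; group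

omit [Finite G] in
theorem conj_comm (y s t : G) : y * ⁅s, t⁆ * y⁻¹ = ⁅y * s * y⁻¹, y * t * y⁻¹⁆ := by
  simp only [commutatorElement_def]; group

omit [Finite G] in
theorem conj_eq_comm_mul (y s : G) : y * s * y⁻¹ = ⁅y, s⁆ * s := by simp [commutatorElement_def]

namespace PL
variable {N : Subgroup G} {q : ℕ} {ty : Subgroup G → Bool} (P : PL N q ty)
variable {A A' B B' C D : Subgroup G}
include P

theorem mem_sup (hA : El N q A) (hB : El N q B) (h : I A B) {u : G} (hu : u ∈ A ⊔ B) :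
    ∃ s ∈ A, ∃ t ∈ B, u = s * t := by
  have : A ≤ normalizer (B : Set G) := fun a ha => by
    rw [mem_normalizer_iff]
    intro b
    have := P.norm hA hB h (A.inv_mem ha)
    conv_lhs => rw [← this, mem_cj, inv_inv]
  have h1 := coe_mul_of_left_le_normalizer_right A B this
  rw [← SetLike.mem_coe, h1] at hu
  obtain ⟨s, hs, t, ht, rfl⟩ := hu
  exact ⟨s, hs, t, ht, rfl⟩

theorem norm_sup (hA : El N q A) (hB : El N q B) (h : I A B) {u : G} (hu : u ∈ A ⊔ B) : cj u A = A := by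
  obtain ⟨s, hs, t, ht, rfl⟩ := P.mem_sup hA hB h hu
  exact cj_mul_eq (cj_eq_of_mem hs) (P.norm hB hA h.symm ht)

theorem mem_of_comm (hA : El N q A) (hB : El N q B) (h : I A B) {u s : G} (hu : u ∈ A ⊔ B) (hs : s ∈ A)
    (hs' : s ∉ B) (hc : Commute s u) : u ∈ A := by
  obtain ⟨a, ha, t, ht, rfl⟩ := P.mem_sup hA hB h hu
  refine A.mul_mem ha (P.cent A B hA hB h s hs hs' t ht ?_)
  have := (hA.comm hs ha).inv_right.mul_right hc
  simpa using this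

theorem comm_sup (hA : El N q A) (hB : El N q B) (h : I A B) {u s : G} (hu : u ∈ A ⊔ B) (hs : s ∈ A) :
    ⁅u, s⁆ ∈ A ⊓ B := by
  obtain ⟨a, ha, t, ht, rfl⟩ := P.mem_sup hA hB h hu
  have h1 := P.comm B A hB hA h.symm t ht s hs
  have : ⁅a * t, s⁆ = ⁅t, s⁆ := by
    have h2 := (hA.comm ha (A.mul_mem h1.2 hs)).eq
    rw [← conj_eq_comm_mul] at h2
    simp only [commutatorElement_def]
    calc a * t * s * (a * t)⁻¹ * s⁻¹ = a * (t * s * t⁻¹) * a⁻¹ * s⁻¹ := by group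
      _ = _ := by rw [h2]; group
  rw [this, inf_comm]; exact h1

theorem lemT1 (hA : El N q A) (hB : El N q B) (h : I A B) {y : G} (hy : y * y = 1) (f1 : cj y A = A)
    (f2 : cj y B = B) (hc : ∀ z ∈ A ⊓ B, Commute y z) {t : G} (ht : t ∈ B) : ⁅y, t⁆ ∈ A := by
  obtain ⟨s, hs, hs', hy'⟩ : ∃ s ∈ A, s ∉ B ∧ ⁅y, s⁆ ∈ B := by
    obtain ⟨s, h1, h2⟩ := P.ex_not hA hB h
    by_cases e : ⁅y, s⁆ ∈ B
    · exact ⟨s, h1, h2, e⟩
    refine ⟨⁅y, s⁆, comm_mem_of_cj_eq f1 h1, e, ?_⟩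
    have h3 : y * ⁅y, s⁆ * y⁻¹ = ⁅y, s⁆⁻¹ := by
      simp only [commutatorElement_def, mul_inv_rev, inv_inv, inv_eq_of_sq hy]
      calc y * (y * s * y * s⁻¹) * y = (y * y) * s * y * s⁻¹ * y := by group
        _ = _ := by rw [hy]; group
    rw [hA.inv (comm_mem_of_cj_eq f1 h1)] at h3
    rw [commutatorElement_def y, h3, mul_inv_cancel]; exact B.one_mem
  have z1 : ⁅y, s⁆ ∈ A ⊓ B := ⟨comm_mem_of_cj_eq f1 hs, hy'⟩
  have t1 := mem_of_cj_eq f2 ht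
  have w1 := P.comm A B hA hB h s hs t ht
  have e1 : ⁅s, y * t * y⁻¹⁆ = ⁅s, t⁆ := by
    have := conj_comm y s t
    rw [(hc _ w1).eq, mul_inv_cancel_right, conj_eq_comm_mul y s, ← one_mul (y * t * y⁻¹),
      comm_ctr (hA.comm z1.1 hs) (hB.comm z1.2 t1) (Commute.one_left _) (Commute.one_left _)
        (Commute.one_right _)] at this
    exact this.symm
  refine P.cent A B hA hB h s hs hs' _ (comm_mem_of_cj_eq f2 ht) ?_
  rw [← commutatorElement_eq_one_iff_commute, commutatorElement_def y, hB.inv ht,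
    comm_mul_right (hB.comm w1.2 t1), e1]
  exact hA.2.1 _ w1.1

theorem lemT2 (hA : El N q A) (hB : El N q B) (h : I A B) {g : G} (hg : cj g N = N) (f1 : cj g A = A)
    (f2 : cj g B = B) (hc : ∀ s ∈ A, ⁅g, s⁆ ∈ B) : ∃ s ∈ A, ∀ C, El N q C → I C B → cj (s⁻¹ * g) C = C := by
  obtain ⟨R, hR, r1, r2, -⟩ := P.third hB A A
  obtain ⟨s, hs, e⟩ := P.trans_inc hA hB h hR (hR.cj' hg) r1.symm (f2 ▸ I_cj.2 r1.symm) r2
    (f1 ▸ fun e => r2 (cj_inj.1 e))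
  refine ⟨s, hs, fun C hC c1 => ?_⟩
  by_cases e1 : C = A
  · rw [e1]; exact cj_mul_eq (cj_eq_of_mem (A.inv_mem hs)) f1
  obtain ⟨t, ht, rfl⟩ := P.trans_inc hA hB h hR hC r1.symm c1 r2 e1
  have e2 : s⁻¹ * g * t = ⁅g, t⁆ * t * (s⁻¹ * g) := by
    rw [← conj_eq_comm_mul]
    have := (hA.comm (A.inv_mem hs) (mem_of_cj_eq f1 ht)).eq
    calc s⁻¹ * g * t = s⁻¹ * (g * t * g⁻¹) * g := by group
      _ = _ := by rw [this]; group
  rw [← cj_mul, e2, cj_mul, cj_mul s⁻¹, ← e, cj_inv_cj, cj_mul]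
  exact P.norm hB hC c1.symm (hc t ht)

theorem lemT (hA : El N q A) (hB : El N q B) (h : I A B) {y : G} (hy : y * y = 1) (hg : cj y N = N)
    (f1 : cj y A = A) (f2 : cj y B = B) (hc : ∀ z ∈ A ⊓ B, Commute y z) :
    ∃ u ∈ A ⊔ B, ∀ n ∈ N, Commute (u⁻¹ * y) n := by
  obtain ⟨s, hs, e1⟩ := P.lemT2 hA hB h hg f1 f2 fun s hs =>
    P.lemT1 hB hA h.symm hy f2 f1 (by rwa [inf_comm]) hs
  have g1 : cj (s⁻¹ * y) N = N := cj_mul_eq (cj_eq_of_mem (N.inv_mem (hA.1 hs))) hg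
  have f3 : cj (s⁻¹ * y) B = B := cj_mul_eq (P.norm hA hB h (A.inv_mem hs)) f2
  obtain ⟨t, ht, e2⟩ := P.lemT2 hB hA h.symm g1 f3 (e1 A hA h) fun t ht => by
    have h1 := P.lemT1 hA hB h hy f1 f2 hc ht
    have h2 := mem_of_cj_eq (P.norm hB hA h.symm ht) hs
    have := A.mul_mem (A.mul_mem (A.inv_mem hs) h1) h2
    simp only [commutatorElement_def] at this ⊢
    convert this using 1; group
  set y2 := t⁻¹ * (s⁻¹ * y) with hy2
  have g2 : cj y2 N = N := cj_mul_eq (cj_eq_of_mem (N.inv_mem (hB.1 ht))) g1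
  have e3 : ∀ C, El N q C → I C B → cj y2 C = C := fun C hC c1 =>
    cj_mul_eq (P.norm hB hC c1.symm (B.inv_mem ht)) (e1 C hC c1)
  obtain ⟨R, hR, r1, r2, -⟩ := P.third hB A A
  obtain ⟨D, hD, d1, d2, -⟩ := P.third hR B B
  obtain ⟨z, hz, e⟩ := P.transZ hA hB h hR r1.symm r2 hD (hD.cj' g2) d1.symm
    (e3 R hR r1.symm ▸ I_cj.2 d1.symm) d2 (e2 B hB h.symm ▸ fun e => d2 (cj_inj.1 e))
  have g3 : cj (z⁻¹ * y2) N = N := cj_mul_eq (cj_eq_of_mem (N.inv_mem (hA.1 hz.1))) g2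
  have e4 : cj (z⁻¹ * y2) D = D := by rw [cj_mul, ← e, cj_inv_cj]
  have e5 : ∀ C, El N q C → I B C → cj (z⁻¹ * y2) C = C := fun C hC c1 =>
    cj_mul_eq (P.norm hB hC c1 (B.inv_mem hz.2)) (e3 C hC c1.symm)
  have nd : ¬ I A D := fun h' => d2 (P.uniq' hA hR hD hB r2.symm h' d1 h r1.symm)
  refine ⟨s * t * z, mul_mem (mul_mem_sup hs ht) (mem_sup_left hz.1), fun n hn => ?_⟩
  have : (s * t * z)⁻¹ * y = z⁻¹ * y2 := by rw [hy2]; group
  rw [this]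
  refine P.cent_of_fix g3 (fun C hC => P.lemQ g3 hB hD (P.ty_eq hB hD hR r1 d1.symm) d2.symm e5 ?_ hC) hn
  intro C hC c1
  obtain ⟨M, hM, m1, m2⟩ := P.join A C hA hC ((P.ty_eq hA hR hB h r1.symm).trans (P.ty_eq hR hC hD d1 c1.symm))
    (by rintro rfl; exact nd c1.symm)
  refine P.fix_join g3 hM hD hC (by rintro rfl; exact nd m1) m2.symm c1 ?_ e4
  exact cj_mul_eq (P.norm hA hM m1 (A.inv_mem hz.1)) (e2 M hM m1.symm)

theorem flag_inv (hA : El N q A) (hB : El N q B) (h : I A B) {x : G} (hx : x ∈ N) (h2 : x * x = 1)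
    (f1 : cj x A = A) (f2 : cj x B = B) : x ∈ A ∨ x ∈ B := by
  by_cases h1 : x = 1
  · exact Or.inl (h1 ▸ A.one_mem)
  rcases P.fix x hx h2 A hA f1 with h3 | ⟨D, hD, d1, d2⟩
  · exact Or.inl h3
  rcases P.fix x hx h2 B hB f2 with h3 | ⟨C, hC, c1, c2⟩
  · exact Or.inr h3
  have : I C D := I_of_mem (by rintro rfl; exact P.not_I hA hB (P.ty_eq hA hB hC d1 c1) h) h1 c2 d2
  rcases P.uniq A C B D hA hC hB hD h c1.symm d1 this with rfl | rfl
  · exact Or.inl c2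
  · exact Or.inr d2

theorem trans_flag (hA : El N q A) (hB : El N q B) (h : I A B) (hA' : El N q A') (hB' : El N q B') (h' : I A' B')
    (ht : ty A = ty A') : ∃ n ∈ N, cj n A = A' ∧ cj n B = B' := by
  obtain ⟨z, z1, z2, z3⟩ := h.ex
  obtain ⟨w, w1, w2, w3⟩ := h'.ex
  obtain ⟨n, hn, rfl⟩ := P.conj z (hA.1 z2) w (hA'.1 w2) z1 (hA.2.1 z z2) w1 (hA'.2.1 w w2)
  refine ⟨n, hn, P.eq_of_mem (hA.cjN hn) hA' ((P.tyN n hn A hA).trans ht) w1 (conj_mem_cj n z2) w2,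
    P.eq_of_mem (hB.cjN hn) hB' ((P.tyN n hn B hB).trans ?_) w1 (conj_mem_cj n z3) w3⟩
  have e1 := P.ty_ne hA hB h
  have e2 := P.ty_ne hA' hB' h'
  revert e1 e2; rw [ht]; cases ty A' <;> cases ty B <;> cases ty B' <;> simp

theorem trans_ty (hA : El N q A) (hA' : El N q A') (ht : ty A = ty A') : ∃ n ∈ N, cj n A = A' := by
  obtain ⟨B, h1, h2, -⟩ := P.third hA A A
  obtain ⟨B', h3, h4, -⟩ := P.third hA' A A
  obtain ⟨n, hn, e, -⟩ := P.trans_flag hA h1 h2 hA' h3 h4 ht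
  exact ⟨n, hn, e⟩

theorem ncard_ty (hA : El N q A) : {C | El N q C ∧ ty C = ty A ∧ C ≠ A}.ncard = (q + 1) * q := by
  have := dc_eq {C | El N q C ∧ ty C = ty A ∧ C ≠ A} {B | El N q B ∧ I A B} (fun C B => I C B) 1 q
    (fun C hC => by
      obtain ⟨B, h1, h2, h3⟩ := P.join A C hA hC.1 hC.2.1.symm hC.2.2.symm
      exact ncard_eq_one_of B ⟨⟨h1, h2⟩, h3⟩ fun D hD =>
        P.uniq' hA hC.1 hD.1.1 h1 hC.2.2.symm hD.1.2 hD.2 h2 h3)
    (fun B hB => by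
      refine Eq.trans ?_ (P.ncard_inc' hB.1 hA hB.2.symm)
      congr 1; ext C; simp only [Set.mem_ofPred_eq]
      exact ⟨fun h => ⟨h.1.1, h.2, h.1.2.2⟩, fun h => ⟨⟨h.1, P.ty_eq h.1 hA hB.1 h.2.1 hB.2, h.2.2⟩, h.2.1⟩⟩)
  rwa [P.ncard_inc hA, mul_one] at this

section ov
variable {X : Subgroup G}

omit P in
theorem ov1 (hC : C ≤ X) {x : G} (hx : x ∈ X) : cj x C ≤ X := by
  rw [← cj_eq_of_mem hx]; exact cj_le.2 hC

theorem ov2 (hA : El N q A) (hB : El N q B) (h : I A B) (hC : El N q C) (c1 : I C B) (c2 : C ≠ A) (a1 : A ≤ X)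
    (c3 : C ≤ X) (hD : El N q D) (d1 : I D B) : D ≤ X := by
  by_cases e : D = A
  · exact e ▸ a1
  obtain ⟨a, ha, rfl⟩ := P.trans_inc hA hB h hC hD c1 d1 c2 e
  exact ov1 c3 (a1 ha)

theorem ov3 (hA : El N q A) (hB : El N q B) (h : I A B) (a1 : A ≤ X) (b1 : B ≤ X) (hX : ¬ N ≤ X)
    (hC : El N q C) (c1 : C ≤ X) (ht : ty C = ty A) : I C B := by
  by_contra nc
  have nA : A ≠ C := by rintro rfl; exact nc h
  obtain ⟨D, hD, d1, d2⟩ := P.join A C hA hC ht.symm nA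
  have s1 : ∀ R, El N q R → ty R = ty A → ¬ I R B → R ≤ X := by
    intro R hR tR nR
    obtain ⟨D', hD', d3, d4⟩ := P.join A R hA hR tR.symm (by rintro rfl; exact nR h)
    obtain ⟨b, hb, rfl⟩ := P.trans_inc hB hA h.symm hD hD' d1.symm d3.symm (by rintro rfl; exact nc d2)
      (by rintro rfl; exact nR d4)
    have := P.ov2 hA hD d1 hC d2 nA.symm a1 c1 (hR.cjN (N.inv_mem (hB.1 hb)))
      (by rw [← I_cj (g := b), cj_cj_inv]; exact d4)
    simpa using ov1 this (b1 hb)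
  have s2 : ∀ R, El N q R → ty R = ty A → R ≤ X := by
    intro R hR tR
    by_cases r1 : I R B
    swap
    · exact s1 R hR tR r1
    obtain ⟨M, hM, m1, m2, -⟩ := P.third hR B B
    obtain ⟨R1, hR1, r3, n1, -⟩ := P.third hM R R
    obtain ⟨R2, hR2, r4, n2, n3⟩ := P.third hM R R1
    refine P.ov2 hR1 hM r3.symm hR2 r4.symm n3 (s1 R1 hR1 ?_ ?_) (s1 R2 hR2 ?_ ?_) hR m1
    · exact (P.ty_eq hR1 hR hM r3.symm m1).trans tR
    · exact fun h' => m2 (P.uniq' hR1 hR hM hB n1 r3.symm m1 h' r1)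
    · exact (P.ty_eq hR2 hR hM r4.symm m1).trans tR
    · exact fun h' => m2 (P.uniq' hR2 hR hM hB n2 r4.symm m1 h' r1)
  refine hX (P.gen.trans ((closure_le _).2 fun x hx => ?_))
  by_cases e : x = 1
  · exact e ▸ X.one_mem
  obtain ⟨R, hR, tR, hx'⟩ := P.inv x hx.1 e hx.2 (ty A)
  exact s2 R hR tR hx'

theorem ovr (hA : El N q A) (hB : El N q B) (h : I A B) (a1 : A ≤ X) (b1 : B ≤ X) (hX : ¬ N ≤ X) :
    (∀ C, El N q C → (C ≤ X ↔ C = A ∨ C = B)) ∨ (∀ C, El N q C → (C ≤ X ↔ C = A ∨ I A C)) ∨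
      (∀ C, El N q C → (C ≤ X ↔ C = B ∨ I B C)) := by
  have t0 := P.ty_ne hA hB h
  have s1 : ∀ C, El N q C → C ≤ X → I C B ∨ I C A := fun C hC c1 => by
    by_cases e : ty C = ty A
    · exact Or.inl (P.ov3 hA hB h a1 b1 hX hC c1 e)
    · refine Or.inr (P.ov3 hB hA h.symm b1 a1 hX hC c1 ?_)
      revert e t0; cases ty A <;> cases ty B <;> cases ty C <;> simp
  by_cases e1 : ∃ C, El N q C ∧ C ≤ X ∧ I C B ∧ C ≠ A
  · obtain ⟨C, hC, c1, c2, c3⟩ := e1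
    refine Or.inr (Or.inr fun D hD => ⟨fun d1 => ?_, ?_⟩)
    · rcases s1 D hD d1 with d2 | d2
      · exact Or.inr d2.symm
      left
      by_contra d3
      obtain ⟨A', hA', r1, r2, r3⟩ := P.third hB A C
      obtain ⟨c, hc, rfl⟩ := P.trans_inc hC hB c2 hA hA' h r1.symm c3.symm r3
      have d4 := P.ov3 hB hA h.symm b1 a1 hX (hD.cjN (hC.1 hc)) (ov1 d1 (c1 hc))
        ((P.tyN c (hC.1 hc) D hD).trans (P.ty_eq hD hB hA d2 h.symm))
      have := P.uniq' hA hA' (hD.cjN (hC.1 hc)) hB r2.symm d4.symm (I_cj.2 d2.symm) h r1.symm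
      rw [← P.norm hC hB c2 hc, cj_inj] at this
      exact d3 this
    · rintro (rfl | d1)
      · exact b1
      · exact P.ov2 hA hB h hC c2 c3 a1 c1 hD d1.symm
  by_cases e2 : ∃ C, El N q C ∧ C ≤ X ∧ I C A ∧ C ≠ B
  · obtain ⟨C, hC, c1, c2, c3⟩ := e2
    refine Or.inr (Or.inl fun D hD => ⟨fun d1 => ?_, ?_⟩)
    · rcases s1 D hD d1 with d2 | d2
      · left
        by_contra d3
        exact e1 ⟨D, hD, d1, d2, d3⟩
      · exact Or.inr d2.symm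
    · rintro (rfl | d1)
      · exact a1
      · exact P.ov2 hB hA h.symm hC c2 c3 b1 c1 hD d1.symm
  refine Or.inl fun D hD => ⟨fun d1 => ?_, ?_⟩
  · rcases s1 D hD d1 with d2 | d2
    · left
      by_contra d3
      exact e1 ⟨D, hD, d1, d2, d3⟩
    · right
      by_contra d3
      exact e2 ⟨D, hD, d1, d2, d3⟩
  · rintro (rfl | rfl)
    · exact a1
    · exact b1

end ov
end PL
end CF.H3
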