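/-
Doubly transitive groups of even degree with `L₃(q)`, `q` even, normal in a point stabiliser: the setting.
-/
import Cfsg.Agent.H3.C
set_option autoImplicit false
set_option linter.unusedSectionVars false

namespace CF.H3
open Subgroup MulAction
open scoped commutatorElement

variable {G : Type*} [Group G] [Finite G] {Ω : Type*} [Finite Ω] [MulAction G Ω] [FaithfulSMul G Ω]

theorem cj_stab (g : G) (b : Ω) : cj g (stabilizer G b) = stabilizer G (g • b) := by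
  ext x; simp only [mem_cj, mem_stabilizer_iff, mul_smul, inv_smul_eq_iff]

theorem cj_le_stab {g : G} {b : Ω} {A : Subgroup G} : cj g A ≤ stabilizer G (g • b) ↔ A ≤ stabilizer G b := by
  rw [← cj_stab, cj_le]

theorem cj_le_stab' {g : G} {b : Ω} {A : Subgroup G} (hg : g • b = b) (h : A ≤ stabilizer G b) :
    cj g A ≤ stabilizer G b := by
  rw [← hg]; exact cj_le_stab.2 h

theorem ncard_fix_conj (g x : G) : {d : Ω | (g * x * g⁻¹) • d = d}.ncard = {d : Ω | x • d = d}.ncard := by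
  have : {d : Ω | (g * x * g⁻¹) • d = d} = (fun d => g • d) '' {d : Ω | x • d = d} := by
    ext d
    constructor
    · intro h
      refine ⟨g⁻¹ • d, ?_, by simp⟩
      simp only [Set.mem_ofPred_eq, mul_smul] at h ⊢
      exact eq_inv_smul_iff.2 h
    · rintro ⟨e, he, rfl⟩
      simp only [Set.mem_ofPred_eq, mul_smul, inv_smul_smul] at he ⊢
      rw [he]
  rw [this, Set.ncard_image_of_injective _ (MulAction.injective g)]

structure St (N : Ω → Subgroup G) (q : ℕ) (ty : Ω → Subgroup G → Bool) : Prop where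
  pl : ∀ a, PL (N a) q (ty a)
  eqv : ∀ (g : G) a, N (g • a) = cj g (N a)
  fix : ∀ a, N a ≤ stabilizer G a
  two : ∀ a b c d : Ω, a ≠ b → c ≠ d → ∃ g : G, g • a = c ∧ g • b = d
  ev : Even (Nat.card Ω)

/-- the members fixing `b` form a flag -/
def Flag (N : Ω → Subgroup G) (q : ℕ) (a b : Ω) (A B : Subgroup G) : Prop :=
  El (N a) q A ∧ El (N a) q B ∧ I A B ∧ ∀ C, El (N a) q C → (C ≤ stabilizer G b ↔ C = A ∨ C = B)

/-- the members fixing `b` form a star -/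
def Star (N : Ω → Subgroup G) (q : ℕ) (a b : Ω) (A : Subgroup G) : Prop :=
  El (N a) q A ∧ ∀ C, El (N a) q C → (C ≤ stabilizer G b ↔ C = A ∨ I A C)

variable {N : Ω → Subgroup G} {q : ℕ} {ty : Ω → Subgroup G → Bool}

theorem Flag.symm {a b : Ω} {A B : Subgroup G} (h : Flag N q a b A B) : Flag N q a b B A :=
  ⟨h.2.1, h.1, h.2.2.1.symm, fun C hC => (h.2.2.2 C hC).trans or_comm⟩

theorem Flag.le1 {a b : Ω} {A B : Subgroup G} (h : Flag N q a b A B) : A ≤ stabilizer G b :=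
  (h.2.2.2 A h.1).2 (Or.inl rfl)

theorem Flag.le2 {a b : Ω} {A B : Subgroup G} (h : Flag N q a b A B) : B ≤ stabilizer G b := h.symm.le1

theorem Star.le {a b : Ω} {A : Subgroup G} (h : Star N q a b A) : A ≤ stabilizer G b :=
  (h.2 A h.1).2 (Or.inl rfl)

namespace St
variable (S : St N q ty) {a b c d : Ω} {A B C : Subgroup G}
include S

theorem cjN {g : G} (hg : g • a = a) : cj g (N a) = N a := by rw [← S.eqv, hg]

theorem el_cj (hA : El (N a) q A) (g : G) : El (N (g • a)) q (cj g A) := S.eqv g a ▸ hA.cj g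

theorem el_cj' (hA : El (N a) q A) {g : G} (hg : g • a = a) : El (N a) q (cj g A) := hA.cj' (S.cjN hg)

theorem el_fix (hA : El (N a) q A) : A ≤ stabilizer G a := hA.1.trans (S.fix a)

theorem ex_ne (a : Ω) : ∃ b, b ≠ a := by
  by_contra h
  push Not at h
  have : Nat.card Ω = 1 := Nat.card_eq_one_iff_exists.2 ⟨a, h⟩
  have h2 := S.ev
  rw [this] at h2
  exact absurd h2 (by decide)

theorem tr (a b : Ω) : ∃ g : G, g • a = b := by
  obtain ⟨a', ha⟩ := S.ex_ne a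
  obtain ⟨b', hb⟩ := S.ex_ne b
  obtain ⟨g, h, -⟩ := S.two a a' b b' ha.symm hb.symm
  exact ⟨g, h⟩

theorem ex_el (a : Ω) : ∃ A B, El (N a) q A ∧ El (N a) q B ∧ I A B := by
  obtain ⟨A, B, h1, h2, h3, -⟩ := (S.pl a).syl (N a) le_rfl (by simp)
  exact ⟨A, B, h1, h2, h3⟩

theorem nofix (h : a ≠ b) : ¬ N a ≤ stabilizer G b := by
  intro hb
  obtain ⟨A, B, hA, -⟩ := S.ex_el a
  obtain ⟨z, z1, z2⟩ := (S.pl a).ex hA
  refine z1 (eq_of_smul_eq_smul (α := Ω) fun c => ?_)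
  rw [one_smul]
  by_cases e : c = a
  · rw [e]; exact S.fix a (hA.1 z2)
  obtain ⟨g, g1, rfl⟩ := S.two a b a c h (Ne.symm e)
  have := (cj_le_stab (g := g)).2 hb
  rw [S.cjN g1] at this
  exact this (hA.1 z2)

theorem move (h : a ≠ b) : ∃ n ∈ N a, n • b ≠ b := by
  by_contra hc
  push Not at hc
  exact S.nofix h hc

theorem ne_smul (h : b ≠ a) {n : G} (hn : n • a = a) : n • b ≠ a := by
  intro e; rw [← hn] at e; exact h (MulAction.injective n e)

theorem odd (h : a ≠ b) : Odd ((N a ⊓ stabilizer G b).relIndex (N a)) := by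
  have e1 : ∀ c : Ω, (orbit (N a) c).ncard = (N a ⊓ stabilizer G c).relIndex (N a) := fun c => by
    rw [← index_stabilizer, Subgroup.relIndex, inf_subgroupOf_left]
    congr 1
  have e2 : ∀ c : Ω, c ≠ a → (orbit (N a) c).ncard = (orbit (N a) b).ncard := fun c hc => by
    obtain ⟨g, g1, rfl⟩ := S.two a b a c h hc.symm
    have : orbit (N a) (g • b) = (fun d => g • d) '' orbit (N a) b := by
      ext d
      constructor
      · rintro ⟨n, rfl⟩
        refine ⟨_, ⟨⟨g⁻¹ * n * g, ?_⟩, rfl⟩, ?_⟩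
        · rw [← mem_cj, S.cjN g1]; exact n.2
        · simp [Subgroup.smul_def, mul_smul]
      · rintro ⟨_, ⟨n, rfl⟩, rfl⟩
        exact ⟨⟨g * n * g⁻¹, mem_of_cj_eq (S.cjN g1) n.2⟩, by simp [Subgroup.smul_def, mul_smul]⟩
    rw [this, Set.ncard_image_of_injective _ (MulAction.injective g)]
  have := dc_eq ({a}ᶜ : Set Ω) {O : Set Ω | ∃ c, c ≠ a ∧ O = orbit (N a) c} (fun x O => x ∈ O) 1
    (orbit (N a) b).ncard
    (fun x hx => ncard_eq_one_of (orbit (N a) x) ⟨⟨x, hx, rfl⟩, mem_orbit_self x⟩ (by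
      rintro _ ⟨⟨c, -, rfl⟩, h2⟩
      exact (orbit_eq_iff.2 h2).symm))
    (by
      rintro _ ⟨c, hc, rfl⟩
      rw [← e2 c hc]; congr 1; ext x
      refine ⟨fun h => h.2, fun h => ⟨?_, h⟩⟩
      obtain ⟨n, rfl⟩ := h
      exact S.ne_smul hc (S.fix a n.2))
  rw [mul_one, e1] at this
  have h3 : ({a}ᶜ : Set Ω).ncard + 1 = Nat.card Ω := by
    rw [← Set.ncard_singleton a, add_comm]; exact Set.ncard_add_ncard_compl _
  have h4 : Odd ({a}ᶜ : Set Ω).ncard := by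
    have := S.ev
    rw [← h3] at this
    exact Nat.not_even_iff_odd.1 (Nat.even_add_one.1 this)
  rw [this] at h4
  exact (Nat.odd_mul.1 h4).2

theorem dich (h : a ≠ b) : (∃ A B, Flag N q a b A B) ∨ ∃ A, Star N q a b A := by
  obtain ⟨A, B, hA, hB, h1, h2, h3⟩ := (S.pl a).syl _ inf_le_left (S.odd h)
  have e : ∀ C, El (N a) q C → (C ≤ N a ⊓ stabilizer G b ↔ C ≤ stabilizer G b) := fun C hC => by
    simp [hC.1]
  rcases (S.pl a).ovr hA hB h1 h2 h3 (fun h' => S.nofix h (h'.trans inf_le_right)) with h4 | h4 | h4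
  · exact Or.inl ⟨A, B, hA, hB, h1, fun C hC => (e C hC).symm.trans (h4 C hC)⟩
  · exact Or.inr ⟨A, hA, fun C hC => (e C hC).symm.trans (h4 C hC)⟩
  · exact Or.inr ⟨B, hB, fun C hC => (e C hC).symm.trans (h4 C hC)⟩

theorem flag_smul (h : Flag N q a b A B) (g : G) : Flag N q (g • a) (g • b) (cj g A) (cj g B) := by
  refine ⟨S.el_cj h.1 g, S.el_cj h.2.1 g, I_cj.2 h.2.2.1, fun C hC => ?_⟩
  have := h.2.2.2 (cj g⁻¹ C) (by simpa using S.el_cj hC g⁻¹)
  rw [← cj_le_stab (g := g), ← cj_inj (g := g) (B := A), ← cj_inj (g := g) (B := B), cj_cj_inv] at this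
  exact this

theorem star_smul (h : Star N q a b A) (g : G) : Star N q (g • a) (g • b) (cj g A) := by
  refine ⟨S.el_cj h.1 g, fun C hC => ?_⟩
  have := h.2 (cj g⁻¹ C) (by simpa using S.el_cj hC g⁻¹)
  rw [← cj_le_stab (g := g), ← cj_inj (g := g) (B := A), ← I_cj (g := g), cj_cj_inv] at this
  exact this

theorem ex_mem (h : a ≠ b) : ∃ C, El (N a) q C ∧ C ≤ stabilizer G b := by
  rcases S.dich h with ⟨A, B, h1⟩ | ⟨A, h1⟩
  · exact ⟨A, h1.1, h1.le1⟩
  · exact ⟨A, h1.1, h1.le⟩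

theorem key (h : a ≠ b) {x : G} (hx : x ∈ N a) (h2 : x * x = 1)
    (hp : ∀ C, El (N a) q C → C ≤ stabilizer G b → cj x C ≤ stabilizer G b) :
    ∃ C, El (N a) q C ∧ C ≤ stabilizer G b ∧ x ∈ C := by
  have P := S.pl a
  rcases S.dich h with ⟨A, B, h1⟩ | ⟨A, h1⟩
  · have f : ∀ A B, Flag N q a b A B → cj x A = A := fun A B h1 => by
      rcases (h1.2.2.2 _ (h1.1.cjN hx)).1 (hp A h1.1 h1.le1) with e | e
      · exact e
      · exact absurd ((P.tyN x hx A h1.1).symm.trans (congrArg _ e)) (P.ty_ne h1.1 h1.2.1 h1.2.2.1)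
    rcases P.flag_inv h1.1 h1.2.1 h1.2.2.1 hx h2 (f A B h1) (f B A h1.symm) with e | e
    · exact ⟨A, h1.1, h1.le1, e⟩
    · exact ⟨B, h1.2.1, h1.le2, e⟩
  · have f : cj x A = A := by
      rcases (h1.2 _ (h1.1.cjN hx)).1 (hp A h1.1 h1.le) with e | e
      · exact e
      · exact absurd (P.tyN x hx A h1.1).symm (P.ty_ne h1.1 (h1.1.cjN hx) e)
    rcases P.fix x hx h2 A h1.1 f with e | ⟨D, d1, d2, d3⟩
    · exact ⟨A, h1.1, h1.le, e⟩
    · exact ⟨D, d1, (h1.2 D d1).2 (Or.inr d2), d3⟩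

theorem key' (h : a ≠ b) {x : G} (hx : x ∈ N a) (h2 : x * x = 1) (hb : x • b = b) :
    ∃ C, El (N a) q C ∧ C ≤ stabilizer G b ∧ x ∈ C :=
  S.key h hx h2 fun _ _ hC => cj_le_stab' hb hC

theorem cent_eq_one {c u : G} (hc : ∀ n ∈ N a, Commute c n) (ha : c • a = a) (hu : u ∈ N a) (u1 : u ≠ 1)
    (u2 : u * u = 1) (hf : ∀ d : Ω, u • d = d → c • d = d) : c = 1 := by
  refine eq_of_smul_eq_smul (α := Ω) fun d => ?_
  rw [one_smul]
  by_cases e : a = d
  · exact e ▸ ha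
  obtain ⟨C, hC, c1⟩ := S.ex_mem e
  obtain ⟨x, x1, x2⟩ := (S.pl a).ex hC
  obtain ⟨n, hn, rfl⟩ := (S.pl a).conj x (hC.1 x2) u hu x1 (hC.2.1 x x2) u1 u2
  have := hf (n • d) (by rw [mul_smul, mul_smul, inv_smul_smul, c1 x2])
  rw [← mul_smul, (hc n hn).eq, mul_smul] at this
  exact MulAction.injective n this

theorem trick {y u : G} (hy : y ∈ N b) (y1 : y ≠ 1) (y2 : y * y = 1) (ya : y • a = a) (hu : u ∈ N a)
    (hc : ∀ n ∈ N a, Commute (u⁻¹ * y) n) : u = 1 ∨ y = u := by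
  obtain ⟨c, hc0⟩ : ∃ c, c = u⁻¹ * y := ⟨_, rfl⟩
  rw [← hc0] at hc
  have ey : y = u * c := by rw [hc0]; group
  have u2 : u * u = 1 := by
    refine (S.pl a).eq_one_of_cent (mul_mem hu hu) fun m hm => ?_
    have : u * u = (c * c)⁻¹ := by
      rw [eq_inv_iff_mul_eq_one, ← y2, ey]
      calc u * u * (c * c) = u * (u * c) * c := by group
        _ = u * (c * u) * c := by rw [(hc u hu).eq]
        _ = _ := by group
    rw [this]
    exact ((hc m hm).mul_left (hc m hm)).inv_left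
  by_cases u1 : u = 1
  · exact Or.inl u1
  right
  have s1 : {d : Ω | y • d = d} ⊆ {d : Ω | u • d = d} := fun d hd => by
    by_cases e : a = d
    · exact e ▸ S.fix a hu
    obtain ⟨C, hC, c1, c2⟩ := S.key e hu u2 fun C hC c1 => by
      have := cj_le_stab' hd c1
      rwa [ey, cj_mul, cj_eq_of_comm (g := c) fun x hx => hc x (hC.1 hx)] at this
    exact c1 c2
  obtain ⟨g, rfl⟩ := S.tr a b
  rw [S.eqv, mem_cj] at hy
  obtain ⟨n, hn, e⟩ := (S.pl a).conj _ hy u hu (fun e => y1 (by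
    calc y = g * (g⁻¹ * y * g) * g⁻¹ := by group
      _ = 1 := by rw [e]; group)) (by
    calc _ = g⁻¹ * (y * y) * g := by group
      _ = 1 := by rw [y2]; group) u1 u2
  have s2 : {d : Ω | u • d = d}.ncard = {d : Ω | y • d = d}.ncard := by
    rw [← ncard_fix_conj (n * g⁻¹) y, ← e]; congr 3; ext d; congr 2; group
  have s3 := Set.eq_of_subset_of_ncard_le s1 s2.le
  have : c = 1 := S.cent_eq_one hc (by rw [hc0, mul_smul, ya, inv_smul_eq_iff]; exact (S.fix a hu).symm) hu u1 u2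
    fun d hd => by
      have h1 : d ∈ {d : Ω | y • d = d} := s3 ▸ hd
      rw [hc0, mul_smul, h1, inv_smul_eq_iff]; exact hd.symm
  rw [ey, this, mul_one]

theorem TT {y : G} (hy : y ∈ N b) (y2 : y * y = 1) (ya : y • a = a) (hA : El (N a) q A) (hB : El (N a) q B)
    (h : I A B) (f1 : cj y A = A) (f2 : cj y B = B) (hc : ∀ z ∈ A ⊓ B, Commute y z) :
    y ∈ A ∨ y ∈ B ∨ ∀ n ∈ N a, Commute y n := by
  by_cases y1 : y = 1
  · exact Or.inl (y1 ▸ A.one_mem)
  obtain ⟨u, hu, h1⟩ := (S.pl a).lemT hA hB h y2 (S.cjN ya) f1 f2 hc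
  have hu' : u ∈ N a := sup_le hA.1 hB.1 hu
  rcases S.trick hy y1 y2 ya hu' h1 with rfl | rfl
  · exact Or.inr (Or.inr (by simpa using h1))
  · rcases (S.pl a).flag_inv hA hB h hu' y2 f1 f2 with e | e
    · exact Or.inl e
    · exact Or.inr (Or.inl e)

theorem cent_norm {c g : G} (hc : ∀ n ∈ N a, Commute c n) (hg : g • a = a) (n : G) (hn : n ∈ N a) :
    Commute ⁅c, g⁆ n := by
  have h1 := hc _ (mem_of_cj_eq (cj_inv_eq (S.cjN hg)) hn)
  have : Commute (g * c⁻¹ * g⁻¹) n := by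
    have h2 := h1.inv_left.eq
    rw [inv_inv] at h2
    calc g * c⁻¹ * g⁻¹ * n = g * (c⁻¹ * (g⁻¹ * n * g)) * g⁻¹ := by group
      _ = _ := by rw [h2]; group
  have h3 := (hc n hn).mul_left this
  rwa [commutatorElement_def, mul_assoc c, mul_assoc c]

theorem unif : (∀ a b : Ω, a ≠ b → ∃ A B, Flag N q a b A B) ∨ ∀ a b : Ω, a ≠ b → ∃ A, Star N q a b A := by
  by_cases h : ∃ a b : Ω, a ≠ b ∧ ∃ A B, Flag N q a b A B
  · obtain ⟨a, b, h1, A, B, h2⟩ := h
    refine Or.inl fun c d h3 => ?_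
    obtain ⟨g, rfl, rfl⟩ := S.two a b c d h1 h3
    exact ⟨_, _, S.flag_smul h2 g⟩
  · exact Or.inr fun a b h1 => (S.dich h1).resolve_left fun h2 => h ⟨a, b, h1, h2⟩

end St
end CF.H3
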