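/-
The case where a two point stabiliser in `L₃(q)` lies in a Borel subgroup is impossible.
-/
import Cfsg.Agent.H3.D
set_option autoImplicit false
set_option linter.unusedSectionVars false

namespace CF.H3
open Subgroup MulAction
open scoped commutatorElement

variable {G : Type*} [Group G] [Finite G] {Ω : Type*} [Finite Ω] [MulAction G Ω] [FaithfulSMul G Ω]
variable {N : Ω → Subgroup G} {q : ℕ} {ty : Ω → Subgroup G → Bool}

def UU (N : Ω → Subgroup G) (q : ℕ) (a b : Ω) : Subgroup G := sSup {C | El (N a) q C ∧ C ≤ stabilizer G b}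
def ZZ (N : Ω → Subgroup G) (q : ℕ) (a b : Ω) : Subgroup G := sInf {C | El (N a) q C ∧ C ≤ stabilizer G b}

theorem Flag.set {a b : Ω} {A B : Subgroup G} (h : Flag N q a b A B) :
    {C | El (N a) q C ∧ C ≤ stabilizer G b} = {A, B} := by
  ext C
  refine ⟨fun hC => (h.2.2.2 C hC.1).1 hC.2, ?_⟩
  rintro (rfl | rfl)
  · exact ⟨h.1, h.le1⟩
  · exact ⟨h.2.1, h.le2⟩

theorem Flag.U {a b : Ω} {A B : Subgroup G} (h : Flag N q a b A B) : UU N q a b = A ⊔ B := by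
  rw [UU, h.set, sSup_pair]

theorem Flag.Z {a b : Ω} {A B : Subgroup G} (h : Flag N q a b A B) : ZZ N q a b = A ⊓ B := by
  rw [ZZ, h.set, sInf_pair]

theorem U_le (a b : Ω) : UU N q a b ≤ N a := sSup_le fun _ h => h.1.1
theorem U_le' (a b : Ω) : UU N q a b ≤ stabilizer G b := sSup_le fun _ h => h.2

namespace St
variable (S : St N q ty) (hF : ∀ a b : Ω, a ≠ b → ∃ A B, Flag N q a b A B) {a b c d : Ω} {A B C : Subgroup G}
include S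

theorem U_fix (a b : Ω) : UU N q a b ≤ stabilizer G a := (U_le a b).trans (S.fix a)

theorem fl_mem (h : a ≠ b) (f : Flag N q a b A B) {x : G} (hx : x ∈ N a) (h2 : x * x = 1) (hb : x • b = b) :
    x ∈ A ∨ x ∈ B := by
  obtain ⟨C, c1, c2, c3⟩ := S.key' h hx h2 hb
  rcases (f.2.2.2 C c1).1 c2 with rfl | rfl
  · exact Or.inl c3
  · exact Or.inr c3

theorem fl_perm (f : Flag N q a b A B) {g : G} (ha : g • a = a) (hb : g • b = b) :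
    (cj g A = A ∧ cj g B = B) ∨ (cj g A = B ∧ cj g B = A) := by
  have h1 := (f.2.2.2 _ (S.el_cj' f.1 ha)).1 (cj_le_stab' hb f.le1)
  have h2 := (f.2.2.2 _ (S.el_cj' f.2.1 ha)).1 (cj_le_stab' hb f.le2)
  have h3 : cj g A ≠ cj g B := fun e => f.2.2.1.1 (cj_inj.1 e)
  rcases h1 with h1 | h1 <;> rcases h2 with h2 | h2
  · exact absurd (h1.trans h2.symm) h3
  · exact Or.inl ⟨h1, h2⟩
  · exact Or.inr ⟨h1, h2⟩
  · exact absurd (h1.trans h2.symm) h3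

include hF

theorem U_smul (h : a ≠ b) (g : G) : UU N q (g • a) (g • b) = cj g (UU N q a b) := by
  obtain ⟨A, B, f⟩ := hF a b h
  rw [f.U, (S.flag_smul f g).U, cj_sup]

theorem Z_smul (h : a ≠ b) (g : G) : ZZ N q (g • a) (g • b) = cj g (ZZ N q a b) := by
  obtain ⟨A, B, f⟩ := hF a b h
  rw [f.Z, (S.flag_smul f g).Z, cj_inf]

theorem cjU (h : a ≠ b) {g : G} (ha : g • a = a) (hb : g • b = b) : cj g (UU N q a b) = UU N q a b := by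
  rw [← S.U_smul hF h, ha, hb]

theorem memU (h : a ≠ b) {x : G} (hx : x ∈ N a) (h2 : x * x = 1) (hb : x • b = b) : x ∈ UU N q a b := by
  obtain ⟨A, B, f⟩ := hF a b h
  rw [f.U]
  rcases S.fl_mem h f hx h2 hb with e | e
  · exact mem_sup_left e
  · exact mem_sup_right e

theorem card_Z (h : a ≠ b) : Nat.card (ZZ N q a b) = q := by
  obtain ⟨A, B, f⟩ := hF a b h
  rw [f.Z, (S.pl a).card_inf A B f.1 f.2.1 f.2.2.1]

theorem comm_D (h : a ≠ b) {u v : G} (hu : u ∈ UU N q a b) (hv : v ∈ UU N q b a) :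
    ⁅v, u⁆ ∈ UU N q a b ⊓ UU N q b a :=
  ⟨comm_mem_of_cj_eq (S.cjU hF h (U_le' b a hv) (S.U_fix b a hv)) hu,
    comm_mem_of_cj_eq' (S.cjU hF h.symm (U_le' a b hu) (S.U_fix a b hu)) hv⟩

theorem fl_surj (hA : El (N a) q A) (hB : El (N a) q B) (h : I A B) : ∃ c, a ≠ c ∧ Flag N q a c A B := by
  obtain ⟨b, hb⟩ := S.ex_ne a
  have : ∀ A0 B0, Flag N q a b A0 B0 → ty a A0 = ty a A → ∃ c, a ≠ c ∧ Flag N q a c A B := fun A0 B0 f ht => by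
    obtain ⟨n, hn, rfl, rfl⟩ := (S.pl a).trans_flag f.1 f.2.1 f.2.2.1 hA hB h ht
    have := S.flag_smul f n
    rw [S.fix a hn] at this
    exact ⟨_, (S.ne_smul hb (S.fix a hn)).symm, this⟩
  obtain ⟨A0, B0, f⟩ := hF a b hb.symm
  by_cases e : ty a A0 = ty a A
  · exact this _ _ f e
  · refine this _ _ f.symm ?_
    have := (S.pl a).ty_ne f.1 f.2.1 f.2.2.1
    revert this e; cases ty a A0 <;> cases ty a A <;> cases ty a B0 <;> simp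

theorem a1 (h : a ≠ b) : UU N q a b ⊓ UU N q b a ≠ ⊥ := by
  intro h0
  have hu : ∀ c d, c ≠ d → UU N q c d ⊓ UU N q d c = ⊥ := fun c d h1 => by
    obtain ⟨g, rfl, rfl⟩ := S.two a b c d h h1
    rw [S.U_smul hF h, S.U_smul hF h.symm, ← cj_inf, h0, cj_bot]
  obtain ⟨A1, A2, f⟩ := hF a b h
  obtain ⟨B1, B2, f'⟩ := hF b a h.symm
  obtain ⟨y, y1, y2⟩ := (S.pl b).ex f'.1
  have yU : y ∈ UU N q b a := f'.U ▸ mem_sup_left y2
  have hc : ∀ u ∈ A1 ⊔ A2, Commute y u := fun u hu => by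
    rw [← commutatorElement_eq_one_iff_commute, ← mem_bot, ← h0]
    exact S.comm_D hF h (f.U ▸ hu) yU
  have ne : y ∉ A1 ⊔ A2 := fun e => y1 (by rw [← mem_bot, ← h0]; exact ⟨f.U ▸ e, yU⟩)
  have ysq := f'.1.2.1 y y2
  rcases S.TT (f'.1.1 y2) ysq (f'.le1 y2) f.1 f.2.1 f.2.2.1 (cj_eq_of_comm fun x hx => hc x (mem_sup_left hx))
    (cj_eq_of_comm fun x hx => hc x (mem_sup_right hx)) (fun x hx => hc x (mem_sup_left hx.1)) with e | e | e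
  · exact ne (mem_sup_left e)
  · exact ne (mem_sup_right e)
  obtain ⟨n, hn, n1⟩ := S.move h
  have y3 : y ∈ N (n • b) := by
    rw [S.eqv]; have := conj_mem_cj n (f'.1.1 y2)
    rwa [← (e n hn).eq, mul_inv_cancel_right] at this
  refine y1 ?_
  rw [← mem_bot, ← hu b _ n1.symm]
  exact ⟨S.memU hF n1.symm (f'.1.1 y2) ysq (S.fix _ y3), S.memU hF n1 y3 ysq (S.fix _ (f'.1.1 y2))⟩

theorem a2 (h : a ≠ b) : ¬ UU N q a b ⊓ UU N q b a ≤ ZZ N q a b := by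
  intro h0
  have h0' : UU N q a b ⊓ UU N q b a ≤ ZZ N q b a := by
    obtain ⟨g, g1, g2⟩ := S.two a b b a h h.symm
    have := (cj_le (g := g)).2 h0
    rwa [cj_inf, ← S.U_smul hF h, ← S.U_smul hF h.symm, ← S.Z_smul hF h, g1, g2, inf_comm] at this
  obtain ⟨A1, A2, f⟩ := hF a b h
  obtain ⟨B1, B2, f'⟩ := hF b a h.symm
  have P := S.pl a
  obtain ⟨y, y2, y3⟩ := (S.pl b).ex_not f'.1 f'.2.1 f'.2.2.1
  have yU : y ∈ UU N q b a := f'.U ▸ mem_sup_left y2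
  have hc : ∀ u ∈ A1 ⊔ A2, ⁅y, u⁆ ∈ A1 ⊓ A2 := fun u hu => f.Z ▸ h0 (S.comm_D hF h (f.U ▸ hu) yU)
  have ne : y ∉ A1 ⊔ A2 := fun e => y3 (by have := h0' ⟨f.U ▸ e, yU⟩; rw [f'.Z] at this; exact this.2)
  obtain ⟨d, hd, d1⟩ : ∃ d ∈ UU N q a b ⊓ UU N q b a, d ≠ 1 := by
    by_contra hc
    push Not at hc
    exact S.a1 hF h ((Subgroup.eq_bot_iff_forall _).2 hc)
  rcases S.TT (f'.1.1 y2) (f'.1.2.1 y y2) (f'.le1 y2) f.1 f.2.1 f.2.2.1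
    (cj_eq_of_le fun x hx => conj_eq_comm_mul y x ▸ A1.mul_mem (hc x (mem_sup_left hx)).1 hx)
    (cj_eq_of_le fun x hx => conj_eq_comm_mul y x ▸ A2.mul_mem (hc x (mem_sup_right hx)).2 hx)
    (fun z hz => by
      obtain ⟨s, s1, s2⟩ := P.ex_not f.1 f.2.1 f.2.2.1
      obtain ⟨t, t1, rfl⟩ := P.comm_surj f.1 f.2.1 f.2.2.1 s1 s2 hz
      have z1 := hc s (mem_sup_left s1)
      have z2 := hc t (mem_sup_right t1)
      have := conj_comm y s t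
      rw [conj_eq_comm_mul y s, conj_eq_comm_mul y t, comm_ctr (f.1.comm z1.1 s1) (f.2.1.comm z1.2 t1)
        (f.1.comm z2.1 s1) (f.2.1.comm z2.2 t1) (f.1.comm z1.1 z2.1)] at this
      exact mul_inv_eq_iff_eq_mul.1 this) with e | e | e
  · exact ne (mem_sup_left e)
  · exact ne (mem_sup_right e)
  obtain ⟨t, t1, rfl⟩ := (S.pl b).comm_surj f'.1 f'.2.1 f'.2.2.1 y2 y3 (f'.Z ▸ h0' hd)
  exact d1 (P.eq_one_of_cent (U_le a b hd.1) (S.cent_norm e (f'.le2 t1)))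

theorem a3 (h : a ≠ b) : ZZ N q a b ≤ UU N q b a := by
  obtain ⟨d, hd, d1⟩ := SetLike.not_le_iff_exists.1 (S.a2 hF h)
  have P := S.pl a
  have : ∀ A1 A2, Flag N q a b A1 A2 → d ∉ A2 → A1 ⊓ A2 ≤ UU N q b a := fun A1 A2 f h2 z hz => by
    obtain ⟨s, s1, t, t1, rfl⟩ := P.mem_sup f.1 f.2.1 f.2.2.1 (f.U ▸ hd.1)
    obtain ⟨t', t2, rfl⟩ := P.comm_surj f.1 f.2.1 f.2.2.1 s1 (fun e => h2 (A2.mul_mem e t1)) hz
    have : ⁅s, t'⁆ = ⁅s * t, t'⁆ := by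
      simp only [commutatorElement_def]
      calc s * t' * s⁻¹ * t'⁻¹ = s * (t' * t) * t⁻¹ * s⁻¹ * t'⁻¹ := by group
        _ = _ := by rw [← (f.2.1.comm t1 t2).eq]; group
    rw [this]
    exact (S.comm_D hF h (f.U ▸ mem_sup_right t2) hd.2).2
  obtain ⟨A1, A2, f⟩ := hF a b h
  rw [f.Z] at d1 ⊢
  by_cases e : d ∈ A2
  · rw [inf_comm]; exact this _ _ f.symm fun e' => d1 ⟨e', e⟩
  · exact this _ _ f e

theorem a4 (h : a ≠ b) : ZZ N q a b = ZZ N q b a := by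
  have P := S.pl a
  have P' := S.pl b
  obtain ⟨B1, B2, f'⟩ := hF b a h.symm
  by_cases h0 : ZZ N q b a ≤ ZZ N q a b
  · exact (Subgroup.eq_of_le_of_card_ge h0 (by rw [S.card_Z hF h, S.card_Z hF h.symm])).symm
  refine Subgroup.eq_of_le_of_card_ge ?_ (by rw [S.card_Z hF h, S.card_Z hF h.symm])
  obtain ⟨w, w1, w2⟩ := SetLike.not_le_iff_exists.1 h0
  have w3 := S.a3 hF h.symm w1
  have wc : ∀ u ∈ UU N q b a, Commute w u := fun u hu => P'.ctr f'.1 f'.2.1 (f'.Z ▸ w1) (f'.U ▸ hu)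
  have : ∀ A1 A2, Flag N q a b A1 A2 → w ∈ A1 → w ∉ A2 → ZZ N q a b ≤ ZZ N q b a := fun A1 A2 f e1 e2 z hz => by
    have zc : ∀ u ∈ UU N q b a, Commute u z := fun u hu => by
      obtain ⟨t, t1, rfl⟩ := P.comm_surj f.1 f.2.1 f.2.2.1 e1 e2 (f.Z ▸ hz)
      have n2 : cj u A2 = A2 := by
        rcases S.fl_perm f (U_le' b a hu) (S.U_fix b a hu) with e | e
        · exact e.2
        · refine absurd ?_ e2
          have := conj_mem_cj u e1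
          rwa [e.1, ← (wc u hu).eq, mul_inv_cancel_right] at this
      have d1 := S.comm_D hF h (f.U ▸ mem_sup_right t1) hu
      have z2 : ⁅u, t⁆ ∈ A1 ⊓ A2 := ⟨P.mem_of_comm f.1 f.2.1 f.2.2.1 (f.U ▸ d1.1) e1 e2 (wc _ d1.2),
        comm_mem_of_cj_eq n2 t1⟩
      have := conj_comm u w t
      rw [← (wc u hu).eq, mul_inv_cancel_right, conj_eq_comm_mul u t, ← one_mul w, comm_ctr (Commute.one_left _)
        (Commute.one_left _) (f.1.comm z2.1 e1) (f.2.1.comm z2.2 t1) (Commute.one_left _), one_mul] at this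
      exact mul_inv_eq_iff_eq_mul.1 this
    have z1 := S.a3 hF h hz
    rw [f'.U] at z1 zc
    rw [f'.Z]
    obtain ⟨s, s1, s2⟩ := P'.ex_not f'.1 f'.2.1 f'.2.2.1
    obtain ⟨t, t1, t2⟩ := P'.ex_not f'.2.1 f'.1 f'.2.2.1.symm
    exact ⟨P'.mem_of_comm f'.1 f'.2.1 f'.2.2.1 z1 s1 s2 (zc s (mem_sup_left s1)),
      P'.mem_of_comm f'.2.1 f'.1 f'.2.2.1.symm (sup_comm B1 B2 ▸ z1) t1 t2 (zc t (mem_sup_right t1))⟩
  obtain ⟨A1, A2, f⟩ := hF a b h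
  rw [f.Z] at w2
  have wsq : w * w = 1 := f'.1.2.1 w (by rw [f'.Z] at w1; exact w1.1)
  rcases S.fl_mem h f (U_le a b w3) wsq (U_le' a b w3) with e | e
  · exact this _ _ f e fun e' => w2 ⟨e, e'⟩
  · exact this _ _ f.symm e fun e' => w2 ⟨e', e⟩

theorem a5n (h : a ≠ b) {A1 A2 B1 B2 : Subgroup G} (f : Flag N q a b A1 A2) (f' : Flag N q b a B1 B2) {y : G}
    (hy : y ∈ B1) (n1 : cj y A1 = A1) (n2 : cj y A2 = A2) : y ∈ UU N q a b := by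
  have ez : A1 ⊓ A2 = B1 ⊓ B2 := by rw [← f.Z, ← f'.Z, S.a4 hF h]
  rw [f.U]
  rcases S.TT (f'.1.1 hy) (f'.1.2.1 y hy) (f'.le1 hy) f.1 f.2.1 f.2.2.1 n1 n2
    (fun z hz => f'.1.comm hy (ez ▸ hz : z ∈ B1 ⊓ B2).1) with e | e | e
  · exact mem_sup_left e
  · exact mem_sup_right e
  by_cases y2 : y ∈ B2
  · exact mem_sup_left (ez.symm ▸ (⟨hy, y2⟩ : y ∈ B1 ⊓ B2) : y ∈ A1 ⊓ A2).1
  obtain ⟨z, z1, z2, z3⟩ := f'.2.2.1.ex
  obtain ⟨t, t1, rfl⟩ := (S.pl b).comm_surj f'.1 f'.2.1 f'.2.2.1 hy y2 ⟨z2, z3⟩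
  exact absurd ((S.pl a).eq_one_of_cent (f.1.1 (ez.symm ▸ (⟨z2, z3⟩ : _ ∈ B1 ⊓ B2) : _ ∈ A1 ⊓ A2).1)
    (S.cent_norm e (f'.le2 t1))) z1

theorem a5s (h : a ≠ b) (h0 : ¬ UU N q b a ≤ UU N q a b) {A1 A2 : Subgroup G} (f : Flag N q a b A1 A2) :
    ∃ B1 B2 y, Flag N q b a B1 B2 ∧ y ∈ B1 ∧ cj y A1 = A2 ∧ cj y A2 = A1 := by
  by_contra hc
  have : ∀ B1 B2, Flag N q b a B1 B2 → B1 ≤ UU N q a b := fun B1 B2 f' y hy => by
    rcases S.fl_perm f (f'.le1 hy) (S.el_fix f'.1 hy) with e | e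
    · exact S.a5n hF h f f' hy e.1 e.2
    · exact absurd ⟨B1, B2, y, f', hy, e⟩ hc
  obtain ⟨B1, B2, f'⟩ := hF b a h.symm
  exact h0 (f'.U ▸ sup_le (this _ _ f') (this _ _ f'.symm))

theorem a5 (h : a ≠ b) : UU N q b a ≤ UU N q a b := by
  by_contra h0
  have hu : ∀ c d, c ≠ d → ¬ UU N q d c ≤ UU N q c d := fun c d h1 => by
    obtain ⟨g, rfl, rfl⟩ := S.two a b c d h h1
    rwa [S.U_smul hF h, S.U_smul hF h.symm, cj_le]
  have hz : ∀ c d, c ≠ d → ∀ s ∈ UU N q c d ⊓ UU N q d c, s * s = 1 → s ∈ ZZ N q c d := fun c d h1 s hs s2 => by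
    have : ∀ A1 A2, Flag N q c d A1 A2 → s ∈ A1 → s ∈ A2 := fun A1 A2 f e1 => by
      obtain ⟨B1, B2, y, f', y1, y2, y3⟩ := S.a5s hF h1 (hu c d h1) f
      have ez : A1 ⊓ A2 = B1 ⊓ B2 := by rw [← f.Z, ← f'.Z, S.a4 hF h1]
      have h3 := (S.pl d).comm_sup f'.1 f'.2.1 f'.2.2.1 (f'.U ▸ hs.2) y1
      rw [← ez] at h3
      have h4 := conj_mem_cj y e1
      rw [y2] at h4
      have := A2.mul_mem h3.2 h4
      simpa [commutatorElement_def, mul_assoc] using this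
    obtain ⟨A1, A2, f⟩ := hF c d h1
    rw [f.Z]
    rcases S.fl_mem h1 f (U_le c d hs.1) s2 (U_le' c d hs.1) with e | e
    · exact ⟨e, this _ _ f e⟩
    · exact ⟨this _ _ f.symm e, e⟩
  obtain ⟨A1, A2, f⟩ := hF a b h
  obtain ⟨B1, B2, y, f', y1, y2, y3⟩ := S.a5s hF h h0 f
  have ez : A1 ⊓ A2 = B1 ⊓ B2 := by rw [← f.Z, ← f'.Z, S.a4 hF h]
  obtain ⟨C, hC, c1, c2, -⟩ := (S.pl b).third f'.1 B2 B2
  obtain ⟨c, bc, f2⟩ := S.fl_surj hF f'.1 hC c1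
  obtain ⟨z, z1, z2, z3⟩ := f.2.2.1.ex
  have z4 : z ∈ B1 ⊓ B2 := ez ▸ ⟨z2, z3⟩
  have zsq := f.1.2.1 z z2
  have ac : a ≠ c := by
    rintro rfl
    rcases (f'.2.2.2 C hC).1 f2.le2 with e | e
    · exact c1.1 e.symm
    · exact c2 e
  have l1 : A1 ≤ stabilizer G c ∧ A2 ≤ stabilizer G c := by
    obtain ⟨D, d1, d2, d3⟩ := S.key' ac (f.1.1 z2) zsq (f2.le1 z4.1)
    rcases (S.pl a).two f.1 f.2.1 f.2.2.1 z1 z2 z3 d1 d3 with rfl | rfl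
    · exact ⟨d2, y2 ▸ cj_le_stab' (f2.le1 y1) d2⟩
    · exact ⟨y3 ▸ cj_le_stab' (f2.le1 y1) d2, d2⟩
  have z5 : z ∈ N c := by
    obtain ⟨E1, E2, f3⟩ := hF a c ac
    have : z ∈ ZZ N q a c := by
      rw [f3.Z]
      rcases (f3.2.2.2 A1 f.1).1 l1.1 with e | e <;> rcases (f3.2.2.2 A2 f.2.1).1 l1.2 with e' | e'
      · exact absurd (e.trans e'.symm) f.2.2.1.1
      · exact ⟨e ▸ z2, e' ▸ z3⟩
      · exact ⟨e' ▸ z3, e ▸ z2⟩
      · exact absurd (e.trans e'.symm) f.2.2.1.1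
    exact U_le c a (S.a3 hF ac this)
  have := hz b c bc z ⟨S.memU hF bc (f'.1.1 z4.1) zsq (S.fix c z5), S.memU hF bc.symm z5 zsq (f.le1 z2)⟩ zsq
  rw [f2.Z] at this
  exact c2 ((S.pl b).eq_of_mem hC f'.2.1 ((S.pl b).ty_eq hC f'.2.1 f'.1 c1.symm f'.2.2.1.symm) z1 this.2 z4.2)

theorem a6 (hA : El (N a) q A) (h : A ≤ stabilizer G c) : El (N c) q A := by
  by_cases e : a = c
  · exact e ▸ hA
  exact hA.mono fun x hx => U_le c a (S.a5 hF (Ne.symm e) (S.memU hF e (hA.1 hx) (hA.2.1 x hx) (h hx)))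

end St
end CF.H3
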