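/-
End of the Borel case.
-/
import Cfsg.Agent.H3.E
set_option autoImplicit false
set_option linter.unusedSectionVars false

namespace CF.H3
open Subgroup MulAction
open scoped commutatorElement

variable {G : Type*} [Group G] [Finite G] {Ω : Type*} [Finite Ω] [MulAction G Ω] [FaithfulSMul G Ω]
variable {N : Ω → Subgroup G} {q : ℕ} {ty : Ω → Subgroup G → Bool}

theorem Flag.of_le {a b : Ω} {A B E1 E2 : Subgroup G} (f : Flag N q a b E1 E2) (hA : El (N a) q A)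
    (hB : El (N a) q B) (h : A ≠ B) (a1 : A ≤ stabilizer G b) (b1 : B ≤ stabilizer G b) : Flag N q a b A B := by
  rcases (f.2.2.2 A hA).1 a1 with e | e <;> rcases (f.2.2.2 B hB).1 b1 with e' | e'
  · exact absurd (e.trans e'.symm) h
  · rw [e, e']; exact f
  · rw [e, e']; exact f.symm
  · exact absurd (e.trans e'.symm) h

theorem eq_of_card_two {Z : Subgroup G} (h : Nat.card Z = 2) {z w : G} (hz : z ∈ Z) (hw : w ∈ Z) (z1 : z ≠ 1)
    (w1 : w ≠ 1) : w = z := by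
  have h1 := ncard_ne_one Z
  rw [h, Set.ncard_eq_one] at h1
  obtain ⟨x, hx⟩ := h1
  have e1 : z ∈ ({x} : Set G) := hx ▸ ⟨hz, z1⟩
  have e2 : w ∈ ({x} : Set G) := hx ▸ ⟨hw, w1⟩
  rw [e1, e2]

namespace St
variable (S : St N q ty) (hF : ∀ a b : Ω, a ≠ b → ∃ A B, Flag N q a b A B) {a b c d : Ω} {A B C : Subgroup G}
include S hF

theorem cfg {A1 A2 : Subgroup G} (h1 : El (N a) q A1) (h2 : El (N a) q A2) (h : I A1 A2) {z : G} (z1 : z ≠ 1)
    (z2 : z ∈ A1) : ∃ c A3, El (N c) q A1 ∧ El (N c) q A3 ∧ I A1 A3 ∧ z ∈ A3 ∧ A3 ≠ A2 ∧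
      ∀ d : Ω, ¬ A1 ≤ stabilizer G d → z • d = d → A3 ≤ stabilizer G d := by
  obtain ⟨A, hA, i1, i2, -⟩ := (S.pl a).third h1 A2 A2
  obtain ⟨c, ac, f⟩ := S.fl_surj hF h1 hA i1
  have e1 := S.a6 hF h1 f.le1
  obtain ⟨A3, e3, i3, z3⟩ := (S.pl c).other e1 z1 z2
  refine ⟨c, A3, e1, e3, i3, z3, ?_, fun d n1 zd => ?_⟩
  · rintro rfl
    rcases (f.2.2.2 _ h2).1 (S.el_fix e3) with e | e
    · exact h.1 e.symm
    · exact i2 e.symm
  obtain ⟨D, d1, d2, d3⟩ := S.key' (a := c) (b := d) (by rintro rfl; exact n1 f.le1) (e1.1 z2) (e1.2.1 z z2) zd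
  rcases (S.pl c).two e1 e3 i3 z1 z2 z3 d1 d3 with rfl | rfl
  · exact absurd d2 n1
  · exact d2

theorem fl_inj {A2 A' : Subgroup G} (f : Flag N q a c A2 A') (f' : Flag N q a d A2 A') : c = d := by
  by_contra cd
  obtain ⟨A1, h1, i1, i2, -⟩ := (S.pl a).third f.1 A' A'
  obtain ⟨z, z1, z2, z3⟩ := i1.ex
  obtain ⟨c0, A3, -, e3, i3, z4, n3, h3⟩ := S.cfg hF h1 f.1 i1.symm z1 z3
  have n1 : ∀ d, Flag N q a d A2 A' → A3 ≤ stabilizer G d := fun d f => h3 d (fun h => by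
    rcases (f.2.2.2 _ h1).1 h with e | e
    · exact i1.1 e.symm
    · exact i2 e) (f.le1 z2)
  obtain ⟨E1, E2, g⟩ := hF c d cd
  have g' := g.of_le (S.a6 hF f.1 f.le1) (S.a6 hF f.2.1 f.le2) f.2.2.1.1 f'.le1 f'.le2
  rcases (g'.2.2.2 _ (S.a6 hF e3 (n1 c f))).1 (n1 d f') with e | e
  · exact n3 e
  subst e
  rcases (S.pl a).two f.1 h1 i1 z1 z2 z3 f.2.1 z4 with e | e
  · exact n3 e
  · exact i2 e.symm

theorem q_two (a : Ω) : q = 2 := by
  obtain ⟨A1, A2, h1, h2, i⟩ := S.ex_el a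
  have P := S.pl a
  refine le_antisymm ?_ P.two_le
  by_contra hq
  obtain ⟨z, z1, z2, z3⟩ := i.ex
  obtain ⟨c0, A3, -, e3, i3, z4, n3, h3⟩ := S.cfg hF h1 h2 i z1 z2
  have n1 : ∀ d C, C ≠ A1 → Flag N q a d A2 C → A3 ≤ stabilizer G d := fun d C hC f => h3 d (fun h => by
    rcases (f.2.2.2 _ h1).1 h with e | e
    · exact i.1 e
    · exact hC e.symm) (f.le1 z3)
  have := P.ncard_inc' h2 h1 i.symm
  obtain ⟨C1, C2, C3, c1, c2, c3, n12, n13, n23⟩ := (Set.two_lt_ncard_iff (Set.toFinite _)).1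
    (this.symm ▸ not_le.1 hq)
  obtain ⟨d1, -, f1⟩ := S.fl_surj hF h2 c1.1 c1.2.1.symm
  obtain ⟨d2, -, f2⟩ := S.fl_surj hF h2 c2.1 c2.2.1.symm
  obtain ⟨d3, -, f3⟩ := S.fl_surj hF h2 c3.1 c3.2.1.symm
  have ne : ∀ {d d' C C'}, Flag N q a d A2 C → Flag N q a d' A2 C' → C ≠ C' → d ≠ d' := by
    rintro d _ C C' f f' h rfl
    rcases (f.2.2.2 _ f'.2.1).1 f'.le2 with e | e
    · exact f'.2.2.1.1 e.symm
    · exact h e.symm
  obtain ⟨E1, E2, g⟩ := hF d1 d2 (ne f1 f2 n12)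
  obtain ⟨E3, E4, g'⟩ := hF d1 d3 (ne f1 f3 n13)
  have k2 := S.a6 hF h2 f1.le1
  have k3 := S.a6 hF e3 (n1 d1 C1 c1.2.2 f1)
  exact ne f2 f3 n23 (S.fl_inj hF (g.of_le k2 k3 n3.symm f2.le1 (n1 d2 C2 c2.2.2 f2))
    (g'.of_le k2 k3 n3.symm f3.le1 (n1 d3 C3 c3.2.2 f3)))

theorem not_flag (a : Ω) : False := by
  obtain ⟨A1, A2, h1, h2, i⟩ := S.ex_el a
  have P := S.pl a
  have hq := S.q_two hF a
  obtain ⟨z, z1, z2, z3⟩ := i.ex
  obtain ⟨c, A3, e1, e3, i3, z4, n3, h3⟩ := S.cfg hF h1 h2 i z1 z2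
  obtain ⟨C, hC, c1, c2, -⟩ := P.third h2 A1 A1
  obtain ⟨d, -, f⟩ := S.fl_surj hF h2 hC c1
  have k2 := S.a6 hF h2 f.le1
  have k3 := S.a6 hF e3 (h3 d (fun h => by
    rcases (f.2.2.2 _ h1).1 h with e | e
    · exact i.1 e
    · exact c2 e.symm) (f.le1 z3))
  have i2 : I A2 A3 := I_of_mem n3.symm z1 z3 z4
  have u : ∀ {b : Ω} {A B : Subgroup G}, El (N b) q A → El (N b) q B → I A B → z ∈ A → z ∈ B → ∀ w ∈ A, w ∈ B →
      w = 1 ∨ w = z := fun {b A B} hA hB h za zb w wa wb => by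
    by_cases e : w = 1
    · exact Or.inl e
    · exact Or.inr (eq_of_card_two (((S.pl b).card_inf A B hA hB h).trans hq) ⟨za, zb⟩ ⟨wa, wb⟩ z1 e)
  have v : ∀ {b : Ω} {A B : Subgroup G}, El (N b) q A → El (N b) q B → I A B → z ∈ A → z ∈ B → ∀ s ∈ A, s ∉ B →
      ∀ t ∈ B, t ∉ A → ⁅s, t⁆ = z := fun {b A B} hA hB h za zb s sa sb t tb ta => by
    have := (S.pl b).comm A B hA hB h s sa t tb
    refine (u hA hB h za zb _ this.1 this.2).resolve_left fun e => ta ?_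
    exact (S.pl b).cent A B hA hB h s sa sb t tb (commutatorElement_eq_one_iff_commute.1 e)
  obtain ⟨a1, m1, m1'⟩ := P.ex_not h1 h2 i
  obtain ⟨a2, m2, m2'⟩ := P.ex_not h2 h1 i.symm
  obtain ⟨a3, m3, m3'⟩ := (S.pl c).ex_not e3 e1 i3.symm
  have o1 : a1 ∉ A3 := fun h => by
    rcases u e1 e3 i3 z2 z4 a1 m1 h with rfl | rfl
    · exact m1' (one_mem _)
    · exact m1' z3
  have o2 : a2 ∉ A3 := fun h => by
    rcases u k2 k3 i2 z3 z4 a2 m2 h with rfl | rfl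
    · exact m2' (one_mem _)
    · exact m2' z2
  have o3 : a3 ∉ A2 := fun h => by
    rcases u k2 k3 i2 z3 z4 a3 h m3 with rfl | rfl
    · exact m3' (one_mem _)
    · exact m3' z2
  have w12 := v h1 h2 i z2 z3 a1 m1 m1' a2 m2 m2'
  have w13 := v e1 e3 i3 z2 z4 a1 m1 o1 a3 m3 m3'
  have w23 := v k2 k3 i2 z3 z4 a2 m2 o2 a3 m3 o3
  have sq : a2 * a3 * (a2 * a3) = z := by
    rw [← w23, commutatorElement_def, h2.inv m2, e3.inv m3]; group
  have cz : Commute z (a2 * a3) := (h2.comm z3 m2).mul_right (e3.comm z4 m3)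
  have ca : Commute a1 (a2 * a3) := by
    have : a1 * (a2 * a3) * a1⁻¹ = (a1 * a2 * a1⁻¹) * (a1 * a3 * a1⁻¹) := by group
    rw [conj_eq_comm_mul a1 a2, conj_eq_comm_mul a1 a3, w12, w13, (h2.comm z3 m2).eq, mul_assoc a2,
      ← mul_assoc z, h2.2.1 z z3, one_mul] at this
    exact mul_inv_eq_iff_eq_mul.1 this
  have a11 : a1 ≠ 1 := by rintro rfl; exact m1' (one_mem _)
  obtain ⟨A4, h4, i4, m4⟩ := P.other h1 a11 m1
  have t := P.ncard_inc' h4 h1 i4.symm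
  rw [hq, Set.ncard_eq_two] at t
  obtain ⟨C1, C2, -, t⟩ := t
  rw [← hq] at t
  have t1 : C1 ∈ {C | El (N a) q C ∧ I C A4 ∧ C ≠ A1} := t ▸ Or.inl rfl
  have t2 : C2 ∈ {C | El (N a) q C ∧ I C A4 ∧ C ≠ A1} := t ▸ Or.inr rfl
  obtain ⟨x1, ax1, f1⟩ := S.fl_surj hF h4 t1.1 t1.2.1.symm
  obtain ⟨x2, -, f2⟩ := S.fl_surj hF h4 t2.1 t2.2.1.symm
  have W : ∀ e : Ω, a1 • e = e → z • e ≠ e → e = x1 ∨ e = x2 := fun e ea ez => by
    have ae : a ≠ e := by rintro rfl; exact ez (S.el_fix h1 z2)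
    obtain ⟨D, d1, d2, d3⟩ := S.key' ae (h1.1 m1) (h1.2.1 a1 m1) ea
    have l4 : A4 ≤ stabilizer G e := by
      rcases P.two h1 h4 i4 a11 m1 m4 d1 d3 with rfl | rfl
      · exact absurd (d2 z2) ez
      · exact d2
    have : ∀ E, Flag N q a e A4 E → e = x1 ∨ e = x2 := fun E g => by
      have : E ∈ {C | El (N a) q C ∧ I C A4 ∧ C ≠ A1} := ⟨g.2.1, g.2.2.1.symm, by rintro rfl; exact ez (g.le2 z2)⟩
      rw [t] at this
      rcases this with rfl | rfl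
      · exact Or.inl (S.fl_inj hF g f1)
      · exact Or.inr (S.fl_inj hF g f2)
    obtain ⟨E1, E2, g⟩ := hF a e ae
    rcases (g.2.2.2 _ h4).1 l4 with rfl | rfl
    · exact this _ g
    · exact this _ g.symm
  have n42 : A4 ≠ A2 := by rintro rfl; exact m1' m4
  have zx : z • x1 ≠ x1 := fun h => by
    rcases S.fl_mem ax1 f1 (h1.1 z2) (h1.2.1 z z2) h with e | e
    · rcases P.two h1 h2 i z1 z2 z3 h4 e with e | e
      · exact i4.1 e.symm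
      · exact n42 e
    · rcases P.two h1 h2 i z1 z2 z3 t1.1 e with e | e
      · exact t1.2.2 e
      · exact P.not_I h2 h4 (P.ty_eq h2 h4 h1 i.symm i4.symm) (e ▸ t1.2.1)
  have st : ∀ e : Ω, a1 • e = e → z • e ≠ e → a1 • (a2 * a3) • e = (a2 * a3) • e ∧
      z • (a2 * a3) • e ≠ (a2 * a3) • e := fun e ea ez => by
    refine ⟨by rw [← mul_smul, ca.eq, mul_smul, ea], fun h => ez ?_⟩
    rw [← mul_smul, cz.eq, mul_smul] at h
    exact MulAction.injective _ h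
  have s1 := st x1 (f1.le1 m4) zx
  have s2 := st _ s1.1 s1.2
  apply zx
  rw [← sq, mul_smul]
  rcases W _ s1.1 s1.2 with e | e
  · rw [e, e]
  rcases W _ s2.1 s2.2 with e' | e'
  · exact e'
  · have := MulAction.injective _ (e'.trans e.symm)
    rw [this, this]

end St
end CF.H3
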