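/-
The parabolic case: lines and planes.
-/
import Cfsg.Agent.H3.D
set_option autoImplicit false
set_option linter.unusedSectionVars false

namespace CF.H3
open Subgroup MulAction
open scoped commutatorElement

variable {G : Type*} [Group G] [Finite G] {Ω : Type*} [Finite Ω] [MulAction G Ω] [FaithfulSMul G Ω]
variable {N : Ω → Subgroup G} {q : ℕ} {ty : Ω → Subgroup G → Bool}

namespace St
variable (S : St N q ty) (hS : ∀ a b : Ω, a ≠ b → ∃ A, Star N q a b A) {a b c d : Ω} {A A' B B' C : Subgroup G}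
include S

theorem star_uniq (f : Star N q a b A) (f' : Star N q a b A') : A = A' := by
  have P := S.pl a
  by_contra h
  have i1 := ((f.2 A' f'.1).1 f'.le).resolve_left (Ne.symm h)
  obtain ⟨C, hC, c1, c2, -⟩ := P.third f.1 A' A'
  have i2 := ((f'.2 C hC).1 ((f.2 C hC).2 (Or.inr c1))).resolve_left c2
  exact P.not_I f'.1 hC (P.ty_eq f'.1 hC f.1 i1.symm c1.symm) i2

theorem star_fix (f : Star N q a b A) {g : G} (ha : g • a = a) (hb : g • b = b) : cj g A = A := by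
  have := S.star_smul f g
  rw [ha, hb] at this
  exact S.star_uniq this f

theorem odd_compl (a : Ω) : Odd ({a}ᶜ : Set Ω).ncard := by
  have h3 : ({a}ᶜ : Set Ω).ncard + 1 = Nat.card Ω := by
    rw [← Set.ncard_singleton a, add_comm]; exact Set.ncard_add_ncard_compl _
  have := S.ev
  rw [← h3] at this
  exact Nat.not_even_iff_odd.1 (Nat.even_add_one.1 this)

include hS

theorem b0 (h : a ≠ b) (h' : a ≠ c) (f : Star N q a b A) (f' : Star N q a c A') : ty a A = ty a A' := by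
  obtain ⟨g, g1, rfl⟩ := S.two a b a c h h'
  have e := S.star_smul f g
  rw [g1] at e
  obtain rfl := S.star_uniq e f'
  by_contra ht
  have fl : ∀ C, El (N a) q C → ty a (cj g C) ≠ ty a C := fun C hC e =>
    ht ((S.pl a).ty_fix (S.cjN g1) hC e f.1).symm
  let T : Bool → Set Ω := fun τ => {d | a ≠ d ∧ ∃ A, Star N q a d A ∧ ty a A = τ}
  have m : ∀ τ, (T τ).ncard ≤ (T (!τ)).ncard := fun τ => by
    refine Set.ncard_le_ncard_of_injOn (fun d => g • d) ?_ (MulAction.injective g).injOn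
    rintro d ⟨d1, D, d2, d3⟩
    have := S.star_smul d2 g
    rw [g1] at this
    refine ⟨(S.ne_smul d1.symm g1).symm, _, this, ?_⟩
    have := fl D d2.1
    revert this; rw [← d3]; cases ty a D <;> cases ty a (cj g D) <;> simp
  have u : ({a}ᶜ : Set Ω) = T true ∪ T false := by
    ext d
    constructor
    · intro hd
      obtain ⟨D, hD⟩ := hS a d (Ne.symm hd)
      cases e : ty a D
      · exact Or.inr ⟨Ne.symm hd, D, hD, e⟩
      · exact Or.inl ⟨Ne.symm hd, D, hD, e⟩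
    · rintro (h | h) <;> exact h.1.symm
  have dj : Disjoint (T true) (T false) := by
    rw [Set.disjoint_left]
    rintro d ⟨-, D, d1, d2⟩ ⟨-, D', d3, d4⟩
    rw [S.star_uniq d1 d3, d4] at d2
    exact absurd d2 (by simp)
  have := S.odd_compl a
  rw [u, Set.ncard_union_eq dj] at this
  have m1 := m true
  have m2 := m false
  simp only [Bool.not_true, Bool.not_false] at m1 m2
  obtain ⟨r, hr⟩ := this
  omega

theorem of_ty (h : a ≠ b) (h' : a ≠ c) (f : Star N q a b A') (hA : El (N a) q A) (ht : ty a A = ty a A')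
    (hc : A ≤ stabilizer G c) : Star N q a c A := by
  obtain ⟨D, f'⟩ := hS a c h'
  rcases (f'.2 A hA).1 hc with rfl | e
  · exact f'
  · exact absurd ((S.b0 hS h' h f' f).trans ht.symm) ((S.pl a).ty_ne f'.1 hA e)

theorem b1 (h : a ≠ b) (f : Star N q a b A) (f' : Star N q b a A') : A = A' := by
  have P := S.pl a
  have n1 : ∀ x ∈ A', cj x A = A := fun x hx => S.star_fix f (f'.le hx) (S.el_fix f'.1 hx)
  by_cases h0 : A ⊓ A' = ⊥
  · exfalso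
    have hu : ∀ c d D D', c ≠ d → Star N q c d D → Star N q d c D' → D ⊓ D' = ⊥ := fun c d D D' h1 g g' => by
      obtain ⟨x, rfl, rfl⟩ := S.two a b c d h h1
      rw [S.star_uniq g (S.star_smul f x), S.star_uniq g' (S.star_smul f' x), ← cj_inf, h0, cj_bot]
    have hc : ∀ y ∈ A', ∀ n ∈ N a, Commute y n := fun y hy => by
      by_cases y1 : y = 1
      · exact fun n _ => y1 ▸ Commute.one_left n
      have c1 : ∀ s ∈ A, Commute y s := fun s hs => by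
        rw [← commutatorElement_eq_one_iff_commute, ← mem_bot, ← h0]
        exact ⟨comm_mem_of_cj_eq (n1 y hy) hs,
          comm_mem_of_cj_eq' (S.star_fix f' (f.le hs) (S.el_fix f.1 hs)) hy⟩
      have ne : y ∉ A := fun e => y1 (by rw [← mem_bot, ← h0]; exact ⟨e, hy⟩)
      obtain ⟨B, hB, i, -⟩ := P.third f.1 A A
      obtain ⟨z, z1, z2, z3⟩ := i.ex
      have hB' := S.el_cj' hB (f'.le hy)
      have i' : I A (cj y B) := n1 y hy ▸ I_cj.2 i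
      have n2 : cj y B = B := P.eq_of_mem hB' hB (P.ty_eq hB' hB f.1 i'.symm i.symm) z1
        (by have := conj_mem_cj y z3; rwa [(c1 z z2).eq, mul_inv_cancel_right] at this) z3
      rcases S.TT (f'.1.1 hy) (f'.1.2.1 y hy) (f'.le hy) f.1 hB i (n1 y hy) n2 (fun z hz => c1 z hz.1) with e | e | e
      · exact absurd e ne
      · obtain ⟨s, s1, s2⟩ := P.ex_not f.1 hB i
        exact absurd (P.cent A B f.1 hB i s s1 s2 y e (c1 s s1).symm) ne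
      · exact e
    obtain ⟨n, hn, n2⟩ := S.move h
    have f2 := S.star_smul f' n
    rw [S.fix a hn, cj_eq_of_comm fun x hx => (hc x hx n hn).symm] at f2
    have na := S.ne_smul h.symm (S.fix a hn)
    have := hu _ _ _ _ n2 (S.of_ty hS na n2 f2 f2.1 rfl (S.el_fix f'.1))
      (S.of_ty hS h.symm n2.symm f' f'.1 rfl (S.el_fix f2.1))
    obtain ⟨z, z1, z2⟩ := (S.pl b).ex f'.1
    exact z1 (by rw [← mem_bot, ← this]; exact ⟨z2, z2⟩)
  obtain ⟨⟨s, s1, s2⟩, s3⟩ := (Subgroup.ne_bot_iff_exists_ne_one).1 h0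
  have s4 : s ≠ 1 := fun e => s3 (Subtype.ext e)
  have k1 : ∀ s ∈ A, s ∈ A' → ∀ B, El (N a) q B → I A B → s ∉ B → A ⊓ B ≤ A' := fun s s1 s2 B hB i s3 z hz => by
    obtain ⟨t, t1, rfl⟩ := P.comm_surj f.1 hB i s1 s3 hz
    exact comm_mem_of_cj_eq' (S.star_fix f' ((f.2 B hB).2 (Or.inr i) t1) (S.el_fix hB t1)) s2
  refine Subgroup.eq_of_le_of_card_ge (fun x hx => ?_) (by rw [f.1.2.2, f'.1.2.2])
  by_cases x1 : x = 1
  · exact x1 ▸ A'.one_mem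
  obtain ⟨B, hB, i, xB⟩ := P.other f.1 x1 hx
  by_cases sB : s ∈ B
  swap
  · exact k1 s s1 s2 B hB i sB ⟨hx, xB⟩
  obtain ⟨B', hB', i', nb, -⟩ := P.third f.1 B B
  have tb := P.ty_eq hB' hB f.1 i'.symm i.symm
  obtain ⟨w, w1, w2, w3⟩ := i'.ex
  exact k1 w w2 (k1 s s1 s2 B' hB' i' (fun e => nb (P.eq_of_mem hB' hB tb s4 e sB)) ⟨w2, w3⟩) B hB i
    (fun e => nb (P.eq_of_mem hB' hB tb w1 w3 e)) ⟨hx, xB⟩

theorem star_symm (h : a ≠ b) (f : Star N q a b A) : Star N q b a A := by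
  obtain ⟨A', f'⟩ := hS b a h.symm
  rwa [S.b1 hS h f f']

theorem b2 (hB : El (N b) q B) (ha : B ≤ stabilizer G a) : El (N a) q B := by
  by_cases h : a = b
  · exact h ▸ hB
  obtain ⟨A, f⟩ := hS a b h
  have f' := S.star_symm hS h f
  have P := S.pl a
  have P' := S.pl b
  rcases (f'.2 B hB).1 ha with rfl | i
  · exact f.1
  obtain ⟨z, z1, z2, z3⟩ := i.ex
  obtain ⟨B0, hB0, i0, z4⟩ := P.other f.1 z1 z2
  have n1 : ∀ y ∈ B, cj y A = A := fun y hy => P'.norm hB f'.1 i.symm hy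
  have n2 : ∀ y ∈ B, cj y B0 = B0 := fun y hy => by
    have h1 := S.el_cj' hB0 (ha hy)
    have i' : I A (cj y B0) := n1 y hy ▸ I_cj.2 i0
    exact P.eq_of_mem h1 hB0 (P.ty_eq h1 hB0 f.1 i'.symm i0.symm) z1
      (by have := conj_mem_cj y z4; rwa [(hB.comm hy z3).eq, mul_inv_cancel_right] at this) z4
  have l1 : A ⊓ B0 ≤ B := by
    by_contra hc
    obtain ⟨s, s1, s2⟩ := SetLike.not_le_iff_exists.1 hc
    have : A ⊓ B ≤ A ⊓ B0 := fun w hw => by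
      obtain ⟨t, t1, rfl⟩ := P'.comm_surj f'.1 hB i s1.1 s2 hw
      exact ⟨hw.1, comm_mem_of_cj_eq' (n2 t t1) s1.2⟩
    have e := Subgroup.eq_of_le_of_card_ge this (by rw [P.card_inf _ _ f.1 hB0 i0, P'.card_inf _ _ f'.1 hB i])
    exact s2 (e.symm ▸ s1 : s ∈ A ⊓ B).2
  refine hB.mono fun y hy => ?_
  rcases S.TT (hB.1 hy) (hB.2.1 y hy) (ha hy) f.1 hB0 i0 (n1 y hy) (n2 y hy)
    (fun z hz => hB.comm hy (l1 hz)) with e | e | e
  · exact f.1.1 e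
  · exact hB0.1 e
  · obtain ⟨s, s1, s2⟩ := P'.ex_not f'.1 hB i
    exact f.1.1 (P'.cent A B f'.1 hB i s s1 s2 y hy (e s (f.1.1 s1)).symm)

end St

/-- line groups -/
def Ln (N : Ω → Subgroup G) (q : ℕ) (A : Subgroup G) : Prop := ∃ a b : Ω, a ≠ b ∧ Star N q a b A

/-- plane groups -/
def Pn (N : Ω → Subgroup G) (q : ℕ) (B : Subgroup G) : Prop :=
  ∃ (a b : Ω) (A : Subgroup G), a ≠ b ∧ Star N q a b A ∧ El (N a) q B ∧ I A B

/-- points of a line or plane -/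
def pts (Ω : Type*) [MulAction G Ω] (A : Subgroup G) : Set Ω := {c | A ≤ stabilizer G c}

theorem smul_mem_pts {g : G} {c : Ω} {A : Subgroup G} : g • c ∈ pts Ω (cj g A) ↔ c ∈ pts Ω A := cj_le_stab

theorem mem_pts_cj {g : G} {c : Ω} {A : Subgroup G} : c ∈ pts Ω (cj g A) ↔ g⁻¹ • c ∈ pts Ω A := by
  rw [← smul_mem_pts (g := g) (c := g⁻¹ • c), smul_inv_smul]

theorem pts_cj (g : G) (A : Subgroup G) : pts Ω (cj g A) = (fun d => g • d) '' pts Ω A := by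
  ext c; rw [mem_pts_cj]
  exact ⟨fun h => ⟨_, h, by simp⟩, by rintro ⟨d, h, rfl⟩; simpa using h⟩

theorem pts_cj_sub {g : G} {A B : Subgroup G} (h : pts Ω A ⊆ pts Ω B) : pts Ω (cj g A) ⊆ pts Ω (cj g B) := by
  rw [pts_cj, pts_cj]; exact Set.image_mono h

namespace St
variable (S : St N q ty) (hS : ∀ a b : Ω, a ≠ b → ∃ A, Star N q a b A) {a b c d : Ω} {A A' B B' C : Subgroup G}
include S

theorem ln_cj (h : Ln N q A) (g : G) : Ln N q (cj g A) := by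
  obtain ⟨a, b, h1, f⟩ := h
  exact ⟨_, _, (MulAction.injective g).ne h1, S.star_smul f g⟩

theorem pn_cj (h : Pn N q B) (g : G) : Pn N q (cj g B) := by
  obtain ⟨a, b, A, h1, f, h2, h3⟩ := h
  exact ⟨_, _, _, (MulAction.injective g).ne h1, S.star_smul f g, S.el_cj h2 g, I_cj.2 h3⟩

theorem ln_two (h : Ln N q A) (c : Ω) : ∃ b ∈ pts Ω A, b ≠ c := by
  obtain ⟨a, b, h1, f⟩ := h
  by_cases e : a = c
  · exact ⟨b, f.le, e ▸ h1.symm⟩
  · exact ⟨a, S.el_fix f.1, e⟩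

include hS

theorem ln_el (h : Ln N q A) (hc : c ∈ pts Ω A) : El (N c) q A := by
  obtain ⟨a, b, -, f⟩ := h
  exact S.b2 hS f.1 hc

theorem pn_el (h : Pn N q A) (hc : c ∈ pts Ω A) : El (N c) q A := by
  obtain ⟨a, b, -, -, -, f, -⟩ := h
  exact S.b2 hS f hc

theorem ln_star (h : Ln N q A) (hc : c ∈ pts Ω A) (hd : d ∈ pts Ω A) (ne : c ≠ d) : Star N q c d A := by
  obtain ⟨a, b, h1, f⟩ := h
  by_cases e : a = c
  · subst e; exact S.of_ty hS h1 ne f f.1 rfl hd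
  · have := S.star_symm hS e (S.of_ty hS h1 e f f.1 rfl hc)
    exact S.of_ty hS (Ne.symm e) ne this this.1 rfl hd

theorem ex_ln (h : a ≠ b) : ∃ A, Ln N q A ∧ a ∈ pts Ω A ∧ b ∈ pts Ω A := by
  obtain ⟨A, f⟩ := hS a b h
  exact ⟨A, ⟨a, b, h, f⟩, S.el_fix f.1, f.le⟩

theorem ln_uniq (h : Ln N q A) (h' : Ln N q A') (ne : a ≠ b) (a1 : a ∈ pts Ω A) (b1 : b ∈ pts Ω A)
    (a2 : a ∈ pts Ω A') (b2 : b ∈ pts Ω A') : A = A' :=
  S.star_uniq (S.ln_star hS h a1 b1 ne) (S.ln_star hS h' a2 b2 ne)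

theorem ln_ty (h : Ln N q A) (h' : Ln N q A') (a1 : a ∈ pts Ω A) (a2 : a ∈ pts Ω A') : ty a A = ty a A' := by
  obtain ⟨b, b1, b2⟩ := S.ln_two h a
  obtain ⟨c, c1, c2⟩ := S.ln_two h' a
  exact S.b0 hS b2.symm c2.symm (S.ln_star hS h a1 b1 b2.symm) (S.ln_star hS h' a2 c1 c2.symm)

theorem ln_pn_ty (h : Ln N q A) (h' : Pn N q B) (c1 : c ∈ pts Ω A) (c2 : c ∈ pts Ω B) : ty c A ≠ ty c B := by
  have e2 := S.pn_el hS h' c2
  obtain ⟨a, b, A0, h1, f, h2, h3⟩ := h'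
  intro ht
  have t0 := (S.pl a).ty_ne f.1 h2 h3
  by_cases e : a = c
  · subst e
    exact t0 ((S.ln_ty hS ⟨a, b, h1, f⟩ h (S.el_fix f.1) c1).trans ht)
  obtain ⟨d, d1, d2⟩ := S.ln_two h c
  have := S.of_ty hS d2.symm (Ne.symm e) (S.ln_star hS h c1 d1 d2.symm) e2 ht.symm (S.el_fix h2)
  exact t0 (S.b0 hS h1 e f (S.star_symm hS (Ne.symm e) this))

theorem ln_of_ty (h : Ln N q A) (a1 : a ∈ pts Ω A) (hC : El (N a) q C) (ht : ty a C = ty a A) : Ln N q C := by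
  obtain ⟨n, -, rfl⟩ := (S.pl a).trans_ty (S.ln_el hS h a1) hC ht.symm
  exact S.ln_cj h n

theorem pn_of_I (h : Ln N q A) (a1 : a ∈ pts Ω A) (hC : El (N a) q C) (i : I A C) : Pn N q C := by
  obtain ⟨b, b1, b2⟩ := S.ln_two h a
  exact ⟨a, b, A, b2.symm, S.ln_star hS h a1 b1 b2.symm, hC, i⟩

theorem ex_ln_at (a : Ω) : ∃ A, Ln N q A ∧ a ∈ pts Ω A := by
  obtain ⟨b, hb⟩ := S.ex_ne a
  obtain ⟨A, h1, h2, -⟩ := S.ex_ln hS hb.symm
  exact ⟨A, h1, h2⟩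

theorem ln_of_I (h : Pn N q B) (a1 : a ∈ pts Ω B) (hC : El (N a) q C) (i : I C B) : Ln N q C := by
  obtain ⟨A, h1, h2⟩ := S.ex_ln_at hS a
  refine S.ln_of_ty hS h1 h2 hC ?_
  have t1 := S.ln_pn_ty hS h1 h h2 a1
  have t2 := (S.pl a).ty_ne hC (S.pn_el hS h a1) i
  revert t1 t2; cases ty a A <;> cases ty a B <;> cases ty a C <;> simp

theorem ln_or_pn (hC : El (N a) q C) : Ln N q C ∨ Pn N q C := by
  obtain ⟨A, h1, h2⟩ := S.ex_ln_at hS a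
  by_cases e : ty a C = ty a A
  · exact Or.inl (S.ln_of_ty hS h1 h2 hC e)
  obtain ⟨D, hD, i, -⟩ := (S.pl a).third hC C C
  refine Or.inr (S.pn_of_I hS (S.ln_of_ty hS h1 h2 hD ?_) (S.el_fix hD) hC i.symm)
  have := (S.pl a).ty_ne hC hD i
  revert this e; cases ty a A <;> cases ty a D <;> cases ty a C <;> simp

theorem sub_of_I (h : Ln N q A) (h' : Pn N q B) (a1 : a ∈ pts Ω A) (a2 : a ∈ pts Ω B) (i : I A B) :
    pts Ω A ⊆ pts Ω B := fun b hb => by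
  by_cases e : a = b
  · exact e ▸ a2
  exact ((S.ln_star hS h a1 hb e).2 B (S.pn_el hS h' a2)).2 (Or.inr i)

theorem I_of_two (h : Ln N q A) (h' : Pn N q B) (ne : a ≠ b) (a1 : a ∈ pts Ω A) (b1 : b ∈ pts Ω A)
    (a2 : a ∈ pts Ω B) (b2 : b ∈ pts Ω B) : I A B :=
  (((S.ln_star hS h a1 b1 ne).2 B (S.pn_el hS h' a2)).1 b2).resolve_left fun e =>
    S.ln_pn_ty hS h h' a1 a2 (by rw [e])

theorem sub_of_two (h : Ln N q A) (h' : Pn N q B) (ne : a ≠ b) (a1 : a ∈ pts Ω A) (b1 : b ∈ pts Ω A)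
    (a2 : a ∈ pts Ω B) (b2 : b ∈ pts Ω B) : pts Ω A ⊆ pts Ω B :=
  S.sub_of_I hS h h' a1 a2 (S.I_of_two hS h h' ne a1 b1 a2 b2)

theorem I_of_sub (h : Ln N q A) (h' : Pn N q B) (s : pts Ω A ⊆ pts Ω B) : I A B := by
  obtain ⟨a, b, h1, f⟩ := id h
  exact S.I_of_two hS h h' h1 (S.el_fix f.1) f.le (s (S.el_fix f.1)) (s f.le)

theorem ex_pn2 (h : Ln N q A) (h' : Ln N q A') (ne : A ≠ A') (a1 : a ∈ pts Ω A) (a2 : a ∈ pts Ω A') :
    ∃ B, Pn N q B ∧ pts Ω A ⊆ pts Ω B ∧ pts Ω A' ⊆ pts Ω B := by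
  obtain ⟨B, hB, i1, i2⟩ := (S.pl a).join A A' (S.ln_el hS h a1) (S.ln_el hS h' a2) (S.ln_ty hS h h' a1 a2) ne
  have := S.pn_of_I hS h a1 hB i1
  exact ⟨B, this, S.sub_of_I hS h this a1 (S.el_fix hB) i1, S.sub_of_I hS h' this a2 (S.el_fix hB) i2⟩

theorem ex_pn (h : Ln N q A) (hc : c ∉ pts Ω A) : ∃ B, Pn N q B ∧ pts Ω A ⊆ pts Ω B ∧ c ∈ pts Ω B := by
  obtain ⟨a, a1, a2⟩ := S.ln_two h c
  obtain ⟨D, d1, d2, d3⟩ := S.ex_ln hS a2
  obtain ⟨B, b1, b2, b3⟩ := S.ex_pn2 hS h d1 (by rintro rfl; exact hc d3) a1 d2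
  exact ⟨B, b1, b2, b3 d3⟩

theorem pn_uniq (h : Ln N q A) (hc : c ∉ pts Ω A) (b1 : Pn N q B) (b2 : Pn N q B') (s1 : pts Ω A ⊆ pts Ω B)
    (s2 : pts Ω A ⊆ pts Ω B') (c1 : c ∈ pts Ω B) (c2 : c ∈ pts Ω B') : B = B' := by
  obtain ⟨a, a1, a2⟩ := S.ln_two h c
  obtain ⟨D, d1, d2, d3⟩ := S.ex_ln hS a2
  exact (S.pl a).uniq' (S.ln_el hS h a1) (S.ln_el hS d1 d2) (S.pn_el hS b1 (s1 a1)) (S.pn_el hS b2 (s2 a1))
    (by rintro rfl; exact hc d3) (S.I_of_sub hS h b1 s1) (S.I_of_two hS d1 b1 a2 d2 d3 (s1 a1) c1)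
    (S.I_of_sub hS h b2 s2) (S.I_of_two hS d1 b2 a2 d2 d3 (s2 a1) c2)

theorem pn_meet (b1 : Pn N q B) (b2 : Pn N q B') (ne : B ≠ B') (a1 : a ∈ pts Ω B) (a2 : a ∈ pts Ω B') :
    ∃ A, Ln N q A ∧ a ∈ pts Ω A ∧ pts Ω A ⊆ pts Ω B ∧ pts Ω A ⊆ pts Ω B' := by
  obtain ⟨D, d1, d2⟩ := S.ex_ln_at hS a
  have t1 := S.ln_pn_ty hS d1 b1 d2 a1
  have t2 := S.ln_pn_ty hS d1 b2 d2 a2
  obtain ⟨A, hA, i1, i2⟩ := (S.pl a).join B B' (S.pn_el hS b1 a1) (S.pn_el hS b2 a2)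
    (by revert t1 t2; cases ty a D <;> cases ty a B <;> cases ty a B' <;> simp) ne
  have := S.ln_of_I hS b1 a1 hA i1.symm
  exact ⟨A, this, S.el_fix hA, S.sub_of_I hS this b1 (S.el_fix hA) a1 i1.symm,
    S.sub_of_I hS this b2 (S.el_fix hA) a2 i2.symm⟩

theorem fix_inv (h : Pn N q B) {z : G} (z1 : z ≠ 1) (z2 : z ∈ B) (hc : z • c = c) : c ∈ pts Ω B := by
  obtain ⟨a, -, -, -, -, hB, -⟩ := id h
  by_cases e : a = c
  · exact e ▸ S.el_fix hB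
  obtain ⟨C, c1, c2, c3⟩ := S.key' e (hB.1 z2) (hB.2.1 z z2) hc
  by_cases e' : C = B
  · exact e' ▸ c2
  have i := I_of_mem e' z1 c3 z2
  exact S.sub_of_I hS (S.ln_of_I hS h (S.el_fix hB) c1 i) h (S.el_fix c1) (S.el_fix hB) i c2

theorem ln_at (h : Pn N q B) {z : G} (z1 : z ≠ 1) (z2 : z ∈ B) (hc : c ∈ pts Ω B) :
    ∃ A, Ln N q A ∧ c ∈ pts Ω A ∧ z ∈ A ∧ pts Ω A ⊆ pts Ω B := by
  obtain ⟨A, hA, i, z3⟩ := (S.pl c).other (S.pn_el hS h hc) z1 z2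
  have := S.ln_of_I hS h hc hA i.symm
  exact ⟨A, this, S.el_fix hA, z3, S.sub_of_I hS this h (S.el_fix hA) hc i.symm⟩

theorem pn_at (h : Ln N q A) {z : G} (z1 : z ≠ 1) (z2 : z ∈ A) :
    ∃ B, Pn N q B ∧ z ∈ B ∧ pts Ω A ⊆ pts Ω B := by
  obtain ⟨a, b, -, f⟩ := id h
  obtain ⟨B, hB, i, z3⟩ := (S.pl a).other f.1 z1 z2
  have := S.pn_of_I hS h (S.el_fix f.1) hB i
  exact ⟨B, this, z3, S.sub_of_I hS h this (S.el_fix f.1) (S.el_fix hB) i⟩

theorem ln_eq_of_mem (h : Ln N q A) (h' : Ln N q A') (a1 : a ∈ pts Ω A) (a2 : a ∈ pts Ω A') {z : G} (z1 : z ≠ 1)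
    (z2 : z ∈ A) (z3 : z ∈ A') : A = A' :=
  (S.pl a).eq_of_mem (S.ln_el hS h a1) (S.ln_el hS h' a2) (S.ln_ty hS h h' a1 a2) z1 z2 z3

end St
end CF.H3
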