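/-
The parabolic case: counting points on lines and planes.
-/
import Cfsg.Agent.H3.G
set_option autoImplicit false
set_option linter.unusedSectionVars false

namespace CF.H3
open Subgroup MulAction
open scoped commutatorElement

variable {G : Type*} [Group G] [Finite G] {Ω : Type*} [Finite Ω] [MulAction G Ω] [FaithfulSMul G Ω]
variable {N : Ω → Subgroup G} {q : ℕ} {ty : Ω → Subgroup G → Bool}

theorem ncard_pts_cj (g : G) (A : Subgroup G) : (pts Ω (cj g A)).ncard = (pts Ω A).ncard := by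
  rw [pts_cj, Set.ncard_image_of_injective _ (MulAction.injective g)]

theorem ncard_ne {X : Type*} [Finite X] {T : Set X} {a : X} (h : a ∈ T) : {x | x ∈ T ∧ x ≠ a}.ncard + 1 = T.ncard := by
  rw [← Set.ncard_sdiff_singleton_add_one h]; rfl

theorem dvd_of_free {H : Subgroup G} {T : Set Ω} (h1 : ∀ g ∈ H, ∀ x ∈ T, g • x ∈ T)
    (h2 : ∀ g ∈ H, ∀ x ∈ T, g • x = x → g = 1) : Nat.card H ∣ T.ncard := by
  let U : SubMulAction H Ω := ⟨T, fun g x hx => h1 g g.2 x hx⟩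
  have e := MulAction.selfEquivOrbitsQuotientProd (G := H) (X := U) fun b => by
    rw [Subgroup.eq_bot_iff_forall]
    intro g hg
    exact Subtype.ext (h2 g g.2 b b.2 (congrArg Subtype.val hg))
  have := Nat.card_congr e
  rw [Nat.card_prod] at this
  exact ⟨_, (this.trans (mul_comm _ _) : T.ncard = _)⟩

namespace St
variable (S : St N q ty) (hS : ∀ a b : Ω, a ≠ b → ∃ A, Star N q a b A) {a b c d : Ω} {A A' B B' C D : Subgroup G}
include S hS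

theorem ln_conj (h : Ln N q A) (h' : Ln N q A') : ∃ g, cj g A = A' := by
  obtain ⟨a, b, h1, f⟩ := h
  obtain ⟨c, d, h2, f'⟩ := h'
  obtain ⟨g, rfl, rfl⟩ := S.two a b c d h1 h2
  exact ⟨g, S.star_uniq (S.star_smul f g) f'⟩

theorem ln_card (a : Ω) : ∃ k, 2 ≤ k ∧ ∀ A, Ln N q A → (pts Ω A).ncard = k := by
  obtain ⟨A, h1, h2⟩ := S.ex_ln_at hS a
  obtain ⟨b, b1, b2⟩ := S.ln_two h1 a
  refine ⟨(pts Ω A).ncard, (Set.one_lt_ncard (Set.toFinite _)).2 ⟨b, b1, a, h2, b2⟩, fun A' h => ?_⟩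
  obtain ⟨g, rfl⟩ := S.ln_conj hS h1 h
  exact ncard_pts_cj g A

theorem ln_fix (h : Ln N q A) (ne : a ≠ b) (a1 : a ∈ pts Ω A) (b1 : b ∈ pts Ω A) {g : G} (a2 : g • a ∈ pts Ω A)
    (b2 : g • b ∈ pts Ω A) : cj g A = A :=
  S.ln_uniq hS (S.ln_cj h g) h ((MulAction.injective g).ne ne) (smul_mem_pts.2 a1) (smul_mem_pts.2 b1) a2 b2

theorem pt_fix (h : Ln N q A) (h' : Ln N q A') (ne : A ≠ A') (a1 : a ∈ pts Ω A) (a2 : a ∈ pts Ω A') {g : G}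
    (f1 : cj g A = A) (f2 : cj g A' = A') : g • a = a := by
  by_contra e
  exact ne (S.ln_uniq hS h h' e (f1 ▸ smul_mem_pts.2 a1) a1 (f2 ▸ smul_mem_pts.2 a2) a2)

variable {k : ℕ} (hk : ∀ A, Ln N q A → (pts Ω A).ncard = k)
include hk

theorem pn_card (h : Pn N q B) : (pts Ω B).ncard = (q + 1) * (k - 1) + 1 := by
  obtain ⟨a, -, -, -, -, hB, -⟩ := id h
  have a1 : a ∈ pts Ω B := S.el_fix hB
  have := dc_eq {x | x ∈ pts Ω B ∧ x ≠ a} {A | El (N a) q A ∧ I B A} (fun x A => x ∈ pts Ω A) 1 (k - 1) ?_ ?_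
  · rw [(S.pl a).ncard_inc hB] at this
    rw [← ncard_ne a1]; omega
  · rintro x ⟨x1, x2⟩
    obtain ⟨A, h1, h2, h3⟩ := S.ex_ln hS x2.symm
    refine ncard_eq_one_of A ⟨⟨S.ln_el hS h1 h2, (S.I_of_two hS h1 h x2.symm h2 h3 a1 x1).symm⟩, h3⟩ ?_
    rintro A' ⟨⟨h4, h5⟩, h6⟩
    exact S.ln_uniq hS (S.ln_of_I hS h a1 h4 h5.symm) h1 x2.symm (S.el_fix h4) h6 h2 h3
  · rintro A ⟨h1, h2⟩
    have l := S.ln_of_I hS h a1 h1 h2.symm
    have s := S.sub_of_I hS l h (S.el_fix h1) a1 h2.symm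
    have := ncard_ne (T := pts Ω A) (S.el_fix h1)
    rw [hk A l] at this
    rw [← this, Nat.add_sub_cancel]
    congr 1
    ext x
    exact ⟨fun h => ⟨h.2, h.1.2⟩, fun h => ⟨⟨s h.1, h.2⟩, h.1⟩⟩

omit hk in
theorem ncard_ty' (hA : El (N a) q A) : {C | El (N a) q C ∧ ty a C = ty a A}.ncard = (q + 1) * q + 1 := by
  rw [← (S.pl a).ncard_ty hA, ← ncard_ne (T := {C | El (N a) q C ∧ ty a C = ty a A}) (a := A) ⟨hA, rfl⟩]
  congr 2
  ext x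
  exact and_assoc

theorem all_card (a : Ω) : Nat.card Ω = ((q + 1) * q + 1) * (k - 1) + 1 := by
  obtain ⟨A0, h0, a0⟩ := S.ex_ln_at hS a
  have := dc_eq {x | x ∈ Set.univ ∧ x ≠ a} {C | El (N a) q C ∧ ty a C = ty a A0} (fun x A => x ∈ pts Ω A) 1 (k - 1) ?_ ?_
  · rw [S.ncard_ty' hS (S.ln_el hS h0 a0)] at this
    rw [← Set.ncard_univ, ← ncard_ne (Set.mem_univ a)]; omega
  · rintro x ⟨-, x2⟩
    obtain ⟨A, h1, h2, h3⟩ := S.ex_ln hS x2.symm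
    refine ncard_eq_one_of A ⟨⟨S.ln_el hS h1 h2, S.ln_ty hS h1 h0 h2 a0⟩, h3⟩ ?_
    rintro A' ⟨⟨h4, h5⟩, h6⟩
    exact S.ln_uniq hS (S.ln_of_ty hS h0 a0 h4 h5) h1 x2.symm (S.el_fix h4) h6 h2 h3
  · rintro A ⟨h1, h2⟩
    have l := S.ln_of_ty hS h0 a0 h1 h2
    have := ncard_ne (T := pts Ω A) (S.el_fix h1)
    rw [hk A l] at this
    rw [← this, Nat.add_sub_cancel]
    congr 1
    ext x
    exact ⟨fun h => ⟨h.2, h.1.2⟩, fun h => ⟨⟨trivial, h.2⟩, h.1⟩⟩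

theorem zl_card (h : Pn N q B) {z : G} (z1 : z ≠ 1) (z2 : z ∈ B) :
    {A | Ln N q A ∧ z ∈ A}.ncard * k = (q + 1) * (k - 1) + 1 := by
  rw [← S.pn_card hS hk h, ← mul_one (pts Ω B).ncard]
  refine (dc_eq _ _ (fun x A => x ∈ pts Ω A) 1 k ?_ ?_).symm
  · intro x hx
    obtain ⟨A, h1, h2, h3, -⟩ := S.ln_at hS h z1 z2 hx
    refine ncard_eq_one_of A ⟨⟨h1, h3⟩, h2⟩ ?_
    rintro A' ⟨⟨h4, h5⟩, h6⟩
    exact S.ln_eq_of_mem hS h4 h1 h6 h2 z1 h5 h3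
  · rintro A ⟨h1, h2⟩
    rw [← hk A h1]
    congr 1
    ext x
    exact ⟨fun h => h.2, fun hx => ⟨S.fix_inv hS h z1 z2 (hx h2), hx⟩⟩

theorem k_dvd (a : Ω) (h2 : 2 ≤ k) : k ∣ q := by
  obtain ⟨A, h1, -⟩ := S.ex_ln_at hS a
  obtain ⟨b, c, -, f⟩ := id h1
  obtain ⟨z, z1, z2⟩ := (S.pl b).ex f.1
  obtain ⟨B, hB, z3, -⟩ := S.pn_at hS h1 z1 z2
  have := S.zl_card hS hk hB z1 z3
  obtain ⟨j, rfl⟩ : ∃ j, k = j + 1 := ⟨k - 1, by omega⟩
  rw [Nat.add_sub_cancel] at this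
  have e : (q + 1) * (j + 1) = (q + 1) * j + 1 + q := by ring
  exact (Nat.dvd_add_right (this ▸ dvd_mul_left _ _)).1 (e ▸ dvd_mul_left _ _)

theorem twelve (a : Ω) (h2 : k = 2) : q + 2 ∣ 12 := by
  subst h2
  have := dc_eq (Set.univ : Set Ω) {B | Pn N q B} (fun x B => x ∈ pts Ω B) ((q + 1) * q + 1) (q + 2) ?_ ?_
  · rw [Set.ncard_univ, S.all_card hS hk a] at this
    have e : (((q + 1) * q + 1) * (2 - 1) + 1) * ((q + 1) * q + 1) + (q + 2) * 5 =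
        (q + 2) * (q ^ 3 + 4 * q) + 12 := by ring
    rw [this] at e
    exact (Nat.dvd_add_right (dvd_mul_right _ _)).1 (e ▸ dvd_add (dvd_mul_left _ _) (dvd_mul_right _ _))
  · intro x _
    obtain ⟨A, h1, h2⟩ := S.ex_ln_at hS x
    obtain ⟨B, hB, i, -⟩ := (S.pl x).third (S.ln_el hS h1 h2) A A
    have p := S.pn_of_I hS h1 h2 hB i
    rw [← S.ncard_ty' hS hB]
    congr 1
    ext C
    constructor
    · rintro ⟨c1, c2⟩
      refine ⟨S.pn_el hS c1 c2, ?_⟩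
      have t1 := S.ln_pn_ty hS h1 c1 h2 c2
      have t2 := S.ln_pn_ty hS h1 p h2 (S.el_fix hB)
      revert t1 t2; cases ty x A <;> cases ty x B <;> cases ty x C <;> simp
    · rintro ⟨c1, c2⟩
      refine ⟨(S.ln_or_pn hS c1).resolve_left fun l => ?_, S.el_fix c1⟩
      exact S.ln_pn_ty hS l p (S.el_fix c1) (S.el_fix hB) c2
  · intro B hB
    have := S.pn_card hS hk hB
    rw [show q + 2 = (q + 1) * (2 - 1) + 1 by omega, ← this]
    congr 1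
    ext x; simp

end St
end CF.H3
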