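/-
The parabolic case: the action of a torus.
-/
import Cfsg.Agent.H3.H
set_option autoImplicit false
set_option linter.unusedSectionVars false

namespace CF.H3
open Subgroup MulAction
open scoped commutatorElement

variable {G : Type*} [Group G] [Finite G] {Ω : Type*} [Finite Ω] [MulAction G Ω] [FaithfulSMul G Ω]
variable {N : Ω → Subgroup G} {q : ℕ} {ty : Ω → Subgroup G → Bool}

theorem card_eq_mul {L Y X : Subgroup G} (h1 : L ≤ X) (h2 : Y ≤ X) (h3 : L ⊓ Y = ⊥)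
    (h4 : ∀ g ∈ X, ∃ y ∈ Y, g * y⁻¹ ∈ L) : Nat.card X = Nat.card L * Nat.card Y := by
  rw [← Nat.card_prod]
  refine (Nat.card_congr (Equiv.ofBijective (fun p : L × Y => (⟨p.1 * p.2, X.mul_mem (h1 p.1.2) (h2 p.2.2)⟩ : X))
    ⟨?_, ?_⟩)).symm
  · rintro ⟨⟨l, hl⟩, ⟨y, hy⟩⟩ ⟨⟨l', hl'⟩, ⟨y', hy'⟩⟩ e
    have e1 : l * y = l' * y' := congrArg Subtype.val e
    have e2 : l'⁻¹ * l = y' * y⁻¹ := by rw [inv_mul_eq_iff_eq_mul, ← mul_assoc, ← e1]; simp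
    have e3 : l'⁻¹ * l = 1 := by
      rw [← mem_bot, ← h3]
      exact ⟨L.mul_mem (L.inv_mem hl') hl, e2 ▸ Y.mul_mem hy' (Y.inv_mem hy)⟩
    obtain rfl : l' = l := inv_mul_eq_one.1 e3
    obtain rfl : y = y' := mul_left_cancel e1
    rfl
  · rintro ⟨g, hg⟩
    obtain ⟨y, y1, y2⟩ := h4 g hg
    exact ⟨(⟨_, y2⟩, ⟨y, y1⟩), Subtype.ext (by simp)⟩

theorem cyc_le {h : G} {Y Y' : Subgroup G} (h1 : Y ≤ zpowers h) (h2 : Y' ≤ zpowers h)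
    (e : Nat.card Y = Nat.card Y') : Y ≤ Y' := by
  classical
  haveI := Fintype.ofFinite (zpowers h)
  have c1 := IsCyclic.card_pow_eq_one_le (α := zpowers h) (Nat.card_pos (α := Y'))
  have p : ∀ Z : Subgroup G, ∀ y ∈ Z, y ^ Nat.card Z = 1 := fun Z y hy =>
    congrArg Subtype.val (pow_card_eq_one' (x := (⟨y, hy⟩ : Z)))
  have c2 : (Y'.subgroupOf (zpowers h) : Set (zpowers h)) = {a | a ^ Nat.card Y' = 1} := by
    refine Set.eq_of_subset_of_ncard_le (fun y hy => Subtype.ext (p Y' y hy)) ?_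
    have := Nat.card_congr (subgroupOfEquivOfLe h2).toEquiv
    rw [Set.ncard_eq_toFinset_card', Set.toFinset_ofPred]
    exact c1.trans this.ge
  intro y hy
  have : (⟨y, h1 hy⟩ : zpowers h) ∈ (Y'.subgroupOf (zpowers h) : Set (zpowers h)) := by
    rw [c2]; exact Subtype.ext (e ▸ p Y y hy)
  exact this

namespace St
variable (S : St N q ty) (hS : ∀ a b : Ω, a ≠ b → ∃ A, Star N q a b A) {a b c d : Ω} {A A' B B' C D : Subgroup G}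
include S

theorem X_const (h : a ≠ b) (h' : a ≠ c) :
    Nat.card (N a ⊓ stabilizer G b : Subgroup G) = Nat.card (N a ⊓ stabilizer G c : Subgroup G) := by
  obtain ⟨g, g1, rfl⟩ := S.two a b a c h h'
  rw [← card_cj g, cj_inf, S.cjN g1, cj_stab]

include hS

theorem LL_le (h : Ln N q A) (a1 : a ∈ pts Ω A) (c1 : c ∈ pts Ω A) : LL (N a) q A ≤ N a ⊓ stabilizer G c := by
  rw [LL, closure_le]
  rintro x ⟨B, h1, h2, h3⟩
  exact ⟨h1.1 h3, S.sub_of_I hS h (S.pn_of_I hS h a1 h1 h2) a1 (S.el_fix h1) h2 c1 h3⟩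

theorem X_card (h : Ln N q A) (a1 : a ∈ pts Ω A) (c1 : c ∈ pts Ω A) (ne : a ≠ c) {t : G} (ht : t ∈ N a)
    (h1 : ∀ g ∈ N a, cj g A = A → ∃ k ∈ zpowers t, g * k⁻¹ ∈ LL (N a) q A) (h2 : LL (N a) q A ⊓ zpowers t = ⊥) :
    Nat.card (N a ⊓ stabilizer G c : Subgroup G) =
      Nat.card (LL (N a) q A) * Nat.card (zpowers t ⊓ stabilizer G c : Subgroup G) := by
  have l := S.LL_le hS h a1 c1
  refine card_eq_mul l (inf_le_inf_right _ (zpowers_le.2 ht)) (eq_bot_iff.2 (h2 ▸ inf_le_inf_left _ inf_le_left)) ?_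
  intro g hg
  obtain ⟨k, k1, k2⟩ := h1 g hg.1 (S.star_fix (S.ln_star hS h a1 c1 ne) (S.fix a hg.1) hg.2)
  refine ⟨k, ⟨k1, ?_⟩, k2⟩
  have := (stabilizer G c).mul_mem ((stabilizer G c).inv_mem (l k2).2) hg.2
  simpa using this

theorem three (hA : Ln N q A) (hB : Pn N q B) (a1 : a ∈ pts Ω A) (a2 : a ∈ pts Ω B) (ni : ¬ I A B) {g : G}
    (hg : ∀ x, g • x = x ↔ x ∈ pts Ω A ∨ x ∈ pts Ω B) (c1 : c ∈ pts Ω A) (d1 : d ∈ pts Ω A) (ca : c ≠ a) (da : d ≠ a)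
    (cd : c ≠ d) : False := by
  obtain ⟨L, hL, i, -⟩ := (S.pl a).third (S.pn_el hS hB a2) B B
  have l1 := S.ln_of_I hS hB a2 hL i.symm
  have l2 := S.sub_of_I hS l1 hB (S.el_fix hL) a2 i.symm
  obtain ⟨b, b1, b2⟩ := S.ln_two l1 a
  have P := S.pl b
  have nb : ∀ x ∈ pts Ω A, x ≠ a → x ∉ pts Ω B := fun x x1 x2 x3 => ni (S.I_of_two hS hA hB x2 x1 a1 x3 a2)
  have bA : b ∉ pts Ω A := fun e => nb b e b2 (l2 b1)
  have gb := (hg b).2 (Or.inr (l2 b1))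
  have eB := S.pn_el hS hB (l2 b1)
  have key : ∀ x ∈ pts Ω A, x ≠ a → ∀ D, Ln N q D → b ∈ pts Ω D → x ∈ pts Ω D → ∀ C, El (N b) q C → I D C →
      cj g C = C := fun x x1 x2 D e1 e2 e3 C hC i1 => by
    have p := S.pn_of_I hS e1 e2 hC i1
    have s := S.sub_of_I hS e1 p e2 (S.el_fix hC) i1
    obtain ⟨M, m1, m2, m3, m4⟩ := S.pn_meet hS p hB (by rintro rfl; exact nb x x1 x2 (s e3)) (S.el_fix hC) (l2 b1)
    obtain ⟨y, y1, y2⟩ := S.ln_two m1 b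
    have xb : b ≠ x := by rintro rfl; exact bA x1
    refine P.fix_join (S.cjN gb) (S.ln_el hS e1 e2) (S.ln_el hS m1 m2) hC
      (by rintro rfl; exact nb x x1 x2 (m4 e3)) i1 (S.I_of_sub hS m1 p m3) ?_ ?_
    · exact S.ln_fix hS e1 xb e2 e3 (gb.symm ▸ e2) (((hg x).2 (Or.inl x1)).symm ▸ e3)
    · exact S.ln_fix hS m1 y2 y1 m2 (((hg y).2 (Or.inr (m4 y1))).symm ▸ y1) (gb.symm ▸ m2)
  obtain ⟨D1, e1, e2, e3⟩ := S.ex_ln hS (show b ≠ c by rintro rfl; exact bA c1)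
  obtain ⟨D2, f1, f2, f3⟩ := S.ex_ln hS (show b ≠ d by rintro rfl; exact bA d1)
  have hc := fun n => P.cent_of_fix (S.cjN gb) (n := n) fun C hC => P.lemQ (S.cjN gb) (S.ln_el hS e1 e2) (S.ln_el hS f1 f2)
    (S.ln_ty hS e1 f1 e2 f2) (by rintro rfl; exact bA (S.ln_uniq hS e1 hA cd e3 f3 c1 d1 ▸ e2))
    (key c c1 ca D1 e1 e2 e3) (key d d1 da D2 f1 f2 f3) hC
  obtain ⟨B', p1, p2, p3⟩ := S.ex_pn hS hA bA
  have eL := S.ln_el hS l1 b1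
  obtain ⟨B'', q1, q2, q3, q4⟩ := P.third eL B B'
  obtain ⟨D, r1, r2, r3, -⟩ := P.third q1 L L
  have pB := S.pn_of_I hS l1 b1 q1 q2
  have lD := S.ln_of_I hS pB (S.el_fix q1) r1 r2.symm
  obtain ⟨n, n1, rfl⟩ := P.trans_ty eL r1 (S.ln_ty hS l1 lD b1 (S.el_fix r1))
  have na : n • a ∈ pts Ω (cj n L) := smul_mem_pts.2 (S.el_fix hL)
  have nb' : n • a ≠ b := S.ne_smul b2.symm (S.fix b n1)
  have : g • n • a = n • a := by rw [← mul_smul, (hc n n1).eq, mul_smul, (hg a).2 (Or.inl a1)]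
  rcases (hg _).1 this with e | e
  · exact q4 (P.uniq' r1 eL q1 (S.pn_el hS p1 p3) r3 r2.symm q2
      (S.I_of_two hS lD p1 nb' na (S.el_fix r1) (p2 e) p3) (S.I_of_two hS l1 p1 b2 b1 (S.el_fix hL) p3 (p2 a1)))
  · exact q3 (P.uniq' r1 eL q1 eB r3 r2.symm q2
      (S.I_of_two hS lD hB nb' na (S.el_fix r1) e (l2 b1)) i.symm)

theorem torus {k : ℕ} (hk : ∀ A, Ln N q A → (pts Ω A).ncard = k) (k3 : 3 ≤ k) (a : Ω) :
    ∃ A t, Ln N q A ∧ a ∈ pts Ω A ∧ t ∈ N a ∧ cj t A = A ∧ orderOf t * Nat.gcd 3 (q - 1) = q - 1 ∧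
      ∀ g ∈ zpowers t, ∀ c ∈ pts Ω A, c ≠ a → g • c = c → g = 1 := by
  obtain ⟨L, l1, l2⟩ := S.ex_ln_at hS a
  have P := S.pl a
  obtain ⟨A, B, t, hA, hB, t1, t2, ni, ht, ho, h1, h2⟩ := P.tor (ty a L)
  have lA := S.ln_of_ty hS l1 l2 hA t1
  have a1 : a ∈ pts Ω A := S.el_fix hA
  have pB : Pn N q B := (S.ln_or_pn hS hB).resolve_left fun e => t2 (S.ln_ty hS e l1 (S.el_fix hB) l2)
  refine ⟨A, t, lA, a1, ht, (h1 A hA (Or.inl rfl)).1, ho, fun g g1 c c1 ca gc => ?_⟩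
  by_contra g2
  have ga : g • a = a := S.fix a (zpowers_le.2 ht g1)
  have hX := S.X_card hS lA a1 c1 ca.symm ht (h1 A hA (Or.inl rfl)).2.1 (h1 A hA (Or.inl rfl)).2.2
  have key : ∀ D, Ln N q D → a ∈ pts Ω D → (D = A ∨ I D B) → ∀ x ∈ pts Ω D, g • x = x := fun D d1 d2 d3 x x1 => by
    by_cases xa : a = x
    · exact xa ▸ ga
    have eD := S.ln_el hS d1 d2
    have hY := S.X_card hS d1 d2 x1 xa ht (h1 D eD d3).2.1 (h1 D eD d3).2.2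
    obtain ⟨n, n1, n2⟩ := P.trans_ty hA eD (S.ln_ty hS lA d1 a1 d2)
    rw [← n2, ← cj_eq_of_mem n1, ← cj_LL, card_cj, cj_eq_of_mem n1, S.X_const xa ca.symm, hX] at hY
    exact (cyc_le inf_le_left inf_le_left (Nat.eq_of_mul_eq_mul_left Nat.card_pos hY) ⟨g1, gc⟩).2
  have c2 := ncard_ne (T := {x | x ∈ pts Ω A ∧ x ≠ a}) (a := c) ⟨c1, ca⟩
  have c3 := ncard_ne a1
  rw [hk A lA] at c3
  obtain ⟨d, ⟨d1, da⟩, dc⟩ := Set.nonempty_of_ncard_ne_zero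
    (show {x | x ∈ {x | x ∈ pts Ω A ∧ x ≠ a} ∧ x ≠ c}.ncard ≠ 0 by omega)
  refine S.three hS lA pB a1 (S.el_fix hB) ni (g := g) (fun x => ?_) c1 d1 ca da dc.symm
  by_cases xa : a = x
  · subst xa; simp [ga, a1]
  obtain ⟨D, e1, e2, e3⟩ := S.ex_ln hS xa
  constructor
  · intro gx
    rcases h2 g g1 g2 D (S.ln_el hS e1 e2) (S.ln_ty hS e1 l1 e2 l2)
      (S.ln_fix hS e1 xa e2 e3 (ga.symm ▸ e2) (gx.symm ▸ e3)) with e | e
    · exact Or.inl (e ▸ e3)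
    · exact Or.inr (S.sub_of_I hS e1 pB e2 (S.el_fix hB) e e3)
  · rintro (e | e)
    · exact key A lA a1 (Or.inl rfl) x e
    · exact key D e1 e2 (Or.inr (S.I_of_two hS e1 pB xa e2 e3 (S.el_fix hB) e)) x e3

end St
end CF.H3
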