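/-
The affine case: parallel lines.
-/
import Cfsg.Agent.H3.J
set_option autoImplicit false
set_option linter.unusedSectionVars false

namespace CF.H3
open Subgroup MulAction
open scoped commutatorElement

variable {G : Type*} [Group G] [Finite G] {Ω : Type*} [Finite Ω] [MulAction G Ω] [FaithfulSMul G Ω]

/-- a central collineation has an axis -/
theorem PL.axis {N : Subgroup G} {q : ℕ} {ty : Subgroup G → Bool} (P : PL N q ty) {V : Subgroup G} {g : G}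
    (hg : cj g N = N) (hV : El N q V) (f : ∀ B, El N q B → I V B → cj g B = B) :
    ∃ B, El N q B ∧ ty B ≠ ty V ∧ ∀ X, El N q X → I X B → cj g X = X := by
  have k1 : ∀ l X, El N q l → El N q X → ¬ I V l → X ≠ V → ty X = ty V → I X l → I (cj g X) l → cj g X = X :=
    fun l X h1 h2 n1 n2 t i1 i2 => by
    obtain ⟨m, m1, m2, m3⟩ := P.join V X hV h2 t.symm n2.symm
    have m4 : I (cj g X) m := f m m1 m2 ▸ I_cj.2 m3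
    exact (P.uniq _ _ _ _ (h2.cj' hg) h2 h1 m1 i2 i1 m4 m3).resolve_right (by rintro rfl; exact n1 m2)
  have tt : ∀ l X, El N q l → El N q X → ty l ≠ ty V → I X l → ty X = ty V := fun l X h1 h2 t i => by
    have := P.ty_ne h2 h1 i
    revert this t; cases ty l <;> cases ty X <;> cases ty V <;> simp
  by_cases h : ∃ l, El N q l ∧ ty l ≠ ty V ∧ ¬ I V l ∧ cj g l = l
  · obtain ⟨l, l1, l2, l3, l4⟩ := h
    exact ⟨l, l1, l2, fun X h1 h2 => k1 l X l1 h1 l3 (by rintro rfl; exact l3 h2) (tt l X l1 h1 l2 h2) h2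
      (l4 ▸ I_cj.2 h2)⟩
  push Not at h
  obtain ⟨m0, e1, e2, -⟩ := P.third hV V V
  obtain ⟨m1, e3, e4, e5, -⟩ := P.third hV m0 m0
  have fV : cj g V = V := P.fix_join hg e3 e1 hV e5 e4.symm e2.symm (f _ e3 e4) (f _ e1 e2)
  have k2 : ∀ l, El N q l → ty l ≠ ty V → ¬ I V l → ∃ X, El N q X ∧ I X l ∧ cj g X = X := fun l l1 l2 l3 => by
    have hi := cj_inv_eq hg
    have l4 := l1.cj' hi
    obtain ⟨X, x1, x2, x3⟩ := P.join l (cj g⁻¹ l) l1 l4 (P.ty_fix hi hV (by rw [cj_inv_eq fV]) l1).symm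
      (fun e => h l l1 l2 l3 (by conv_lhs => rw [e]; simp))
    refine ⟨X, x1, x2.symm, k1 l X l1 x1 l3 (by rintro rfl; exact l3 x2.symm) (tt l X l1 x1 l2 x2.symm) x2.symm ?_⟩
    simpa using (I_cj (g := g)).2 x3.symm
  have k3 : ∀ m X, El N q m → El N q X → I V m → I X m → X ≠ V → ∃ l, El N q l ∧ I X l ∧ ty l ≠ ty V ∧ ¬ I V l :=
    fun m X m1 x1 i1 i2 ne => by
    obtain ⟨l, l1, l2, l3, -⟩ := P.third x1 m m
    refine ⟨l, l1, l2, ?_, fun i => l3 (P.uniq' x1 hV l1 m1 ne l2 i i2 i1)⟩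
    rw [← P.ty_eq x1 hV m1 i2 i1]
    exact (P.ty_ne x1 l1 l2).symm
  obtain ⟨X0, x1, x2, x3, -⟩ := P.third e1 V V
  obtain ⟨l0, l1, -, l3, l4⟩ := k3 m0 X0 e1 x1 e2 x2.symm x3
  obtain ⟨Y, y1, y2, y3⟩ := k2 l0 l1 l3 l4
  have yV : Y ≠ V := by rintro rfl; exact l4 y2
  have tY := tt l0 Y l1 y1 l3 y2
  obtain ⟨m, n1, n2, n3⟩ := P.join V Y hV y1 tY.symm yV.symm
  refine ⟨m, n1, (P.ty_ne hV n1 n2).symm, fun X h1 h2 => ?_⟩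
  by_cases xV : X = V
  · exact xV ▸ fV
  obtain ⟨l, o1, o2, o3, o4⟩ := k3 m X n1 h1 n2 h2 xV
  obtain ⟨Z, z1, z2, z3⟩ := k2 l o1 o3 o4
  have zm : I Z m := by
    by_cases e : Z = Y
    · exact e ▸ n3
    obtain ⟨r, r1, r2, r3⟩ := P.join Z Y z1 y1 ((tt l Z o1 z1 o3 z2).trans tY.symm) e
    have r4 : I V r := by
      by_contra r4
      exact h r r1 (tY ▸ (P.ty_ne y1 r1 r3).symm) r4 (P.fix_join hg z1 y1 r1 e r2 r3 z3 y3)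
    exact P.uniq' y1 hV r1 n1 yV r3 r4 n3 n2 ▸ r2
  rcases P.uniq _ _ _ _ z1 h1 o1 n1 z2 o2 zm h2 with rfl | rfl
  · exact z3
  · exact absurd n2 o4

variable {N : Ω → Subgroup G} {q : ℕ} {ty : Ω → Subgroup G → Bool}

/-- parallel lines -/
def Par (N : Ω → Subgroup G) (q : ℕ) (A D : Subgroup G) : Prop := Ln N q A ∧ Ln N q D ∧ ∃ z, z ≠ 1 ∧ z ∈ A ∧ z ∈ D

theorem Par.symm {A D : Subgroup G} (h : Par N q A D) : Par N q D A := by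
  obtain ⟨h1, h2, z, z1, z2, z3⟩ := h
  exact ⟨h2, h1, z, z1, z3, z2⟩

namespace St
variable (S : St N q ty) (hS : ∀ a b : Ω, a ≠ b → ∃ A, Star N q a b A) {a b c d : Ω} {A A' B B' C D D' E : Subgroup G}
include S

theorem par_refl (h : Ln N q A) : Par N q A A := by
  obtain ⟨a, b, -, f⟩ := id h
  obtain ⟨z, z1, z2⟩ := (S.pl a).ex f.1
  exact ⟨h, h, z, z1, z2, z2⟩

theorem par_cj (h : Par N q A D) (g : G) : Par N q (cj g A) (cj g D) := by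
  obtain ⟨h1, h2, z, z1, z2, z3⟩ := h
  exact ⟨S.ln_cj h1 g, S.ln_cj h2 g, _, by simpa using z1, conj_mem_cj g z2, conj_mem_cj g z3⟩

include hS

theorem par_pn (h : Par N q A D) : ∃ B, Pn N q B ∧ pts Ω A ⊆ pts Ω B ∧ pts Ω D ⊆ pts Ω B := by
  obtain ⟨h1, h2, z, z1, z2, z3⟩ := h
  obtain ⟨B, b1, b2, b3⟩ := S.pn_at hS h1 z1 z2
  exact ⟨B, b1, b3, fun x hx => S.fix_inv hS b1 z1 b2 (hx z3)⟩

theorem par_eq (h : Par N q A D) (c1 : c ∈ pts Ω A) (c2 : c ∈ pts Ω D) : A = D := by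
  obtain ⟨h1, h2, z, z1, z2, z3⟩ := h
  exact S.ln_eq_of_mem hS h1 h2 c1 c2 z1 z2 z3

theorem ex_par' (hA : Ln N q A) (hB : Pn N q B) (s : pts Ω A ⊆ pts Ω B) (c1 : c ∈ pts Ω B) :
    ∃ D, Par N q A D ∧ c ∈ pts Ω D ∧ pts Ω D ⊆ pts Ω B := by
  obtain ⟨z, z1, z2, z3⟩ := (S.I_of_sub hS hA hB s).ex
  obtain ⟨D, d1, d2, d3, d4⟩ := S.ln_at hS hB z1 z3 c1
  exact ⟨D, ⟨hA, d1, z, z1, z2, d3⟩, d2, d4⟩

theorem ex_par (hA : Ln N q A) (c : Ω) : ∃ D, Par N q A D ∧ c ∈ pts Ω D := by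
  by_cases h : c ∈ pts Ω A
  · exact ⟨A, S.par_refl hA, h⟩
  obtain ⟨B, b1, b2, b3⟩ := S.ex_pn hS hA h
  obtain ⟨D, d1, d2, -⟩ := S.ex_par' hS hA b1 b2 b3
  exact ⟨D, d1, d2⟩

theorem mem_of_fix_pt (hA : Ln N q A) (hB : Pn N q B) (s : pts Ω A ⊆ pts Ω B) {z : G} (z1 : z ∈ A)
    (hD : Ln N q D) (s' : pts Ω D ⊆ pts Ω B) (ne : D ≠ A) (a1 : a ∈ pts Ω A) (a2 : a ∈ pts Ω D) (f : cj z D = D) :
    z ∈ B :=
  (S.pl a).mem_of_fix (S.ln_el hS hA a1) (S.pn_el hS hB (s a1)) (S.ln_el hS hD a2) (S.I_of_sub hS hA hB s)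
    (S.I_of_sub hS hD hB s') ne z1 f

theorem mem_of_fix_pt' (hA : Ln N q A) (hB : Pn N q B) (s : pts Ω A ⊆ pts Ω B) {z : G} (z1 : z ∈ A)
    (c1 : c ∈ pts Ω B) (c2 : c ∉ pts Ω A) (f : z • c = c) : z ∈ B := by
  obtain ⟨a, a1, a2⟩ := S.ln_two hA c
  obtain ⟨D, d1, d2, d3⟩ := S.ex_ln hS a2
  have za : z • a = a := a1 z1
  exact S.mem_of_fix_pt hS hA hB s z1 d1 (S.sub_of_two hS d1 hB a2 d2 d3 (s a1) c1) (by rintro rfl; exact c2 d3) a1 d2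
    (S.ln_fix hS d1 a2 d2 d3 (za.symm ▸ d2) (f.symm ▸ d3))

variable (hk : ∀ A, Ln N q A → (pts Ω A).ncard = q)
include hk

theorem meet (hB : Pn N q B) {z : G} (z1 : z ≠ 1) (z2 : z ∈ B) (hD : Ln N q D) (z3 : z ∈ D) (hE : Ln N q E)
    (s : pts Ω E ⊆ pts Ω B) (dj : ∀ x ∈ pts Ω D, x ∉ pts Ω E) : z ∈ E := by
  by_contra z4
  have c1 := S.zl_card hS hk hB z1 z2
  have c2 := ncard_ne (T := {A | Ln N q A ∧ z ∈ A}) (a := D) ⟨hD, z3⟩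
  have := dc_le (pts Ω E) {A | A ∈ {A | Ln N q A ∧ z ∈ A} ∧ A ≠ D} (fun x A => x ∈ pts Ω A) 1 1 ?_ ?_
  · obtain ⟨a, -⟩ := hD
    have q2 := (S.pl a).two_le
    rw [hk E hE] at this
    obtain ⟨j, rfl⟩ : ∃ j, q = j + 1 := ⟨q - 1, by omega⟩
    rw [← c2, Nat.add_sub_cancel] at c1
    nlinarith
  · intro x hx
    obtain ⟨A, h1, h2, h3, -⟩ := S.ln_at hS hB z1 z2 (s hx)
    exact (Set.ncard_pos (Set.toFinite _)).2 ⟨A, ⟨⟨h1, h3⟩, by rintro rfl; exact dj x h2 hx⟩, h2⟩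
  · rintro A ⟨⟨h1, h2⟩, -⟩
    refine (Set.ncard_le_one (Set.toFinite _)).2 ?_
    rintro x ⟨x1, x2⟩ y ⟨y1, y2⟩
    by_contra e
    exact z4 (S.ln_uniq hS h1 hE e x2 y2 x1 y1 ▸ h2)

theorem par_of_disj (hB : Pn N q B) (hD : Ln N q D) (hE : Ln N q E) (s : pts Ω D ⊆ pts Ω B)
    (s' : pts Ω E ⊆ pts Ω B) (dj : ∀ x ∈ pts Ω D, x ∉ pts Ω E) : Par N q D E := by
  obtain ⟨z, z1, z2, z3⟩ := (S.I_of_sub hS hD hB s).ex
  exact ⟨hD, hE, z, z1, z2, S.meet hS hk hB z1 z3 hD z2 hE s' dj⟩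

theorem par_uniq (h : Par N q A D) (h' : Par N q A D') (c1 : c ∈ pts Ω D) (c2 : c ∈ pts Ω D') : D = D' := by
  by_cases e : c ∈ pts Ω A
  · exact (S.par_eq hS h e c1).symm.trans (S.par_eq hS h' e c2)
  obtain ⟨B, b1, b2, b3⟩ := S.par_pn hS h
  obtain ⟨B', b4, b5, b6⟩ := S.par_pn hS h'
  obtain rfl := S.pn_uniq hS h.1 e b1 b4 b2 b5 (b3 c1) (b6 c2)
  obtain ⟨z, z1, z2, z3⟩ := (S.I_of_sub hS h.1 b1 b2).ex
  exact S.ln_eq_of_mem hS h.2.1 h'.2.1 c1 c2 z1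
    (S.meet hS hk b1 z1 z3 h.1 z2 h.2.1 b3 fun x x1 x2 => e (S.par_eq hS h x1 x2 ▸ c1))
    (S.meet hS hk b1 z1 z3 h.1 z2 h'.2.1 b6 fun x x1 x2 => e (S.par_eq hS h' x1 x2 ▸ c2))

theorem par_sub (h : Par N q A D) (hB : Pn N q B) (s : pts Ω A ⊆ pts Ω B) (c1 : c ∈ pts Ω D) (c2 : c ∈ pts Ω B) :
    pts Ω D ⊆ pts Ω B := by
  obtain ⟨D', d1, d2, d3⟩ := S.ex_par' hS h.1 hB s c2
  exact S.par_uniq hS hk h d1 c1 d2 ▸ d3

theorem par_trans (h : Par N q A D) (h' : Par N q A D') : Par N q D D' := by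
  by_cases e : ∃ c, c ∈ pts Ω D ∧ c ∈ pts Ω D'
  · obtain ⟨c, c1, c2⟩ := e
    exact S.par_uniq hS hk h h' c1 c2 ▸ S.par_refl h.2.1
  push Not at e
  obtain ⟨B, b1, b2, b3⟩ := S.par_pn hS h
  obtain ⟨c0, -⟩ := id h.1
  obtain ⟨c, c1, -⟩ := S.ln_two h'.2.1 c0
  by_cases cB : c ∈ pts Ω B
  · exact S.par_of_disj hS hk b1 h.2.1 h'.2.1 b3 (S.par_sub hS hk h' b1 b2 c1 cB) e
  obtain ⟨B', b4, b5, b6⟩ := S.par_pn hS h'
  obtain ⟨P, p1, p2, p3⟩ := S.ex_pn hS h.2.1 fun x => e c x c1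
  refine S.par_of_disj hS hk p1 h.2.1 h'.2.1 p2 ?_ e
  by_cases e' : P = B'
  · exact e' ▸ b6
  obtain ⟨M, m1, m2, m3, m4⟩ := S.pn_meet hS p1 b4 e' p3 (b6 c1)
  refine S.par_uniq hS hk (S.par_of_disj hS hk b4 h.1 m1 b5 m4 fun x x1 x2 => ?_) h' m2 c1 ▸ m3
  by_cases xD : x ∈ pts Ω D
  · obtain rfl := S.par_eq hS h x1 xD
    exact e' (S.pn_uniq hS h.1 (fun y => cB (b2 y)) p1 b4 p2 b5 p3 (b6 c1))
  · exact cB (S.pn_uniq hS h.2.1 xD p1 b1 p2 b3 (m3 x2) (b2 x1) ▸ p3)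

theorem par_fix (h : Par N q A D) {z : G} (z1 : z ∈ A) : cj z D = D := by
  by_cases e : A = D
  · exact e ▸ cj_eq_of_mem z1
  obtain ⟨B, b1, b2, b3⟩ := S.par_pn hS h
  obtain ⟨a, c0, -, f⟩ := id h.1
  have a1 : a ∈ pts Ω A := S.el_fix f.1
  have i := S.I_of_sub hS h.1 b1 b2
  by_cases zB : z ∈ B
  · obtain ⟨c, c1, -⟩ := S.ln_two h.2.1 a
    obtain ⟨d, d1, d2⟩ := S.ln_two h.2.1 c
    exact S.ln_fix hS h.2.1 d2 d1 c1 ((b3 d1 zB : z • d = d).symm ▸ d1) ((b3 c1 zB : z • c = c).symm ▸ c1)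
  obtain ⟨c, c1, -⟩ := S.ln_two h.2.1 a
  have cA : c ∉ pts Ω A := fun x => e (S.par_eq hS h x c1)
  have zc : z • c ≠ c := fun x => zB (S.mem_of_fix_pt' hS h.1 b1 b2 z1 (b3 c1) cA x)
  obtain ⟨E, e1, e2, e3⟩ := S.ex_ln hS zc
  have fE : cj z E = E := S.ln_fix hS e1 zc e2 e3 (by rw [← mul_smul, f.1.2.1 z z1, one_smul]; exact e3) e2
  have sE : pts Ω E ⊆ pts Ω B := S.sub_of_two hS e1 b1 zc e2 e3
    ((S.pl a).norm f.1 (S.pn_el hS b1 (b2 a1)) i z1 ▸ smul_mem_pts.2 (b3 c1)) (b3 c1)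
  exact S.par_uniq hS hk (S.par_of_disj hS hk b1 h.1 e1 b2 sE fun x x1 x2 =>
    zB (S.mem_of_fix_pt hS h.1 b1 b2 z1 e1 sE (by rintro rfl; exact cA e3) x1 x2 fE)) h e3 c1 ▸ fE

end St
end CF.H3
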