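/-
The affine case: the translation group.
-/
import Cfsg.Agent.H3.K
set_option autoImplicit false
set_option linter.unusedSectionVars false

namespace CF.H3
open Subgroup MulAction
open scoped commutatorElement

variable {G : Type*} [Group G] [Finite G] {Ω : Type*} [Finite Ω] [MulAction G Ω] [FaithfulSMul G Ω]
variable {N : Ω → Subgroup G} {q : ℕ} {ty : Ω → Subgroup G → Bool}

/-- dilatations -/
def Dil (N : Ω → Subgroup G) (q : ℕ) (g : G) : Prop := ∀ D, Ln N q D → Par N q D (cj g D)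

namespace St
variable (S : St N q ty) (hS : ∀ a b : Ω, a ≠ b → ∃ A, Star N q a b A) {a b c d : Ω} {A A' B B' C D D' E : Subgroup G}
variable (hk : ∀ A, Ln N q A → (pts Ω A).ncard = q)
include S hS hk

theorem aff_pn (h : Pn N q B) : (pts Ω B).ncard = q ^ 2 := by
  obtain ⟨a, -⟩ := id h
  have := (S.pl a).two_le
  rw [S.pn_card hS hk h]
  obtain ⟨j, rfl⟩ : ∃ j, q = j + 1 := ⟨q - 1, by omega⟩
  rw [Nat.add_sub_cancel]; ring

theorem aff_all (a : Ω) : Nat.card Ω = q ^ 3 := by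
  have := (S.pl a).two_le
  rw [S.all_card hS hk a]
  obtain ⟨j, rfl⟩ : ∃ j, q = j + 1 := ⟨q - 1, by omega⟩
  rw [Nat.add_sub_cancel]; ring

theorem fix_big (hA : Ln N q A) {g : G} (f : ∀ D, Par N q A D → cj g D = D) (gc : g • c = c) :
    ∃ B, Pn N q B ∧ ∀ x ∈ pts Ω B, g • x = x := by
  obtain ⟨V, v1, v2⟩ := S.ex_par hS hA c
  have P := S.pl c
  have eV := S.ln_el hS v1.2.1 v2
  obtain ⟨B, b1, b2, b3⟩ := P.axis (S.cjN gc) eV fun B hB i => by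
    have p := S.pn_of_I hS v1.2.1 v2 hB i
    have s := S.sub_of_I hS v1.2.1 p v2 (S.el_fix hB) i
    obtain ⟨L, l1, l2, l3, -⟩ := P.third hB V V
    have lL := S.ln_of_I hS p (S.el_fix hB) l1 l2.symm
    obtain ⟨y, y1, y2⟩ := S.ln_two lL c
    have yV : y ∉ pts Ω V := fun e => l3 (S.ln_uniq hS lL v1.2.1 y2 y1 (S.el_fix l1) e v2)
    obtain ⟨D, d1, d2, d3⟩ := S.ex_par' hS v1.2.1 p s (S.sub_of_I hS lL p (S.el_fix l1) (S.el_fix hB) l2.symm y1)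
    have fD := f D (S.par_trans hS hk v1.symm d1)
    exact S.pn_uniq hS v1.2.1 yV (S.pn_cj p g) p (f V v1 ▸ pts_cj_sub s) s (pts_cj_sub d3 (fD.symm ▸ d2)) (d3 d2)
  have pB : Pn N q B := (S.ln_or_pn hS b1).resolve_left fun e => b2 (S.ln_ty hS e v1.2.1 (S.el_fix b1) v2)
  have k1 : ∀ x ∈ pts Ω B, x ∉ pts Ω V → g • x = x := fun x x1 x2 => by
    have ne : c ≠ x := by rintro rfl; exact x2 v2
    obtain ⟨L, l1, l2, l3⟩ := S.ex_ln hS ne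
    obtain ⟨D, d1, d2⟩ := S.ex_par hS hA x
    exact S.pt_fix hS l1 d1.2.1 (by rintro rfl; exact x2 (S.par_uniq hS hk d1 v1 l2 v2 ▸ l3)) l3 d2
      (b3 L (S.ln_el hS l1 l2) (S.I_of_two hS l1 pB ne l2 l3 (S.el_fix b1) x1)) (f D d1)
  refine ⟨B, pB, fun x x1 => ?_⟩
  by_cases x2 : x ∈ pts Ω V
  swap
  · exact k1 x x1 x2
  by_contra gx
  have xc : x ≠ c := by rintro rfl; exact gx gc
  have q3 : 2 < q := by
    rw [← hk V v1.2.1, Set.two_lt_ncard (Set.toFinite _)]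
    exact ⟨c, v2, x, x2, g • x, f V v1 ▸ smul_mem_pts.2 x2, xc.symm, (S.ne_smul xc gc).symm, Ne.symm gx⟩
  obtain ⟨L, l1, l2, l3, -⟩ := (S.pl x).third (S.pn_el hS pB x1) V V
  have lL := S.ln_of_I hS pB x1 l1 l2.symm
  have sL := S.sub_of_I hS lL pB (S.el_fix l1) x1 l2.symm
  have c1 := ncard_ne (T := pts Ω L) (S.el_fix l1)
  rw [hk L lL] at c1
  obtain ⟨y, ⟨y1, y2⟩, w, ⟨w1, w2⟩, yw⟩ := (Set.one_lt_ncard (Set.toFinite _)).1
    (show 1 < {y | y ∈ pts Ω L ∧ y ≠ x}.ncard by omega)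
  have k2 : ∀ y ∈ pts Ω L, y ≠ x → g • y = y := fun y y1 y2 =>
    k1 y (sL y1) fun e => l3 (S.ln_uniq hS lL v1.2.1 y2 y1 (S.el_fix l1) e x2)
  exact gx (S.pt_fix hS lL v1.2.1 l3 (S.el_fix l1) x2
    (S.ln_fix hS lL yw y1 w1 ((k2 y y1 y2).symm ▸ y1) ((k2 w w1 w2).symm ▸ w1)) (f V v1))

theorem ex_fpf (hA : Ln N q A) : ∃ t : G, (∀ D, Par N q A D → cj t D = D) ∧ ∀ c : Ω, t • c ≠ c := by
  obtain ⟨a, b, -, f⟩ := id hA
  have a1 : a ∈ pts Ω A := S.el_fix f.1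
  obtain ⟨B, hB, i, -⟩ := (S.pl a).third f.1 A A
  obtain ⟨L, l1, l2, l3, -⟩ := (S.pl a).third hB A A
  have p := S.pn_of_I hS hA a1 hB i
  have s := S.sub_of_I hS hA p a1 (S.el_fix hB) i
  have lL := S.ln_of_I hS p (S.el_fix hB) l1 l2.symm
  obtain ⟨y, y1, y2⟩ := S.ln_two lL a
  have yA : y ∉ pts Ω A := fun e => l3 (S.ln_uniq hS lL hA y2 y1 (S.el_fix l1) e a1)
  obtain ⟨A', d1, d2, d3⟩ := S.ex_par' hS hA p s (S.sub_of_I hS lL p (S.el_fix l1) (S.el_fix hB) l2.symm y1)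
  obtain ⟨w, w1, w2⟩ := (S.pl y).ex_not (S.ln_el hS d1.2.1 d2) (S.pn_el hS p (d3 d2)) (S.I_of_sub hS d1.2.1 p d3)
  have f1 : ∀ z ∈ A, ∀ D, Par N q A D → cj (z * w) D = D := fun z hz D hD =>
    cj_mul_eq (S.par_fix hS hk hD hz) (S.par_fix hS hk (S.par_trans hS hk d1 hD) w1)
  by_contra hc
  push Not at hc
  have := dc_le (A : Set G) (pts Ω A)ᶜ (fun z c => (z * w) • c = c) (q ^ 2) q ?_ ?_
  · have c1 := Set.ncard_add_ncard_compl (pts Ω A)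
    have c2 : (A : Set G).ncard = q ^ 2 := f.1.2.2
    rw [hk A hA, S.aff_all hS hk a] at c1
    have q2 := (S.pl a).two_le
    rw [c2] at this
    nlinarith
  · intro z hz
    obtain ⟨c, c1⟩ := hc _ (f1 z hz)
    obtain ⟨B', b1, b2⟩ := S.fix_big hS hk hA (f1 z hz) c1
    rw [← S.aff_pn hS hk b1]
    refine Set.ncard_le_ncard fun x hx => ⟨fun xA => ?_, b2 x hx⟩
    have e1 : w • x ∈ pts Ω A := S.par_fix hS hk d1.symm w1 ▸ smul_mem_pts.2 xA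
    have e2 := b2 x hx
    rw [mul_smul, e1 hz] at e2
    exact w2 (S.mem_of_fix_pt' hS d1.2.1 p d3 w1 (s xA) (fun e => yA (S.par_eq hS d1 xA e ▸ d2)) e2)
  · intro c c1
    rcases Set.eq_empty_or_nonempty {z | z ∈ (A : Set G) ∧ (z * w) • c = c} with e | ⟨z0, z1, z2⟩
    · rw [e]; simp
    obtain ⟨B', b1, b2, b3⟩ := S.ex_pn hS hA c1
    rw [← (S.pl a).card_inf A B' f.1 (S.pn_el hS b1 (b2 a1)) (S.I_of_sub hS hA b1 b2)]
    refine Set.ncard_le_ncard_of_injOn (t := (A ⊓ B' : Subgroup G)) (fun z => z * z0⁻¹) ?_ (mul_left_injective _).injOn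
    rintro z ⟨z3, z4⟩
    have m := A.mul_mem z3 (A.inv_mem z1)
    refine ⟨m, S.mem_of_fix_pt' hS hA b1 b2 m b3 c1 ?_⟩
    rw [mul_smul] at z2 z4
    rw [mul_smul, inv_smul_eq_iff.2 z2.symm, z4]

theorem dil_of_fpf (hA : Ln N q A) {t : G} (f : ∀ D, Par N q A D → cj t D = D) (ht : ∀ c : Ω, t • c ≠ c) :
    Dil N q t := fun D hD => by
  by_cases e : Par N q A D
  · rw [f D e]; exact S.par_refl hD
  obtain ⟨c0, -⟩ := id hD
  obtain ⟨c, c1, -⟩ := S.ln_two hD c0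
  obtain ⟨V, v1, v2⟩ := S.ex_par hS hA c
  obtain ⟨P, p1, p2, p3⟩ := S.ex_pn2 hS hD v1.2.1 (by rintro rfl; exact e v1) c1 v2
  have k : ∀ x, ∀ W, Par N q A W → x ∈ pts Ω W → t • x ∈ pts Ω W := fun x W w1 w2 => f W w1 ▸ smul_mem_pts.2 w2
  refine S.par_of_disj hS hk p1 hD (S.ln_cj hD t) p2 ?_ fun x x1 x2 => ?_
  · rw [pts_cj]
    rintro _ ⟨x, x1, rfl⟩
    obtain ⟨W, w1, w2, w3⟩ := S.ex_par' hS v1.2.1 p1 p3 (p2 x1)
    exact w3 (k x W (S.par_trans hS hk v1.symm w1) w2)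
  · rw [pts_cj] at x2
    obtain ⟨y, y1, rfl⟩ := x2
    obtain ⟨W, w1, w2⟩ := S.ex_par hS hA y
    exact e (S.ln_uniq hS w1.2.1 hD (ht y) (k y W w1 w2) w2 x1 y1 ▸ w1)

theorem dil_mul {s t : G} (h1 : Dil N q s) (h2 : Dil N q t) : Dil N q (s * t) := fun D hD => by
  rw [cj_mul]
  exact S.par_trans hS hk (h2 D hD).symm (h1 _ (S.ln_cj hD t))

theorem dil_conj {t : G} (h : Dil N q t) (g : G) : Dil N q (g * t * g⁻¹) := fun D hD => by
  simpa [cj_mul] using S.par_cj (h _ (S.ln_cj hD g⁻¹)) g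

theorem dil_inv {t : G} (h : Dil N q t) : Dil N q t⁻¹ := fun D hD => by
  simpa using (h _ (S.ln_cj hD t⁻¹)).symm

theorem dil_fix {t : G} (h : Dil N q t) (hD : Ln N q D) (a1 : a ∈ pts Ω D) (a2 : t • a ∈ pts Ω D) : cj t D = D :=
  (S.par_eq hS (h D hD) a2 (smul_mem_pts.2 a1)).symm

theorem ex_off (hD : Ln N q D) : ∃ y, y ∉ pts Ω D := by
  by_contra h
  push Not at h
  obtain ⟨a, -⟩ := id hD
  have h1 := hk D hD
  have q2 := (S.pl a).two_le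
  rw [Set.eq_univ_of_forall h, Set.ncard_univ, S.aff_all hS hk a] at h1
  nlinarith [Nat.pow_le_pow_left q2 2]

theorem dil_two {t : G} (h : Dil N q t) (ne : a ≠ b) (ta : t • a = a) (tb : t • b = b) : t = 1 := by
  have k : ∀ a b, a ≠ b → t • a = a → t • b = b → ∀ L, Ln N q L → a ∈ pts Ω L → b ∈ pts Ω L → ∀ c, c ∉ pts Ω L →
      t • c = c := fun a b ne ta tb L l1 l2 l3 c hc => by
    obtain ⟨D, d1, d2, d3⟩ := S.ex_ln hS (show a ≠ c by rintro rfl; exact hc l2)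
    obtain ⟨E, e1, e2, e3⟩ := S.ex_ln hS (show b ≠ c by rintro rfl; exact hc l3)
    exact S.pt_fix hS d1 e1 (by rintro rfl; exact hc (S.ln_uniq hS d1 l1 ne d2 e2 l2 l3 ▸ d3)) d3 e3
      (S.dil_fix hS hk h d1 d2 (ta.symm ▸ d2)) (S.dil_fix hS hk h e1 e2 (tb.symm ▸ e2))
  obtain ⟨L, l1, l2, l3⟩ := S.ex_ln hS ne
  obtain ⟨y, hy⟩ := S.ex_off hS hk l1
  have ay : a ≠ y := by rintro rfl; exact hy l2
  obtain ⟨M, m1, m2, m3⟩ := S.ex_ln hS ay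
  refine eq_of_smul_eq_smul (α := Ω) fun x => ?_
  rw [one_smul]
  by_cases x1 : x ∈ pts Ω L
  swap
  · exact k a b ne ta tb L l1 l2 l3 x x1
  by_cases xa : a = x
  · exact xa ▸ ta
  exact k a y ay ta (k a b ne ta tb L l1 l2 l3 y hy) M m1 m2 m3 x fun e =>
    hy (S.ln_uniq hS m1 l1 xa m2 e l2 x1 ▸ m3)

theorem fpf_par {u : G} (h : Dil N q u) (hu : ∀ c : Ω, u • c ≠ c) (f : cj u A = A) (hD : Par N q A D) :
    cj u D = D := by
  obtain ⟨c, -⟩ := id hD.1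
  obtain ⟨c, c1, -⟩ := S.ln_two hD.1 c
  obtain ⟨y, y1, -⟩ := S.ln_two hD.2.1 c
  by_cases yA : y ∈ pts Ω A
  · exact S.par_eq hS hD yA y1 ▸ f
  obtain ⟨M, m1, m2, m3⟩ := S.ex_ln hS (hu y)
  have fM := S.dil_fix hS hk h m1 m3 m2
  obtain ⟨P, p1, p2, p3⟩ := S.ex_pn hS hD.1 yA
  have cy : c ≠ y := by rintro rfl; exact yA c1
  obtain ⟨L, l1, l2, l3⟩ := S.ex_ln hS cy
  have := S.par_sub hS hk (h L l1) p1 (S.sub_of_two hS l1 p1 cy l2 l3 (p2 c1) p3) (smul_mem_pts.2 l2)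
    (p2 (f ▸ smul_mem_pts.2 c1)) (smul_mem_pts.2 l3)
  exact S.par_uniq hS hk (S.par_of_disj hS hk p1 hD.1 m1 p2 (S.sub_of_two hS m1 p1 (hu y) m2 m3 this p3)
    fun x x1 x2 => hu x (S.pt_fix hS hD.1 m1 (by rintro rfl; exact yA m3) x1 x2 f fM)) hD m3 y1 ▸ fM

theorem regular (a : Ω) : ∃ E : Subgroup G, E.Normal ∧ Nat.card E = q ^ 3 ∧ (∀ x y : Ω, ∃ r ∈ E, r • x = y) ∧
    ∀ x : Ω, ∀ r ∈ E, r • x = x → r = 1 := by
  let E : Subgroup G :=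
    { carrier := {g | Dil N q g ∧ (g = 1 ∨ ∀ c : Ω, g • c ≠ c)}
      one_mem' := ⟨fun D hD => by simpa using S.par_refl hD, Or.inl rfl⟩
      inv_mem' := by
        rintro g ⟨g1, rfl | g2⟩
        · exact ⟨by simpa using g1, Or.inl inv_one⟩
        · exact ⟨S.dil_inv hS hk g1, Or.inr fun c e => g2 c (inv_smul_eq_iff.1 e).symm⟩
      mul_mem' := by
        rintro s t ⟨s1, rfl | s2⟩ ⟨t1, t2⟩
        · rw [one_mul]; exact ⟨t1, t2⟩
        rcases t2 with rfl | t2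
        · rw [mul_one]; exact ⟨s1, Or.inr s2⟩
        have d := S.dil_mul hS hk s1 t1
        refine ⟨d, or_iff_not_imp_right.2 fun h => ?_⟩
        push Not at h
        obtain ⟨c, hc⟩ := h
        obtain ⟨L, l1, l2, l3⟩ := S.ex_ln hS (t2 c)
        obtain ⟨y, hy⟩ := S.ex_off hS hk l1
        obtain ⟨M, m1, m2⟩ := S.ex_par hS l1 y
        have cy : c ≠ y := by rintro rfl; exact hy l3
        obtain ⟨D, d1, d2, d3⟩ := S.ex_ln hS cy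
        refine S.dil_two hS hk d cy hc (S.pt_fix hS d1 m1.2.1 ?_ d3 m2 (S.dil_fix hS hk d d1 d2 (hc.symm ▸ d2))
          (cj_mul_eq (S.fpf_par hS hk s1 s2 (S.dil_fix hS hk s1 l1 l2 ?_) m1)
            (S.fpf_par hS hk t1 t2 (S.dil_fix hS hk t1 l1 l3 l2) m1)))
        · rintro rfl; exact hy (S.par_eq hS m1 l3 d2 ▸ d3)
        · rw [← mul_smul, hc]; exact l3 }
  have hn : E.Normal := ⟨fun t ht g => ⟨S.dil_conj hS hk ht.1 g, ht.2.imp (by rintro rfl; simp) fun h c e =>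
    h (g⁻¹ • c) (by rw [mul_smul, mul_smul] at e; exact eq_inv_smul_iff.2 e)⟩⟩
  have tr : ∀ x y : Ω, ∃ r ∈ E, r • x = y := fun x y => by
    by_cases e : x = y
    · exact ⟨1, E.one_mem, by simpa using e⟩
    obtain ⟨A, h1, -⟩ := S.ex_ln_at hS a
    obtain ⟨t, t1, t2⟩ := S.ex_fpf hS hk h1
    obtain ⟨g, rfl, rfl⟩ := S.two a (t • a) x y (t2 a).symm e
    exact ⟨_, hn.conj_mem t ⟨S.dil_of_fpf hS hk h1 t1 t2, Or.inr t2⟩ g, by simp [mul_smul]⟩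
  have fr : ∀ x : Ω, ∀ r ∈ E, r • x = x → r = 1 := fun x r hr e => hr.2.resolve_right fun h => h x e
  refine ⟨E, hn, ?_, tr, fr⟩
  rw [← S.aff_all hS hk a]
  refine Nat.card_congr (Equiv.ofBijective (fun r : E => (r : G) • a) ⟨fun r s e => ?_, fun y => ?_⟩)
  · exact Subtype.ext (inv_mul_eq_one.1 (fr a _ (E.mul_mem (E.inv_mem r.2) s.2)
      (by rw [mul_smul]; exact inv_smul_eq_iff.2 e.symm)))
  · obtain ⟨r, r1, r2⟩ := tr a y
    exact ⟨⟨r, r1⟩, r2⟩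

end St
end CF.H3
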