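/-
The abstract form of the theorem.
-/
import Cfsg.Agent.H3.L
import Cfsg.Agent.H3.F
set_option autoImplicit false
set_option linter.unusedSectionVars false

namespace CF.H3
open Subgroup MulAction
open scoped commutatorElement

variable {G : Type*} [Group G] [Finite G] {Ω : Type*} [Finite Ω] [MulAction G Ω] [FaithfulSMul G Ω]
variable {N : Ω → Subgroup G} {q : ℕ} {ty : Ω → Subgroup G → Bool}

theorem arith {n k m : ℕ} (h1 : k ∣ 2 ^ n) (h2 : 3 ≤ k) (h3 : m * Nat.gcd 3 (2 ^ n - 1) = 2 ^ n - 1) (h4 : m ∣ k - 1) :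
    k = 2 ^ n := by
  have p : 0 < 2 ^ n := by positivity
  have l := Nat.le_of_dvd p h1
  have g : Nat.gcd 3 (2 ^ n - 1) = 1 ∨ Nat.gcd 3 (2 ^ n - 1) = 3 :=
    (Nat.dvd_prime Nat.prime_three).1 (Nat.gcd_dvd_left _ _)
  obtain ⟨j, hj⟩ := h4
  obtain ⟨i, -, rfl⟩ := (Nat.dvd_prime_pow Nat.prime_two).1 h1
  obtain ⟨r, hr⟩ := h1
  have ev : 2 ∣ 2 ^ i := dvd_pow_self 2 (by rintro rfl; omega)
  generalize 2 ^ i = k at *
  generalize 2 ^ n = q at *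
  rcases g with g | g <;> rw [g] at h3
  · rcases j with _ | _ | j
    · omega
    · omega
    · have : m * (j + 1 + 1) = m * j + 2 * m := by ring
      omega
  · rcases j with _ | _ | _ | _ | j
    · omega
    · rcases r with _ | _ | _ | _ | r
      · omega
      · omega
      · omega
      · omega
      · have : k * (r + 1 + 1 + 1 + 1) = k * r + 4 * k := by ring
        omega
    · omega
    · omega
    · have : m * (j + 1 + 1 + 1 + 1) = m * j + 4 * m := by ring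
      omega

namespace St
variable (S : St N q ty) (hS : ∀ a b : Ω, a ≠ b → ∃ A, Star N q a b A) {a b c d : Ω} {A A' B B' C D D' E : Subgroup G}
include S

theorem star (a b : Ω) (h : a ≠ b) : ∃ A, Star N q a b A :=
  (S.unif.resolve_left fun hF => S.not_flag hF a) a b h

include hS

theorem not_three (hk : ∀ A, Ln N q A → (pts Ω A).ncard = q) (a : Ω) (q3 : 3 ≤ q) : ¬ 3 ∣ q - 1 := fun h => by
  obtain ⟨L, l1, l2⟩ := S.ex_ln_at hS a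
  have P := S.pl a
  obtain ⟨A1, A2, A3, g, e1, e2, e3, t1, t2, ne, nc, gN, g1, g2, hf⟩ := P.tri h (ty a L)
  have m1 := S.ln_of_ty hS l1 l2 e1 t1
  have m2 := S.ln_of_ty hS l1 l2 e2 t2
  have a1 : a ∈ pts Ω A1 := S.el_fix e1
  have a2 : a ∈ pts Ω A2 := S.el_fix e2
  have f1 : ∀ x ∈ pts Ω A1, g • x = x := fun x hx => (S.LL_le hS m1 a1 hx g1).2
  have f2 : ∀ x ∈ pts Ω A2, g • x = x := fun x hx => (S.LL_le hS m2 a2 hx g2).2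
  have c1 := ncard_ne a1
  rw [hk A1 m1] at c1
  obtain ⟨b, ⟨b1, b2⟩, c, ⟨c2, c3⟩, bc⟩ := (Set.one_lt_ncard (Set.toFinite _)).1
    (show 1 < {y | y ∈ pts Ω A1 ∧ y ≠ a}.ncard by omega)
  obtain ⟨d, d1, d2⟩ := S.ln_two m2 a
  obtain ⟨B, p1, p2, p3⟩ := S.ex_pn2 hS m1 m2 ne a1 a2
  have n2 : ∀ x ∈ pts Ω A1, x ≠ a → x ∉ pts Ω A2 := fun x x1 x2 x3 => ne (S.ln_uniq hS m1 m2 x2 x1 a1 x3 a2)
  have bd : b ≠ d := by rintro rfl; exact n2 b b1 b2 d1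
  obtain ⟨E, o1, o2, o3⟩ := S.ex_ln hS bd
  obtain ⟨D, r1, r2, r3⟩ := S.ex_par' hS m2 p1 p3 (p2 c2)
  have sE := S.sub_of_two hS o1 p1 bd o2 o3 (p2 b1) (p3 d1)
  have fA : cj g A2 = A2 := S.ln_fix hS m2 d2 d1 a2 ((f2 d d1).symm ▸ d1) ((f2 a a2).symm ▸ a2)
  have fD : cj g D = D := S.par_uniq hS hk (fA ▸ S.par_cj r1 g) r1 (f1 c c2 ▸ smul_mem_pts.2 r2) r2
  have fE : cj g E = E := S.ln_fix hS o1 bd o2 o3 ((f1 b b1).symm ▸ o2) ((f2 d d1).symm ▸ o3)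
  have dj : ∀ x ∈ pts Ω D, x ∉ pts Ω A2 := fun x x1 x2 => n2 c c2 c3 (S.par_eq hS r1 x2 x1 ▸ r2)
  obtain ⟨x, x1, x2⟩ : ∃ x ∈ pts Ω D, x ∈ pts Ω E := by
    by_contra hc
    push Not at hc
    exact n2 b b1 b2 (S.par_uniq hS hk r1.symm (S.par_of_disj hS hk p1 r1.2.1 o1 r3 sE hc) d1 o3 ▸ o2)
  have gx := S.pt_fix hS r1.2.1 o1 (by rintro rfl; exact dj d o3 d1) x1 x2 fD fE
  have ax : a ≠ x := by rintro rfl; exact dj a x1 a2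
  obtain ⟨M, s1, s2, s3⟩ := S.ex_ln hS ax
  rcases hf M (S.ln_el hS s1 s2) (S.ln_ty hS s1 l1 s2 l2)
    (S.ln_fix hS s1 ax s2 s3 ((f1 a a1).symm ▸ s2) (gx.symm ▸ s3)) with rfl | rfl | rfl
  · by_cases xc : x = c
    · subst xc
      exact n2 d (S.ln_uniq hS o1 m1 bc o2 x2 b1 c2 ▸ o3) d2 d1
    · exact dj a (S.ln_uniq hS m1 r1.2.1 xc s3 c2 x1 r2 ▸ a1) a2
  · exact dj x x1 s3
  · exact nc B (S.pn_el hS p1 (p2 a1)) (S.I_of_sub hS m1 p1 p2) (S.I_of_sub hS m2 p1 p3)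
      (S.I_of_two hS s1 p1 ax s2 s3 (p2 a1) (r3 x1))

theorem trans_of (hA : Ln N q A) (a1 : a ∈ pts Ω A)
    (h : ∀ x ∈ pts Ω A, ∀ y ∈ pts Ω A, x ≠ a → y ≠ a → ∃ g ∈ N a, g • x = y) (x y : Ω) (hx : x ≠ a) (hy : y ≠ a) :
    ∃ g ∈ N a, g • x = y := by
  have k : ∀ x, x ≠ a → ∃ g ∈ N a, g • x ∈ pts Ω A := fun x hx => by
    obtain ⟨D, d1, d2, d3⟩ := S.ex_ln hS hx
    obtain ⟨n, n1, rfl⟩ := (S.pl a).trans_ty (S.ln_el hS d1 d3) (S.ln_el hS hA a1) (S.ln_ty hS d1 hA d3 a1)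
    exact ⟨n, n1, smul_mem_pts.2 d2⟩
  obtain ⟨g, g1, g2⟩ := k x hx
  obtain ⟨g', g3, g4⟩ := k y hy
  obtain ⟨n, n1, n2⟩ := h _ g2 _ g4 (S.ne_smul hx (S.fix a g1)) (S.ne_smul hy (S.fix a g3))
  exact ⟨g'⁻¹ * n * g, (N a).mul_mem ((N a).mul_mem ((N a).inv_mem g3) n1) g1, by
    rw [mul_smul, mul_smul, n2, inv_smul_smul]⟩

omit hS in
theorem main {n : ℕ} (hq : q = 2 ^ n) (a : Ω) : (∀ x y : Ω, x ≠ a → y ≠ a → ∃ g ∈ N a, g • x = y) ∧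
    ((Odd n ∧ ∃ E : Subgroup G, E.Normal ∧ Nat.card E = q ^ 3 ∧ (∀ x y : Ω, ∃ r ∈ E, r • x = y) ∧
      ∀ x : Ω, ∀ r ∈ E, r • x = x → r = 1) ∨ (n = 2 ∧ ∀ A, Ln N q A → (pts Ω A).ncard = 2)) := by
  have hS := S.star
  obtain ⟨k, k2, hk⟩ := S.ln_card hS a
  have q2 := (S.pl a).two_le
  by_cases k3 : k = 2
  · subst k3
    obtain ⟨A, h1, h2⟩ := S.ex_ln_at hS a
    have c1 := ncard_ne h2
    rw [hk A h1] at c1
    refine ⟨S.trans_of hS h1 h2 fun x x1 y y1 x2 y2 => ⟨1, (N a).one_mem, ?_⟩, ?_⟩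
    · rw [one_smul]
      exact (Set.ncard_le_one (s := {x | x ∈ pts Ω A ∧ x ≠ a}) (Set.toFinite _)).1 (by omega) x ⟨x1, x2⟩ y ⟨y1, y2⟩
    have t := S.twelve hS hk a rfl
    have l := Nat.le_of_dvd (by norm_num) t
    have : n < 4 := by
      by_contra h
      have := Nat.pow_le_pow_right (show 0 < 2 by norm_num) (not_lt.1 h)
      omega
    subst hq
    interval_cases n
    · omega
    · exact Or.inl ⟨odd_one, S.regular hS hk a⟩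
    · exact Or.inr ⟨rfl, hk⟩
    · omega
  have k4 : 3 ≤ k := by omega
  obtain ⟨A, t, h1, h2, h3, h4, h5, h6⟩ := S.torus hS hk k4 a
  have c1 := ncard_ne h2
  rw [hk A h1] at c1
  have inv : ∀ g ∈ zpowers t, ∀ x ∈ {x | x ∈ pts Ω A ∧ x ≠ a}, g • x ∈ {x | x ∈ pts Ω A ∧ x ≠ a} := by
    rintro _ ⟨i, rfl⟩ x ⟨x1, x2⟩
    refine ⟨?_, S.ne_smul x2 (S.fix a ((N a).zpow_mem h3 i))⟩
    letI := cjAct (G := G)
    have : cj (t ^ i) A = A := (stabilizer G A).zpow_mem h4 i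
    exact this ▸ smul_mem_pts.2 x1
  have dv := dvd_of_free inv fun g g1 x x1 => h6 g g1 x x1.1 x1.2
  rw [Nat.card_zpowers, show {x | x ∈ pts Ω A ∧ x ≠ a}.ncard = k - 1 by omega] at dv
  obtain rfl : k = q := hq ▸ arith (hq ▸ S.k_dvd hS hk a k2) k4 (hq ▸ h5) dv
  have n3 := S.not_three hS hk a k4
  rw [(Nat.coprime_iff_gcd_eq_one).1 ((Nat.Prime.coprime_iff_not_dvd Nat.prime_three).2 n3), mul_one] at h5
  refine ⟨S.trans_of hS h1 h2 fun x x1 y y1 x2 y2 => ?_, Or.inl ⟨?_, S.regular hS hk a⟩⟩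
  · obtain ⟨g, hg⟩ := orbit_fill (H := zpowers t) {x | x ∈ pts Ω A ∧ x ≠ a} (Set.toFinite _) x
      (fun g => inv g g.2 x ⟨x1, x2⟩) 1 (by
        rw [(Subgroup.eq_bot_iff_forall (stabilizer (zpowers t) x)).2 fun g hg => Subtype.ext (h6 g g.2 x x1 x2 hg)]
        simp) (by rw [Nat.card_zpowers]; omega) y ⟨y1, y2⟩
    exact ⟨g, zpowers_le.2 h3 g.2, hg⟩
  · by_contra h
    obtain ⟨r, rfl⟩ := Nat.not_odd_iff_even.1 h
    exact n3 (by rw [hq, ← two_mul, pow_mul]; exact Nat.sub_one_dvd_pow_sub_one 4 r)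

theorem steiner (hk : ∀ A, Ln N q A → (pts Ω A).ncard = 2) (ab : a ≠ b) (ac : a ≠ c) (bc : b ≠ c) :
    ∃! B, Pn N q B ∧ a ∈ pts Ω B ∧ b ∈ pts Ω B ∧ c ∈ pts Ω B := by
  obtain ⟨L, l1, l2, l3⟩ := S.ex_ln hS ab
  have hc : c ∉ pts Ω L := fun e => by
    have : 2 < (pts Ω L).ncard := (Set.two_lt_ncard (Set.toFinite _)).2 ⟨a, l2, b, l3, c, e, ab, ac, bc⟩
    rw [hk L l1] at this
    omega
  obtain ⟨B, b1, b2, b3⟩ := S.ex_pn hS l1 hc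
  exact ⟨B, ⟨b1, b2 l2, b2 l3, b3⟩, fun B' ⟨h1, h2, h3, h4⟩ =>
    S.pn_uniq hS l1 hc h1 b1 (S.sub_of_two hS l1 h1 ab l2 l3 h2 h3) b2 h4 b3⟩

end St
end CF.H3
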