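/-
Transvections of `SL₃(F)` in characteristic two.
-/
import Cfsg.Agent.H3.A
import Cfsg.Agent.Classical.Linear
set_option autoImplicit false
set_option linter.unusedSectionVars false

namespace CF.H3
open Subgroup Matrix
open scoped commutatorElement MatrixGroups

variable {F : Type} [Field F]

abbrev V3 (F : Type) := Fin 3 → F

theorem ex_dot {v : V3 F} (h : v ≠ 0) : ∃ u : V3 F, v ⬝ᵥ u = 1 := by
  obtain ⟨i, hi⟩ := Function.ne_iff.1 h
  exact ⟨Pi.single i (v i)⁻¹, by simp [mul_inv_cancel₀ hi]⟩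

theorem prop_of_cross {v w : V3 F} (h : v ≠ 0) (e : v ⨯₃ w = 0) : ∃ c : F, w = c • v := by
  obtain ⟨u, hu⟩ := ex_dot h
  have := cross_cross_eq_smul_sub_smul' u v w
  rw [e, map_zero, hu, one_smul] at this
  exact ⟨_, (sub_eq_zero.1 this.symm).symm⟩

theorem cross_of_dot {a v w : V3 F} (h1 : a ⬝ᵥ v = 0) (h2 : a ⬝ᵥ w = 0) : (v ⨯₃ w) ⨯₃ a = 0 := by
  rw [cross_cross_eq_smul_sub_smul, dotProduct_comm v, dotProduct_comm w, h1, h2]; simp

theorem cross_or {a b v w : V3 F} (h1 : a ⬝ᵥ v = 0) (h2 : a ⬝ᵥ w = 0) (h3 : b ⬝ᵥ v = 0) (h4 : b ⬝ᵥ w = 0) :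
    v ⨯₃ w = 0 ∨ a ⨯₃ b = 0 := by
  refine or_iff_not_imp_left.2 fun h => ?_
  obtain ⟨c, rfl⟩ := prop_of_cross h (cross_of_dot h1 h2)
  obtain ⟨d, rfl⟩ := prop_of_cross h (cross_of_dot h3 h4)
  simp

/-- the underlying matrix -/
def mt (g : SL(3, F)) : Matrix (Fin 3) (Fin 3) F := g.1

theorem mt_mul (g h : SL(3, F)) : mt (g * h) = mt g * mt h := rfl

@[simp] theorem mt_one : mt (1 : SL(3, F)) = 1 := rfl

theorem mt_det (g : SL(3, F)) : (mt g).det = 1 := g.2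

theorem mt_ext {g h : SL(3, F)} (e : mt g = mt h) : g = h := Subtype.ext e

theorem mt_inj {g h : SL(3, F)} : mt g = mt h ↔ g = h := ⟨mt_ext, fun e => e ▸ rfl⟩

theorem mt_inv_mul (g : SL(3, F)) : mt g⁻¹ * mt g = 1 := by rw [← mt_mul, inv_mul_cancel, mt_one]

theorem mt_mul_inv (g : SL(3, F)) : mt g * mt g⁻¹ = 1 := by rw [← mt_mul, mul_inv_cancel, mt_one]

theorem ex_mt {M : Matrix (Fin 3) (Fin 3) F} (h : M.det = 1) : ∃ g : SL(3, F), mt g = M := ⟨⟨M, h⟩, rfl⟩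

/-- `g` is the transvection `1 + v φᵀ` -/
def IsT (g : SL(3, F)) (v φ : V3 F) : Prop := φ ⬝ᵥ v = 0 ∧ mt g = 1 + vecMulVec v φ

theorem ex_T {v φ : V3 F} (h : φ ⬝ᵥ v = 0) : ∃ g : SL(3, F), IsT g v φ := by
  obtain ⟨g, hg⟩ := ex_mt (M := 1 + vecMulVec v φ) (by
    rw [vecMulVec_eq Unit, det_one_add_replicateCol_mul_replicateRow, h, add_zero])
  exact ⟨g, h, hg⟩

theorem IsT.mulVec {g : SL(3, F)} {v φ : V3 F} (h : IsT g v φ) (x : V3 F) : mt g *ᵥ x = x + (φ ⬝ᵥ x) • v := by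
  rw [h.2, add_mulVec, one_mulVec, vecMulVec_mulVec]; simp

theorem IsT.eq {g g' : SL(3, F)} {v φ : V3 F} (h : IsT g v φ) (h' : IsT g' v φ) : g = g' :=
  mt_ext (h.2.trans h'.2.symm)

theorem IsT.one_iff {g : SL(3, F)} {v φ : V3 F} (h : IsT g v φ) : g = 1 ↔ v = 0 ∨ φ = 0 := by
  rw [← mt_inj, h.2, ← vecMulVec_eq_zero]; simp

theorem IsT.mul {g g' : SL(3, F)} {v φ ψ : V3 F} (h : IsT g v φ) (h' : IsT g' v ψ) : IsT (g * g') v (φ + ψ) := by
  refine ⟨by rw [add_dotProduct, h.1, h'.1, add_zero], ?_⟩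
  rw [mt_mul, h.2, h'.2, add_mul, mul_add, mul_add, vecMulVec_mul_vecMulVec, h.1, vecMulVec_add]
  simp only [one_mul, mul_one, zero_smul, vecMulVec_zero, add_zero]
  abel

theorem IsT.smul {g : SL(3, F)} {v φ : V3 F} {c : F} (h : IsT g (c • v) φ) (hc : c ≠ 0) : IsT g v (c • φ) :=
  ⟨by have := h.1; simpa [hc] using this, by rw [h.2, smul_vecMulVec, vecMulVec_smul]⟩

theorem IsT.smul' {g : SL(3, F)} {v φ : V3 F} {c : F} (h : IsT g v (c • φ)) : IsT g (c • v) φ :=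
  ⟨by have := h.1; simpa using this, by rw [h.2, smul_vecMulVec, vecMulVec_smul]⟩

theorem IsT.conj {t : SL(3, F)} {v φ : V3 F} (h : IsT t v φ) (g : SL(3, F)) :
    IsT (g * t * g⁻¹) (mt g *ᵥ v) (φ ᵥ* mt g⁻¹) := by
  have e := mt_inv_mul g
  have e' := mt_mul_inv g
  refine ⟨by rw [dotProduct_mulVec, vecMul_vecMul, e, vecMul_one, h.1], ?_⟩
  rw [mt_mul, mt_mul, h.2, mul_add, add_mul, mul_one, e', mul_vecMulVec,
    vecMulVec_mul]

theorem IsT.cross {g : SL(3, F)} {v φ w ψ : V3 F} (h : IsT g v φ) (h' : IsT g w ψ) (h1 : g ≠ 1) : w ⨯₃ v = 0 := by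
  obtain ⟨u, hu⟩ := ex_dot (show φ ≠ 0 from fun e => h1 (h.one_iff.2 (Or.inr e)))
  have := add_left_cancel ((h.mulVec u).symm.trans (h'.mulVec u))
  rw [hu, one_smul] at this
  simp [this]

theorem IsT.comm {g g' : SL(3, F)} {v φ w ψ : V3 F} (h : IsT g v φ) (h' : IsT g' w ψ) (h1 : g ≠ 1) (h2 : g' ≠ 1)
    (c : Commute g g') : φ ⬝ᵥ w = 0 := by
  rw [Ne, h.one_iff, not_or] at h1
  rw [Ne, h'.one_iff, not_or] at h2
  have k : ∀ x, ((ψ ⬝ᵥ x) * (φ ⬝ᵥ w)) • v = ((φ ⬝ᵥ x) * (ψ ⬝ᵥ v)) • w := fun x => by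
    have := congrArg (fun t : SL(3, F) => mt t *ᵥ x) c.eq
    simp only [mt_mul, ← mulVec_mulVec, h.mulVec, h'.mulVec, dotProduct_add, dotProduct_smul,
      smul_eq_mul, add_smul] at this
    linear_combination (exp := 1) this
  by_contra e
  have k1 := k w
  rw [h'.1, zero_mul, zero_smul, eq_comm, smul_eq_zero, mul_eq_zero] at k1
  have k2 : ψ ⬝ᵥ v = 0 := by tauto
  obtain ⟨u, hu⟩ := ex_dot h2.2
  have k3 := k u
  rw [k2, hu, mul_zero, zero_smul, one_mul, smul_eq_zero] at k3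
  tauto

/-- inverse transpose -/
def itr : SL(3, F) →* SL(3, F) where
  toFun g := ⟨(mt g⁻¹)ᵀ, by rw [det_transpose]; exact mt_det _⟩
  map_one' := mt_ext (show (mt 1⁻¹)ᵀ = 1 by simp)
  map_mul' g h := mt_ext (show (mt (g * h)⁻¹)ᵀ = (mt g⁻¹)ᵀ * (mt h⁻¹)ᵀ by
    simp only [_root_.mul_inv_rev, mt_mul, transpose_mul])

theorem coe_itr (g : SL(3, F)) : mt (itr g) = (mt g⁻¹)ᵀ := rfl

@[simp] theorem itr_itr (g : SL(3, F)) : itr (itr g) = g :=
  mt_ext (by rw [coe_itr, ← map_inv, coe_itr, inv_inv, transpose_transpose])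

theorem frame {v φ : V3 F} (h : φ ⬝ᵥ v = 0) (h1 : v ≠ 0) (h2 : φ ≠ 0) :
    ∃ g : SL(3, F), mt g *ᵥ Pi.single 0 1 = v ∧ φ ᵥ* mt g = Pi.single 1 1 := by
  obtain ⟨w, hw⟩ := ex_dot h2
  obtain ⟨y, hy⟩ := ex_dot h1
  obtain ⟨g, hg⟩ := ex_mt (M := (Matrix.of ![v, w, y ⨯₃ φ])ᵀ) (by
    rw [det_transpose]
    refine (triple_product_eq_det v w (y ⨯₃ φ)).symm.trans ?_
    rw [cross_cross_eq_smul_sub_smul', dotProduct_sub, dotProduct_smul, dotProduct_smul, hy, dotProduct_comm v φ, h,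
      dotProduct_comm w φ, hw]
    simp)
  refine ⟨g, hg ▸ ?_, hg ▸ ?_⟩
  · ext i; simp [mulVec, dotProduct, Fin.sum_univ_three]
  · rw [vecMul_transpose]
    ext i
    fin_cases i
    · simpa [dotProduct_comm] using h
    · simpa [dotProduct_comm] using hw
    · simpa [dotProduct_comm] using dot_cross_self y φ

theorem ex_perp (v : V3 F) : ∃ φ : V3 F, φ ≠ 0 ∧ φ ⬝ᵥ v = 0 := by
  by_cases h : v ⨯₃ Pi.single 0 1 = 0
  · refine ⟨Pi.single 1 1, by simp, ?_⟩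
    have := congrFun h 2
    simpa [cross_apply] using this
  · exact ⟨_, h, by rw [dotProduct_comm, dot_self_cross]⟩

theorem card_perp [Fintype F] {v : V3 F} (h : v ≠ 0) : Nat.card {φ : V3 F // φ ⬝ᵥ v = 0} = Fintype.card F ^ 2 := by
  let f : V3 F →+ F := { toFun := fun φ => φ ⬝ᵥ v, map_zero' := by simp, map_add' := fun a b => add_dotProduct _ _ _ }
  obtain ⟨u, hu⟩ := ex_dot h
  have hf : f.range = ⊤ := AddMonoidHom.range_eq_top.2 fun c => ⟨c • u, by simp [f, dotProduct_comm u, hu]⟩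
  have := f.ker.card_mul_index
  rw [AddSubgroup.index_ker, hf, AddSubgroup.card_top, Nat.card_fun, Nat.card_eq_fintype_card (α := F),
    Nat.card_eq_fintype_card (α := Fin 3), Fintype.card_fin, pow_succ] at this
  exact Nat.eq_of_mul_eq_mul_right Fintype.card_pos this

theorem gen_stab0 (H : Subgroup SL(3, F)) (h : ∀ t v φ, IsT t v φ → φ 0 = 0 → t ∈ H) (g : SL(3, F))
    (hg : mt g *ᵥ Pi.single 0 1 = Pi.single 0 1) : g ∈ H := by
  have k : ∀ g : SL(3, F), mt g *ᵥ Pi.single 0 1 = Pi.single 0 1 → mt g 2 1 ≠ 0 → g ∈ H := fun g hg hc => by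
    have a0 : mt g 0 0 = 1 := by simpa using congrFun hg 0
    have a1 : mt g 1 0 = 0 := by simpa using congrFun hg 1
    have a2 : mt g 2 0 = 0 := by simpa using congrFun hg 2
    have d := mt_det g
    rw [det_fin_three, a0, a1, a2] at d
    obtain ⟨t1, h1⟩ := ex_T (v := Pi.single 1 1) (φ := Pi.single 2 ((mt g 1 1 - 1) / mt g 2 1)) (by simp)
    obtain ⟨t2, h2⟩ := ex_T (v := Pi.single 2 1) (φ := Pi.single 1 (mt g 2 1)) (by simp)
    obtain ⟨t3, h3⟩ := ex_T (v := Pi.single 1 1) (φ := Pi.single 2 ((mt g 2 2 - 1) / mt g 2 1)) (by simp)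
    obtain ⟨t4, h4⟩ := ex_T (v := Pi.single 0 1) (φ := ![0, mt g 0 1, mt g 0 2]) (by simp)
    have : g = t1 * t2 * t3 * t4 := mt_ext (by
      simp only [mt_mul, h1.2, h2.2, h3.2, h4.2]
      ext i j
      fin_cases i <;> fin_cases j <;>
        simp [Matrix.mul_apply, Fin.sum_univ_three, vecMulVec_apply, one_apply, a0, a1, a2]
      all_goals field_simp
      all_goals first | ring1 | linear_combination d | linear_combination -d)
    rw [this]
    exact H.mul_mem (H.mul_mem (H.mul_mem (h _ _ _ h1 (by simp)) (h _ _ _ h2 (by simp))) (h _ _ _ h3 (by simp)))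
      (h _ _ _ h4 (by simp))
  by_cases hc : mt g 2 1 = 0
  swap
  · exact k g hg hc
  obtain ⟨t, ht⟩ := ex_T (F := F) (v := Pi.single 2 1) (φ := Pi.single 1 1) (by simp)
  refine (H.mul_mem_cancel_left (h _ _ _ ht (by simp))).1 (k (t * g) ?_ ?_)
  · rw [mt_mul, ← mulVec_mulVec, hg, ht.mulVec]; simp
  · have a1 : mt g 1 0 = 0 := by simpa using congrFun hg 1
    have a2 : mt g 2 0 = 0 := by simpa using congrFun hg 2
    have d := mt_det g
    rw [det_fin_three, hc, a1, a2] at d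
    intro e
    simp [mt_mul, ht.2, Matrix.mul_apply, Fin.sum_univ_three, vecMulVec_apply, one_apply, hc] at e
    simp [e] at d

theorem gen_stab (H : Subgroup SL(3, F)) {x : V3 F} (hx : x ≠ 0) (h : ∀ t v φ, IsT t v φ → φ ⬝ᵥ x = 0 → t ∈ H)
    (g : SL(3, F)) (hg : mt g *ᵥ x = x) : g ∈ H := by
  obtain ⟨φ, p1, p2⟩ := ex_perp x
  obtain ⟨s, rfl, -⟩ := frame p2 hx p1
  have e := mt_inv_mul s
  have := gen_stab0 (cj s⁻¹ H) (fun t v φ ht h0 => by
    rw [mem_cj, inv_inv]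
    refine h _ _ _ (ht.conj s) ?_
    rw [dotProduct_mulVec, vecMul_vecMul, e, vecMul_one]; simpa using h0) (s⁻¹ * g * s) (by
    rw [mt_mul, mt_mul, ← mulVec_mulVec, ← mulVec_mulVec, hg, mulVec_mulVec, e,
      one_mulVec])
  simpa [mem_cj, mul_assoc] using this

variable [CharP F 2]

theorem IsT.sq {g : SL(3, F)} {v φ : V3 F} (h : IsT g v φ) : g * g = 1 :=
  (h.mul h).one_iff.2 (Or.inr (by ext i; simp [CharTwo.add_self_eq_zero]))

theorem IsT.itr {g : SL(3, F)} {v φ : V3 F} (h : IsT g v φ) : IsT (itr g) φ v :=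
  ⟨by rw [dotProduct_comm, h.1], by rw [coe_itr, inv_eq_of_sq h.sq, h.2, transpose_add, transpose_one, transpose_vecMulVec]⟩

theorem ex_T_of_sq {g : SL(3, F)} (h : g * g = 1) : ∃ v φ, IsT g v φ := by
  have h1 : mt g * mt g = 1 := by rw [← mt_mul, h]; rfl
  have h2 : (mt g - 1) * (mt g - 1) = 0 := by
    rw [sub_mul, mul_sub, mul_sub, h1]
    ext i j
    simp [CharTwo.sub_eq_add, CharTwo.add_self_eq_zero, add_comm]
  have h3 := Matrix.rank_add_rank_le_card_of_mul_eq_zero h2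
  rw [Fintype.card_fin] at h3
  obtain ⟨v, hv⟩ := (finrank_le_one_iff (K := F) (V := LinearMap.range (mt g - 1).mulVecLin)).1
    (by change (mt g - 1).rank ≤ 1; omega)
  choose c hc using fun j : Fin 3 => hv ⟨_, Pi.single j 1, rfl⟩
  have e : mt g = 1 + vecMulVec v.1 c := by
    ext i j
    have := congrFun (congrArg Subtype.val (hc j)) i
    simp at this
    simp [vecMulVec_apply, mul_comm, this, one_apply, Pi.single_apply]
  refine ⟨v, c, ?_, e⟩
  have := mt_det g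
  rwa [e, vecMulVec_eq Unit, det_one_add_replicateCol_mul_replicateRow, add_eq_left] at this

end CF.H3
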