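/-
Elation groups of `L₃(q)`, `q` even.
-/
import Cfsg.Agent.H3.P
set_option autoImplicit false
set_option linter.unusedSectionVars false

namespace CF.H3
open Subgroup Matrix
open scoped commutatorElement MatrixGroups

variable {F : Type} [Field F] [CharP F 2] {G : Type*} [Group G]

/-- the kernel of `ρ` consists of the scalars -/
def Md (ρ : SL(3, F) →* G) : Prop := ∀ g, ρ g = 1 ↔ ∃ c : F, mt g = c • 1

/-- transvections with centre `v` -/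
def T1 (v : V3 F) : Subgroup SL(3, F) where
  carrier := {g | ∃ φ, IsT g v φ}
  one_mem' := ⟨0, by simp, by simp⟩
  mul_mem' := fun ⟨_, h⟩ ⟨_, h'⟩ => ⟨_, h.mul h'⟩
  inv_mem' := fun ⟨φ, h⟩ => ⟨φ, by rwa [inv_eq_of_sq h.sq]⟩

/-- elations with centre `v` -/
def AA (ρ : SL(3, F) →* G) (v : V3 F) : Subgroup G := (T1 v).map ρ

/-- the dual representation -/
def du (ρ : SL(3, F) →* G) : SL(3, F) →* G := ρ.comp itr

/-- elation groups with a centre -/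
def Ty (ρ : SL(3, F) →* G) (A : Subgroup G) : Prop := ∃ v, v ≠ 0 ∧ A = AA ρ v

variable {ρ : SL(3, F) →* G} {g g' : SL(3, F)} {v w φ ψ : V3 F} {A B : Subgroup G}

theorem du_apply (g : SL(3, F)) : du ρ g = ρ (itr g) := rfl

@[simp] theorem du_du : du (du ρ) = ρ := MonoidHom.ext fun g => by simp [du_apply]

@[simp] theorem range_du : (du ρ).range = ρ.range := by
  ext x
  exact ⟨fun ⟨g, h⟩ => ⟨_, h⟩, fun ⟨g, h⟩ => ⟨itr g, by rw [du_apply, itr_itr, h]⟩⟩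

theorem mem_AA {x : G} : x ∈ AA ρ v ↔ ∃ g φ, IsT g v φ ∧ ρ g = x :=
  ⟨fun ⟨g, ⟨φ, h⟩, e⟩ => ⟨g, φ, h, e⟩, fun ⟨g, φ, h, e⟩ => ⟨g, ⟨φ, h⟩, e⟩⟩

theorem mem_AA' {x : G} : x ∈ AA (du ρ) φ ↔ ∃ g v, IsT g v φ ∧ ρ g = x :=
  mem_AA.trans ⟨fun ⟨g, v, h, e⟩ => ⟨_, v, h.itr, e⟩, fun ⟨g, v, h, e⟩ => ⟨_, v, h.itr, by rw [du_apply, itr_itr, e]⟩⟩

theorem mem_of_cross (h : IsT g v φ) (hw : w ≠ 0) (e : w ⨯₃ v = 0) : ρ g ∈ AA ρ w := by
  obtain ⟨c, rfl⟩ := prop_of_cross hw e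
  by_cases hc : c = 0
  · rw [h.one_iff.2 (Or.inl (by simp [hc])), map_one]; exact one_mem _
  exact mem_AA.2 ⟨g, _, h.smul hc, rfl⟩

theorem mem_of_cross' (h : IsT g v φ) (hw : ψ ≠ 0) (e : ψ ⨯₃ φ = 0) : ρ g ∈ AA (du ρ) ψ := by
  simpa [du_apply] using mem_of_cross (ρ := du ρ) h.itr hw e

theorem AA_eq (hv : v ≠ 0) (hw : w ≠ 0) (e : v ⨯₃ w = 0) : AA ρ v = AA ρ w := by
  ext x
  simp only [mem_AA]
  constructor <;> rintro ⟨g, φ, h, rfl⟩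
  · exact mem_AA.1 (mem_of_cross h hw (by rw [← cross_anticomm, e, neg_zero]))
  · exact mem_AA.1 (mem_of_cross h hv e)

theorem cj_AA (g : SL(3, F)) (v : V3 F) : cj (ρ g) (AA ρ v) = AA ρ (mt g *ᵥ v) := by
  ext x
  rw [mem_cj, mem_AA, mem_AA]
  constructor <;> rintro ⟨t, φ, h, e⟩
  · exact ⟨_, _, h.conj g, by simp [e, mul_assoc]⟩
  · have := h.conj g⁻¹
    rw [mulVec_mulVec, mt_inv_mul, one_mulVec] at this
    exact ⟨_, _, this, by simp [e]⟩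

theorem mulVec_ne (g : SL(3, F)) (hv : v ≠ 0) : mt g *ᵥ v ≠ 0 := fun e => hv (by
  rw [← one_mulVec v, ← mt_inv_mul g, ← mulVec_mulVec, e, mulVec_zero])

theorem Ty.cj (h : Ty ρ A) {n : G} (hn : n ∈ ρ.range) : Ty ρ (cj n A) := by
  obtain ⟨v, hv, rfl⟩ := h
  obtain ⟨g, rfl⟩ := hn
  exact ⟨_, mulVec_ne g hv, cj_AA g v⟩

namespace Md
variable (M : Md ρ)
include M

theorem du : Md (du ρ) := fun g => by
  rw [du_apply, M, ← M g, ← inv_eq_one, ← map_inv, M, coe_itr]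
  exact exists_congr fun c => ⟨fun h => by simpa using congrArg transpose h, fun h => by simp [h]⟩

theorem scal (e : ρ g = ρ g') : ∃ c : F, c ^ 3 = 1 ∧ mt g' = c • mt g := by
  obtain ⟨c, hc⟩ := (M (g' * g⁻¹)).1 (by simp [e])
  refine ⟨c, by simpa [hc] using mt_det (g' * g⁻¹), ?_⟩
  rw [← inv_mul_cancel_right g' g, mt_mul, hc]; simp

theorem of_scal {c : F} (e : mt g' = c • mt g) : ρ g' = ρ g := by
  rw [← mul_inv_eq_one, ← map_inv, ← map_mul, M]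
  exact ⟨c, by rw [mt_mul, e, smul_mul_assoc, mt_mul_inv]⟩

theorem inj (h : g * g = 1) (h' : g' * g' = 1) (e : ρ g = ρ g') : g = g' := by
  obtain ⟨c, -, hc⟩ := M.scal e
  have h1 := congrArg mt h'
  rw [mt_mul, hc, smul_mul_assoc, mul_smul_comm, ← mt_mul, h, smul_smul, mt_one] at h1
  have h2 : c * c = 1 := by simpa using congrFun (congrFun h1 0) 0
  have : c = 1 := by
    rcases mul_self_eq_one_iff.1 h2 with e | e
    · exact e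
    · rw [e, CharTwo.neg_eq]
  exact mt_ext (by rw [hc, this, one_smul])

theorem lift {x : G} (hx : x ∈ ρ.range) (h : x * x = 1) : ∃ g v φ, IsT g v φ ∧ ρ g = x := by
  obtain ⟨g, rfl⟩ := hx
  obtain ⟨c, c3, hc⟩ := M.scal (g := 1) (g' := g * g) (by rw [map_mul, h, map_one])
  obtain ⟨v, φ, h1⟩ := ex_T_of_sq (g := g * g * g) (mt_ext (by
    rw [show g * g * g * (g * g * g) = g * g * (g * g) * (g * g) by group, mt_mul, mt_mul, hc]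
    simp [smul_smul, ← pow_three, c3]))
  exact ⟨_, v, φ, h1, by rw [map_mul, map_mul, h, one_mul]⟩

theorem comm (h : IsT g v φ) (h' : IsT g' w ψ) (c : Commute (ρ g) (ρ g')) : Commute g g' := by
  have := M.inj (h'.conj g).sq h'.sq (by simp [c.eq])
  exact mul_inv_eq_iff_eq_mul.1 this

theorem dot (h : IsT g v φ) (h' : IsT g' w ψ) (h1 : ρ g ≠ 1) (h2 : ρ g' ≠ 1) (c : Commute (ρ g) (ρ g')) :
    φ ⬝ᵥ w = 0 :=
  h.comm h' (by rintro rfl; simp at h1) (by rintro rfl; simp at h2) (M.comm h h' c)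

theorem cross (h : IsT g v φ) (h1 : ρ g ≠ 1) (e : ρ g ∈ AA ρ w) : w ⨯₃ v = 0 := by
  obtain ⟨t, ψ, h2, h3⟩ := mem_AA.1 e
  obtain rfl := M.inj h2.sq h.sq h3
  exact h.cross h2 (by rintro rfl; simp at h1)

theorem cross' (h : IsT g v φ) (h1 : ρ g ≠ 1) (e : ρ g ∈ AA (H3.du ρ) ψ) : ψ ⨯₃ φ = 0 :=
  M.du.cross h.itr (by simpa [du_apply] using h1) (by simpa [du_apply] using e)

theorem ne_one (h : IsT g v φ) (h1 : v ≠ 0) (h2 : φ ≠ 0) : ρ g ≠ 1 := fun e => by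
  have := h.one_iff.1 (M.inj h.sq (mul_one 1) (e.trans (map_one ρ).symm))
  tauto

theorem cross_of_mem {z : G} (z1 : z ≠ 1) (h1 : z ∈ AA ρ v) (h2 : z ∈ AA ρ w) : w ⨯₃ v = 0 := by
  obtain ⟨t, ψ, h3, rfl⟩ := mem_AA.1 h1
  exact M.cross h3 z1 h2

theorem cross_of_eq (hv : v ≠ 0) (e : AA ρ v = AA ρ w) : w ⨯₃ v = 0 := by
  obtain ⟨φ, h1, h2⟩ := ex_perp v
  obtain ⟨g, hg⟩ := ex_T h2
  exact M.cross hg (M.ne_one hg hv h1) (e ▸ mem_AA.2 ⟨g, φ, hg, rfl⟩)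

theorem AA_ne (hv : v ≠ 0) (hφ : φ ≠ 0) : AA ρ v ≠ AA (H3.du ρ) φ := fun e => by
  have k : ∀ u : V3 F, (φ ⬝ᵥ u) • v = (v ⬝ᵥ φ) • u := fun u => by
    rw [← sub_eq_zero, ← cross_cross_eq_smul_sub_smul']
    by_cases h : v ⨯₃ u = 0
    · rw [h, map_zero]
    obtain ⟨g, hg⟩ := ex_T (v := v) (φ := v ⨯₃ u) (by rw [dotProduct_comm, dot_self_cross])
    exact M.cross' hg (M.ne_one hg hv h) (e ▸ mem_AA.2 ⟨g, _, hg, rfl⟩)
  obtain ⟨u, hu⟩ := ex_dot hφ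
  have k0 := k u
  have k1 := congrFun (k (Pi.single 0 1)) 0
  have k2 := congrFun (k (Pi.single 0 1)) 1
  have k3 := congrFun (k (Pi.single 1 1)) 1
  have c : v ⬝ᵥ φ ≠ 0 := fun e => hv (by simpa [hu, e] using k0)
  simp at k1 k2 k3
  rcases k2 with e | e
  · exact c (by rw [← k1, e, zero_mul])
  · exact c (by rw [← k3, e, mul_zero])

theorem I_iff (hv : v ≠ 0) (hφ : φ ≠ 0) : I (AA ρ v) (AA (H3.du ρ) φ) ↔ φ ⬝ᵥ v = 0 := by
  constructor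
  · intro h
    obtain ⟨z, z1, z2, z3⟩ := h.ex
    obtain ⟨t, ψ, h3, rfl⟩ := mem_AA.1 z2
    obtain ⟨c, rfl⟩ := prop_of_cross hφ (M.cross' h3 z1 z3)
    have := h3.1
    rw [smul_dotProduct, smul_eq_zero] at this
    exact this.resolve_left fun e => z1 (by rw [h3.one_iff.2 (Or.inr (by simp [e])), map_one])
  · intro h
    obtain ⟨g, hg⟩ := ex_T h
    exact I_of_mem (M.AA_ne hv hφ) (M.ne_one hg hv hφ) (mem_AA.2 ⟨g, _, hg, rfl⟩) (mem_AA'.2 ⟨g, _, hg, rfl⟩)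

theorem disj (hA : Ty ρ A) (hB : Ty ρ B) (h : A ≠ B) : A ⊓ B = ⊥ := by
  obtain ⟨v, hv, rfl⟩ := hA
  obtain ⟨w, hw, rfl⟩ := hB
  rw [Subgroup.eq_bot_iff_forall]
  intro z hz
  by_contra z1
  exact h (AA_eq hv hw (M.cross_of_mem z1 hz.2 hz.1))

theorem not_both (hA : Ty ρ A) (hB : Ty (H3.du ρ) A) : False := by
  obtain ⟨v, hv, rfl⟩ := hA
  obtain ⟨w, hw, e⟩ := hB
  exact M.AA_ne hv hw e

theorem card_param {X : Type} (f : X → V3 F) (hf : Function.Injective f) (hv : v ≠ 0) (h1 : ∀ x, f x ⬝ᵥ v = 0)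
    (h2 : ∀ z, z ∈ A ↔ ∃ g x, IsT g v (f x) ∧ ρ g = z) : Nat.card A = Nat.card X := by
  choose t ht using fun x => ex_T (h1 x)
  refine (Nat.card_congr (Equiv.ofBijective (fun x => (⟨ρ (t x), (h2 _).2 ⟨_, x, ht x, rfl⟩⟩ : A)) ⟨?_, ?_⟩)).symm
  · intro x y e
    have e1 := M.inj (ht x).sq (ht y).sq (congrArg Subtype.val e)
    have e2 := ((ht x).mul (ht y)).one_iff.1 (e1 ▸ (ht x).sq)
    refine hf (funext fun i => ?_)
    exact CharTwo.add_eq_zero.1 (congrFun (e2.resolve_left hv) i)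
  · rintro ⟨z, hz⟩
    obtain ⟨g, x, h, rfl⟩ := (h2 z).1 hz
    exact ⟨x, Subtype.ext (congrArg ρ ((ht x).eq h))⟩

variable [Fintype F] [Finite G]

theorem el (hA : Ty ρ A) : El ρ.range (Fintype.card F) A := by
  obtain ⟨v, hv, rfl⟩ := hA
  refine ⟨map_le_range _ _, fun x hx => ?_, ?_⟩
  · obtain ⟨t, ψ, h3, rfl⟩ := mem_AA.1 hx
    rw [← map_mul, h3.sq, map_one]
  · rw [← card_perp hv]
    exact M.card_param Subtype.val Subtype.val_injective hv (fun x => x.2) fun z => mem_AA.trans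
      ⟨fun ⟨g, φ, h, e⟩ => ⟨g, ⟨φ, h.1⟩, h, e⟩, fun ⟨g, φ, h, e⟩ => ⟨g, φ, h, e⟩⟩

theorem el' (hA : Ty (H3.du ρ) A) : El ρ.range (Fintype.card F) A := range_du (ρ := ρ) ▸ M.du.el hA

theorem card_inf (hv : v ≠ 0) (hφ : φ ≠ 0) (h : φ ⬝ᵥ v = 0) :
    Nat.card (AA ρ v ⊓ AA (H3.du ρ) φ : Subgroup G) = Fintype.card F := by
  rw [← Nat.card_eq_fintype_card]
  refine M.card_param (fun c : F => c • φ) (smul_left_injective F hφ) hv (fun c => by simp [h]) fun z => ⟨?_, ?_⟩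
  · rintro ⟨z2, z3⟩
    obtain ⟨t, ψ, h3, rfl⟩ := mem_AA.1 z2
    by_cases z1 : ρ t = 1
    · exact ⟨1, 0, ⟨by simp, by simp⟩, by simp [z1]⟩
    obtain ⟨c, rfl⟩ := prop_of_cross hφ (M.cross' h3 z1 z3)
    exact ⟨t, c, h3, rfl⟩
  · rintro ⟨g, c, h1, rfl⟩
    exact ⟨mem_AA.2 ⟨g, _, h1, rfl⟩, mem_AA'.2 ⟨g, _, h1.smul', rfl⟩⟩

theorem ty_or (hA : El ρ.range (Fintype.card F) A) : Ty ρ A ∨ Ty (H3.du ρ) A := by
  have k : ∀ B, El ρ.range (Fintype.card F) B → (∀ g v φ, IsT g v φ → ρ g ≠ 1 → ρ g ∈ A → ρ g ∈ B) → A = B :=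
    fun B hB h => Subgroup.eq_of_le_of_card_ge (fun x hx => by
      obtain ⟨g, v, φ, h1, rfl⟩ := M.lift (hA.1 hx) (hA.2.1 x hx)
      by_cases e : ρ g = 1
      · exact e ▸ B.one_mem
      exact h g v φ h1 e hx) (by rw [hA.2.2, hB.2.2])
  have : Nontrivial A := Finite.one_lt_card_iff_nontrivial.1 (by
    rw [hA.2.2]; exact Nat.one_lt_pow two_ne_zero Fintype.one_lt_card)
  obtain ⟨⟨x, hx⟩, x1⟩ := exists_ne (1 : A)
  obtain ⟨g, v, φ, h1, rfl⟩ := M.lift (hA.1 hx) (hA.2.1 x hx)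
  have g1 : ρ g ≠ 1 := fun e => x1 (Subtype.ext e)
  have hv : v ≠ 0 := fun e => g1 (by rw [h1.one_iff.2 (Or.inl e), map_one])
  by_cases h : ∃ g' w ψ, IsT g' w ψ ∧ ρ g' ≠ 1 ∧ ρ g' ∈ A ∧ v ⨯₃ w ≠ 0
  · obtain ⟨g', w, ψ, h2, h3, h4, h5⟩ := h
    exact Or.inr ⟨_, h5, k _ (M.el' ⟨_, h5, rfl⟩) fun t u χ t1 t2 t3 => mem_of_cross' t1 h5
      (cross_of_dot (M.dot t1 h1 t2 g1 (hA.comm t3 hx)) (M.dot t1 h2 t2 h3 (hA.comm t3 h4)))⟩
  · push Not at h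
    exact Or.inl ⟨_, hv, k _ (M.el ⟨_, hv, rfl⟩) fun t u χ t1 t2 t3 => mem_of_cross t1 hv (h t u χ t1 t2 t3)⟩

theorem ty_of_I (hA : Ty ρ A) (hB : El ρ.range (Fintype.card F) B) (h : I A B) : Ty (H3.du ρ) B :=
  (M.ty_or hB).resolve_left fun e => h.2 (M.disj hA e h.1)

theorem mem_LL (hv : v ≠ 0) {x : G} : x ∈ LL ρ.range (Fintype.card F) (AA ρ v) ↔ ∃ s, mt s *ᵥ v = v ∧ ρ s = x := by
  constructor
  · intro hx
    induction hx using closure_induction with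
    | mem x hx =>
      obtain ⟨B, b1, b2, b3⟩ := hx
      obtain ⟨φ, hφ, rfl⟩ := M.ty_of_I ⟨v, hv, rfl⟩ b1 b2
      obtain ⟨g, u, h, rfl⟩ := mem_AA'.1 b3
      exact ⟨g, by rw [h.mulVec, (M.I_iff hv hφ).1 b2]; simp, rfl⟩
    | one => exact ⟨1, by simp, map_one ρ⟩
    | mul x y _ _ h1 h2 =>
      obtain ⟨s, s1, rfl⟩ := h1
      obtain ⟨t, t1, rfl⟩ := h2
      exact ⟨s * t, by rw [mt_mul, ← mulVec_mulVec, t1, s1], map_mul _ _ _⟩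
    | inv x _ h =>
      obtain ⟨s, s1, rfl⟩ := h
      exact ⟨s⁻¹, by conv_lhs => rw [← s1, mulVec_mulVec, mt_inv_mul, one_mulVec], map_inv _ _⟩
  · rintro ⟨s, s1, rfl⟩
    refine gen_stab ((LL ρ.range (Fintype.card F) (AA ρ v)).comap ρ) hv (fun t u φ h1 h2 => ?_) s s1
    by_cases hφ : φ = 0
    · exact h1.one_iff.2 (Or.inr hφ) ▸ one_mem _
    exact subset_closure ⟨_, M.el' ⟨φ, hφ, rfl⟩, (M.I_iff hv hφ).2 h2, mem_AA'.2 ⟨t, u, h1, rfl⟩⟩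

end Md
end CF.H3
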