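/-
`L₃(q)`, `q` even, has the abstract properties.
-/
import Cfsg.Agent.H3.Q
set_option autoImplicit false
set_option linter.unusedSectionVars false

namespace CF.H3
open Subgroup Matrix
open scoped commutatorElement MatrixGroups

variable {F : Type} [Field F] [CharP F 2] {G : Type*} [Group G] [Finite G] [Fintype F]

theorem syl_gen {N X U : Subgroup G} (ho : Odd (X.relIndex N)) (hU : U ≤ N) (h2 : IsPGroup 2 U) :
    ∃ n ∈ N, cj n U ≤ X := by
  obtain ⟨P0⟩ : Nonempty (Sylow 2 (X.subgroupOf N)) := inferInstance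
  let P := (P0.2.map (X.subgroupOf N).subtype).toSylow (by
    rw [index_map_subtype]
    exact Nat.Prime.not_dvd_mul Nat.prime_two P0.not_dvd_index ho.not_two_dvd_nat)
  obtain ⟨Q, hQ⟩ := (h2.of_equiv (subgroupOfEquivOfLe hU).symm).exists_le_sylow
  obtain ⟨n, hn⟩ := MulAction.exists_smul_eq N Q P
  refine ⟨n, n.2, fun x hx => ?_⟩
  rw [mem_cj] at hx
  have h1 : (⟨_, hU hx⟩ : N) ∈ (Q : Subgroup N) := hQ hx
  have h3 := smul_mem_pointwise_smul _ (MulAut.conj n) _ h1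
  rw [← Sylow.coe_subgroup_smul, hn] at h3
  have h4 := map_subtype_le _ h3
  simpa [mem_subgroupOf, mul_assoc] using h4

theorem mt_pow (g : SL(3, F)) (i : ℕ) : mt (g ^ i) = mt g ^ i := by
  induction i with
  | zero => simp
  | succ i ih => rw [pow_succ, mt_mul, ih, pow_succ]

theorem ex_diag {x y z : F} (h : x * y * z = 1) : ∃ g : SL(3, F), mt g = diagonal ![x, y, z] :=
  ex_mt (by simp [Fin.prod_univ_three, h])

variable {ρ : SL(3, F) →* G} {g g' : SL(3, F)} {v w φ ψ : V3 F} {A B : Subgroup G}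

local notation "𝓔" => El (MonoidHom.range ρ) (Fintype.card F)

namespace Md
variable (M : Md ρ)
include M

theorem norm (hv : v ≠ 0) {n : G} (hn : n ∈ AA (H3.du ρ) φ) (h : φ ⬝ᵥ v = 0) : cj n (AA ρ v) = AA ρ v := by
  obtain ⟨g, u, h1, rfl⟩ := mem_AA'.1 hn
  rw [cj_AA, h1.mulVec, h]; simp

theorem tor_aux {d : SL(3, F)} (hv : v ≠ 0) (μ : ℕ → F) (h1 : ∀ i, mt (d ^ i) *ᵥ v = μ i • v)
    (h2 : ∀ c, c ≠ 0 → ∃ i, μ i = c) (h3 : ∀ i, μ i ^ 3 = 1 → ρ d ^ i = 1) :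
    cj (ρ d) (AA ρ v) = AA ρ v ∧ (∀ g ∈ ρ.range, cj g (AA ρ v) = AA ρ v →
      ∃ k ∈ zpowers (ρ d), g * k⁻¹ ∈ LL ρ.range (Fintype.card F) (AA ρ v)) ∧
      LL ρ.range (Fintype.card F) (AA ρ v) ⊓ zpowers (ρ d) = ⊥ := by
  refine ⟨?_, ?_, ?_⟩
  · rw [cj_AA]
    refine AA_eq (mulVec_ne d hv) hv ?_
    rw [← pow_one d, h1]; simp
  · rintro _ ⟨s, rfl⟩ hs
    rw [cj_AA] at hs
    obtain ⟨c, hc⟩ := prop_of_cross hv (M.cross_of_eq (mulVec_ne s hv) hs)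
    obtain ⟨i, rfl⟩ := h2 c (by rintro rfl; exact mulVec_ne s hv (by simp [hc]))
    refine ⟨_, npow_mem_zpowers _ i, (M.mem_LL hv).2 ⟨s * (d ^ i)⁻¹, ?_, by simp⟩⟩
    have m : μ i ≠ 0 := fun e => mulVec_ne s hv (by simp [hc, e])
    refine smul_right_injective _ m ?_
    simp only
    rw [← mulVec_smul, ← h1, mulVec_mulVec, ← mt_mul, inv_mul_cancel_right, hc, h1]
  · rw [Subgroup.eq_bot_iff_forall]
    rintro x ⟨x1, x2⟩
    obtain ⟨s, s1, rfl⟩ := (M.mem_LL hv).1 x1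
    obtain ⟨i, hi⟩ := mem_powers_iff_mem_zpowers.2 x2
    simp only at hi
    obtain ⟨c, c1, c2⟩ := M.scal (hi.symm.trans (map_pow ρ d i).symm)
    have := h1 i
    rw [c2, smul_mulVec, s1] at this
    rw [← hi]
    exact h3 i (smul_left_injective F hv this ▸ c1)

theorem tor : ∃ A0 B h, Ty ρ A0 ∧ Ty (H3.du ρ) B ∧ ¬ I A0 B ∧ h ∈ ρ.range ∧
    orderOf h * Nat.gcd 3 (Fintype.card F - 1) = Fintype.card F - 1 ∧
    (∀ A, 𝓔 A → (A = A0 ∨ I A B) → cj h A = A ∧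
      (∀ g ∈ ρ.range, cj g A = A → ∃ k ∈ zpowers h, g * k⁻¹ ∈ LL ρ.range (Fintype.card F) A) ∧
      LL ρ.range (Fintype.card F) A ⊓ zpowers h = ⊥) ∧
    (∀ k ∈ zpowers h, k ≠ 1 → ∀ A, Ty ρ A → cj k A = A → A = A0 ∨ I A B) := by
  classical
  obtain ⟨a, ha⟩ := IsCyclic.exists_generator (α := Fˣ)
  have a0 : (a : F) ≠ 0 := a.ne_zero
  obtain ⟨d, hd⟩ := ex_diag (x := (a : F)) (y := a) (z := (a : F)⁻¹ ^ 2) (by field_simp)
  have hp : ∀ i, mt (d ^ i) = diagonal ![(a : F) ^ i, (a : F) ^ i, ((a : F) ^ i)⁻¹ ^ 2] := fun i => by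
    rw [mt_pow, hd, diagonal_pow]
    congr 1
    ext j; fin_cases j <;> simp [← pow_mul, mul_comm]
  have k : ∀ i, ρ d ^ i = 1 ↔ ((a : F) ^ i) ^ 3 = 1 := fun i => by
    have : (a : F) ^ i ≠ 0 := pow_ne_zero _ a0
    rw [← map_pow, M, hp]
    generalize (a : F) ^ i = x at *
    constructor
    · rintro ⟨c, hc⟩
      have e1 := congrFun (congrFun hc 0) 0
      have e2 := congrFun (congrFun hc 2) 2
      simp at e1 e2
      rw [← e1] at e2
      field_simp at e2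
      exact e2.symm
    · intro h
      refine ⟨x, ?_⟩
      rw [show x⁻¹ ^ 2 = x by field_simp; exact h.symm]
      ext j l; fin_cases j <;> fin_cases l <;> simp
  have sj : ∀ c : F, c ≠ 0 → ∃ i, (a : F) ^ i = c := fun c hc => by
    obtain ⟨i, hi⟩ := mem_powers_iff_mem_zpowers.2 (ha (Units.mk0 c hc))
    exact ⟨i, by simpa using congrArg Units.val hi⟩
  have e2 : (Pi.single 2 1 : V3 F) ≠ 0 := by simp
  refine ⟨_, _, ρ d, ⟨_, e2, rfl⟩, ⟨_, e2, rfl⟩, by rw [M.I_iff e2 e2]; simp, ⟨d, rfl⟩, ?_, ?_, ?_⟩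
  · have : orderOf (ρ d) = orderOf (a ^ 3) := orderOf_eq_orderOf_iff.2 fun i => by
      rw [k, ← pow_mul, ← pow_mul, mul_comm, Units.ext_iff]; simp
    rw [this, orderOf_pow, orderOf_eq_card_of_forall_mem_zpowers ha, Nat.card_units, Nat.card_eq_fintype_card,
      Nat.gcd_comm, Nat.div_mul_cancel (Nat.gcd_dvd_right _ _)]
  · rintro A hA (rfl | i)
    · refine M.tor_aux e2 (fun i => ((a : F) ^ i)⁻¹ ^ 2) (fun i => ?_) (fun c hc => ?_) fun i h => (k i).2 ?_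
      · rw [hp]; ext j; fin_cases j <;> simp
      · obtain ⟨s, hs⟩ := FiniteField.isSquare_of_char_two (ringChar.eq F 2) c
        obtain ⟨i, hi⟩ := sj s⁻¹ (by rintro e; simp [inv_eq_zero.1 e] at hs; exact hc hs)
        exact ⟨i, by simp [hi, hs, sq]⟩
      · rw [← pow_mul, mul_comm 2 3, pow_mul, sq_eq_one_iff, CharTwo.neg_eq, or_self, inv_pow, inv_eq_one] at h
        exact h
    · obtain ⟨v, hv, rfl⟩ : Ty ρ A := by
        simpa using M.du.ty_of_I ⟨_, e2, rfl⟩ (by simpa using hA) i.symm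
      have v2 : v 2 = 0 := by simpa using (M.I_iff hv e2).1 i
      exact M.tor_aux hv (fun i => (a : F) ^ i) (fun i => by
        rw [hp]; ext j; fin_cases j <;> simp [mulVec_diagonal, v2]) sj fun i h => (k i).2 h
  · rintro x x1 x2 _ ⟨v, hv, rfl⟩ e
    obtain ⟨i, rfl⟩ := mem_powers_iff_mem_zpowers.2 x1
    simp only at x2 e
    rw [← map_pow, cj_AA] at e
    have c := M.cross_of_eq (mulVec_ne _ hv) e
    rw [Ne, k] at x2
    rw [hp] at c
    have : (a : F) ^ i ≠ 0 := pow_ne_zero _ a0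
    generalize (a : F) ^ i = x at *
    have n : x⁻¹ ^ 2 - x ≠ 0 := fun e => x2 (by rw [sub_eq_zero] at e; field_simp at e; exact e.symm)
    by_cases v2 : v 2 = 0
    · exact Or.inr ((M.I_iff hv e2).2 (by simpa using v2))
    have c0 := congrFun c 0
    have c1 := congrFun c 1
    simp only [cross_apply, mulVec_diagonal] at c0 c1
    simp at c0 c1
    have d0 : v 0 = 0 := mul_left_cancel₀ (mul_ne_zero n v2) (by linear_combination -c1)
    have d1 : v 1 = 0 := mul_left_cancel₀ (mul_ne_zero n v2) (by linear_combination c0)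
    exact Or.inl (AA_eq hv e2 (by ext j; fin_cases j <;> simp [cross_apply, d0, d1]))

theorem tri (h : 3 ∣ Fintype.card F - 1) : ∃ A1 A2 A3 g, Ty ρ A1 ∧ Ty ρ A2 ∧ Ty ρ A3 ∧ A1 ≠ A2 ∧
    (∀ B, 𝓔 B → I A1 B → I A2 B → ¬ I A3 B) ∧ g ∈ ρ.range ∧ g ∈ LL ρ.range (Fintype.card F) A1 ∧
    g ∈ LL ρ.range (Fintype.card F) A2 ∧ ∀ A, Ty ρ A → cj g A = A → A = A1 ∨ A = A2 ∨ A = A3 := by
  classical
  haveI : Fact (Nat.Prime 3) := ⟨Nat.prime_three⟩
  obtain ⟨a, ha⟩ := exists_prime_orderOf_dvd_card' (G := Fˣ) 3 (by rwa [Nat.card_units, Nat.card_eq_fintype_card])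
  have a3 : (a : F) ^ 3 = 1 := by simpa [ha] using congrArg Units.val (pow_orderOf_eq_one a)
  have a1 : (a : F) - 1 ≠ 0 := fun e => by
    rw [Units.val_eq_one.1 (sub_eq_zero.1 e), orderOf_one] at ha; omega
  have a0 : (a : F) ≠ 0 := a.ne_zero
  generalize (a : F) = x at *
  have a2 : x ^ 2 - 1 ≠ 0 := fun e => a1 (by linear_combination a3 - x * e)
  obtain ⟨d, hd⟩ := ex_diag (x := 1) (y := x) (z := x ^ 2) (by linear_combination a3)
  obtain ⟨d', hd'⟩ := ex_diag (x := x ^ 2) (y := 1) (z := x) (by linear_combination a3)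
  have e0 : (Pi.single 0 1 : V3 F) ≠ 0 := by simp
  have e1 : (Pi.single 1 1 : V3 F) ≠ 0 := by simp
  have e2 : (Pi.single 2 1 : V3 F) ≠ 0 := by simp
  refine ⟨_, _, _, ρ d, ⟨_, e0, rfl⟩, ⟨_, e1, rfl⟩, ⟨_, e2, rfl⟩, fun e => ?_, fun B hB i1 i2 i3 => ?_, ⟨d, rfl⟩,
    (M.mem_LL e0).2 ⟨d, ?_, rfl⟩, (M.mem_LL e1).2 ⟨d', ?_, M.of_scal (c := x ^ 2) ?_⟩, ?_⟩
  · simpa [cross_apply] using congrFun (M.cross_of_eq e0 e) 2
  · obtain ⟨φ, hφ, rfl⟩ := M.ty_of_I ⟨_, e0, rfl⟩ hB i1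
    rw [M.I_iff (by simp) hφ] at i1 i2 i3
    simp at i1 i2 i3
    exact hφ (by ext j; fin_cases j <;> simp [*])
  · rw [hd]; ext j; fin_cases j <;> simp
  · rw [hd']; ext j; fin_cases j <;> simp
  · rw [hd, hd']; ext j l; fin_cases j <;> fin_cases l <;> simp
    · linear_combination -a3
    · linear_combination -x * a3
  · rintro _ ⟨v, hv, rfl⟩ e
    rw [cj_AA] at e
    have c := M.cross_of_eq (mulVec_ne _ hv) e
    rw [hd] at c
    have c0 := congrFun c 0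
    have c1 := congrFun c 1
    have c2 := congrFun c 2
    simp only [cross_apply, mulVec_diagonal] at c0 c1 c2
    simp at c0 c1 c2
    have d0 : v 1 * v 2 = 0 := mul_left_cancel₀ (mul_ne_zero a0 a1) (by linear_combination c0)
    have d1 : v 0 * v 2 = 0 := mul_left_cancel₀ a2 (by linear_combination -c1)
    have d2 : v 0 * v 1 = 0 := mul_left_cancel₀ a1 (by linear_combination c2)
    rw [mul_eq_zero] at d0 d1 d2
    have : (v 1 = 0 ∧ v 2 = 0) ∨ (v 0 = 0 ∧ v 2 = 0) ∨ (v 0 = 0 ∧ v 1 = 0) := by tauto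
    refine this.imp ?_ (Or.imp ?_ ?_) <;>
      exact fun h => AA_eq hv (by simp) (by ext j; fin_cases j <;> simp [cross_apply, h.1, h.2])

open _root_.Classical in
theorem ex_ty (τ : Bool) : ∃ ρ' : SL(3, F) →* G, Md ρ' ∧ ρ'.range = ρ.range ∧
    ∀ A, 𝓔 A → (decide (Ty ρ A) = τ ↔ Ty ρ' A) := by
  cases τ
  · exact ⟨_, M.du, range_du, fun A hA => by
      rw [decide_eq_false_iff_not]
      exact ⟨(M.ty_or hA).resolve_left, fun h h' => M.not_both h' h⟩⟩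
  · exact ⟨ρ, M, rfl, fun A _ => by simp⟩

theorem ex_ty' (hA : 𝓔 A) : ∃ ρ' : SL(3, F) →* G, Md ρ' ∧ ρ'.range = ρ.range ∧ Ty ρ' A :=
  (M.ty_or hA).elim (fun h => ⟨ρ, M, rfl, h⟩) fun h => ⟨_, M.du, range_du, h⟩

open _root_.Classical in
theorem pl : PL ρ.range (Fintype.card F) fun A => decide (Ty ρ A) where
  two_le := Fintype.one_lt_card
  inv x hx x1 x2 τ := by
    obtain ⟨ρ', M', e, h⟩ := M.ex_ty τ
    obtain ⟨g, v, φ, h1, rfl⟩ := M'.lift (e ▸ hx) x2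
    have hv : v ≠ 0 := fun e => x1 (by rw [h1.one_iff.2 (Or.inl e), map_one])
    have := e ▸ M'.el ⟨v, hv, rfl⟩
    exact ⟨_, this, (h _ this).2 ⟨v, hv, rfl⟩, mem_AA.2 ⟨g, φ, h1, rfl⟩⟩
  disj A B hA hB t ne := by
    obtain ⟨ρ', M', e, h⟩ := M.ex_ty (decide (Ty ρ A))
    exact M'.disj ((h A hA).1 rfl) ((h B hB).1 t.symm) ne
  card_inf A B hA hB i := by
    obtain ⟨ρ', M', e, v, hv, rfl⟩ := M.ex_ty' hA
    obtain ⟨φ, hφ, rfl⟩ := M'.ty_of_I ⟨v, hv, rfl⟩ (e ▸ hB) i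
    exact M'.card_inf hv hφ ((M'.I_iff hv hφ).1 i)
  join A B hA hB t ne := by
    obtain ⟨ρ', M', e, h⟩ := M.ex_ty (decide (Ty ρ A))
    obtain ⟨v, hv, rfl⟩ := (h A hA).1 rfl
    obtain ⟨w, hw, rfl⟩ := (h B hB).1 t.symm
    have n : v ⨯₃ w ≠ 0 := fun e => ne (AA_eq hv hw e)
    exact ⟨_, e ▸ M'.el' ⟨_, n, rfl⟩, (M'.I_iff hv n).2 (by rw [dotProduct_comm, dot_self_cross]),
      (M'.I_iff hw n).2 (by rw [dotProduct_comm, dot_cross_self])⟩
  uniq A A' B B' hA hA' hB hB' i1 i2 i3 i4 := by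
    obtain ⟨ρ', M', e, v, hv, rfl⟩ := M.ex_ty' hA
    obtain ⟨φ, hφ, rfl⟩ := M'.ty_of_I ⟨v, hv, rfl⟩ (e ▸ hB) i1
    obtain ⟨ψ, hψ, rfl⟩ := M'.ty_of_I ⟨v, hv, rfl⟩ (e ▸ hB') i3
    obtain ⟨w, hw, rfl⟩ : Ty ρ' A' := by simpa using M'.du.ty_of_I ⟨_, hφ, rfl⟩ (by simpa [e] using hA') i2.symm
    rw [M'.I_iff (by assumption) (by assumption)] at i1 i2 i3 i4
    exact (cross_or i1 i2 i3 i4).imp (AA_eq hv hw) (AA_eq hφ hψ)
  comm A B hA hB i a ha b hb := by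
    obtain ⟨ρ', M', e, v, hv, rfl⟩ := M.ex_ty' hA
    obtain ⟨φ, hφ, rfl⟩ := M'.ty_of_I ⟨v, hv, rfl⟩ (e ▸ hB) i
    rw [M'.I_iff hv hφ] at i
    exact ⟨comm_mem_of_cj_eq' (M'.norm hv hb i) ha,
      comm_mem_of_cj_eq (M'.du.norm hφ (by simpa using ha) (by rwa [dotProduct_comm])) hb⟩
  cent A B hA hB i a ha hn b hb c := by
    obtain ⟨ρ', M', e, v, hv, rfl⟩ := M.ex_ty' hA
    obtain ⟨φ, hφ, rfl⟩ := M'.ty_of_I ⟨v, hv, rfl⟩ (e ▸ hB) i
    rw [M'.I_iff hv hφ] at i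
    obtain ⟨s, α, h1, rfl⟩ := mem_AA.1 ha
    obtain ⟨t, u, h2, rfl⟩ := mem_AA'.1 hb
    by_cases t1 : ρ' t = 1
    · exact t1 ▸ one_mem _
    have := M'.dot h1 h2 (fun e => hn (e ▸ one_mem _)) t1 c
    exact mem_of_cross h2 hv ((cross_or i h2.1 h1.1 this).resolve_right fun e => hn (mem_of_cross' h1 hφ e))
  fix x hx x2 C hC f := by
    obtain ⟨ρ', M', e, v, hv, rfl⟩ := M.ex_ty' hC
    obtain ⟨g, u, φ, h1, rfl⟩ := M'.lift (e ▸ hx) x2
    rw [cj_AA] at f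
    have := M'.cross_of_eq (mulVec_ne g hv) f
    rw [h1.mulVec, map_add, map_smul, cross_self, zero_add, smul_eq_zero] at this
    rcases this with h | h
    · by_cases hφ : φ = 0
      · exact Or.inl (by rw [h1.one_iff.2 (Or.inr hφ), map_one]; exact one_mem _)
      exact Or.inr ⟨_, e ▸ M'.el' ⟨_, hφ, rfl⟩, (M'.I_iff hv hφ).2 h, mem_AA'.2 ⟨g, u, h1, rfl⟩⟩
    · exact Or.inl (mem_of_cross h1 hv h)
  conj x hx y hy x1 x2 y1 y2 := by
    obtain ⟨t, ht⟩ := ex_T (F := F) (v := Pi.single 0 1) (φ := Pi.single 1 1) (by simp)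
    have k : ∀ x ∈ ρ.range, x ≠ 1 → x * x = 1 → ∃ g, ρ g * ρ t * (ρ g)⁻¹ = x := fun x hx x1 x2 => by
      obtain ⟨g, v, φ, h1, rfl⟩ := M.lift hx x2
      have := h1.one_iff.not.1 (by rintro rfl; simp at x1)
      rw [not_or] at this
      obtain ⟨s, s1, s2⟩ := frame h1.1 this.1 this.2
      have := ht.conj s
      rw [s1, ← s2, vecMul_vecMul, mt_mul_inv, vecMul_one] at this
      exact ⟨s, by rw [← this.eq h1]; simp⟩
    obtain ⟨g, rfl⟩ := k x hx x1 x2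
    obtain ⟨g', rfl⟩ := k y hy y1 y2
    exact ⟨_, ⟨g' * g⁻¹, rfl⟩, by simp [mul_assoc]⟩
  tyN n hn A hA := by
    obtain ⟨ρ', M', e, h⟩ := M.ex_ty (decide (Ty ρ A))
    exact (h _ (hA.cjN hn)).2 (((h A hA).1 rfl).cj (e ▸ hn))
  faith := by
    rintro _ ⟨g, rfl⟩ h
    have k : ∀ v : V3 F, v ≠ 0 → v ⨯₃ (mt g *ᵥ v) = 0 := fun v hv =>
      M.cross_of_eq (mulVec_ne g hv) (by rw [← cj_AA, h _ (M.el ⟨v, hv, rfl⟩)])
    have k0 := k (Pi.single 0 1) (by simp)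
    have k1 := k (Pi.single 1 1) (by simp)
    have k2 := k (Pi.single 2 1) (by simp)
    have k3 := k (fun _ => 1) (fun e => one_ne_zero (congrFun e 0))
    simp only [cross_apply, mulVec, dotProduct, Fin.sum_univ_three] at k0 k1 k2 k3
    simp at k0 k1 k2 k3
    refine (M g).2 ⟨mt g 0 0, ?_⟩
    obtain ⟨a1, a2⟩ := k0
    obtain ⟨a3, a4⟩ := k1
    obtain ⟨a5, a6⟩ := k2
    obtain ⟨-, a7, a8⟩ := k3
    ext i j
    fin_cases i <;> fin_cases j <;> simp [*]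
    · linear_combination a8 - a2 - a5 + a4 + a6
    · linear_combination -a7 - a1 - a3 + a4 + a6
  gen := by
    rintro _ ⟨g, rfl⟩
    induction g using CF.Classical.SL_transvection_induction with
    | htransvec i j h c =>
      have : IsT (SpecialLinearGroup.transvection h c) (Pi.single i 1) (Pi.single j c) :=
        ⟨by simp [h.symm], by
          change 1 + single i j c = _
          simp [-mul_ite, single, vecMulVec, ite_and, Pi.single_apply, eq_comm]⟩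
      exact subset_closure ⟨⟨_, rfl⟩, by rw [← map_mul, this.sq, map_one]⟩
    | hmul A B h1 h2 => rw [map_mul]; exact mul_mem h1 h2
  syl X _ ho := by
    have e0 : (Pi.single 0 1 : V3 F) ≠ 0 := by simp
    have e1 : (Pi.single 1 1 : V3 F) ≠ 0 := by simp
    have hA := M.el ⟨_, e0, rfl⟩
    have hB := M.el' ⟨_, e1, rfl⟩
    have p : ∀ A, 𝓔 A → IsPGroup 2 A := fun A h g => ⟨1, Subtype.ext (by simpa [sq] using h.2.1 g g.2)⟩
    obtain ⟨n, n1, n2⟩ := syl_gen ho (sup_le hA.1 hB.1) ((p _ hA).to_sup_of_normal_left' (p _ hB) fun x hx => by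
      have := M.norm e0 hx (by simp)
      refine mem_normalizer_iff''.2 fun y => ?_
      rw [← mem_cj, this])
    rw [cj_sup, sup_le_iff] at n2
    exact ⟨_, _, hA.cjN n1, hB.cjN n1, I_cj.2 ((M.I_iff e0 e1).2 (by simp)), n2.1, n2.2⟩
  tor τ := by
    obtain ⟨ρ', M', e, h⟩ := M.ex_ty τ
    obtain ⟨A, B, t, h1, h2, h3, h4, h5, h6, h7⟩ := M'.tor
    have e1 := M'.el h1
    have e2 := M'.el' h2
    rw [e] at *
    exact ⟨A, B, t, e1, e2, (h A e1).2 h1, fun x => M'.not_both ((h B e2).1 x) h2, h3, h4, h5, h6,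
      fun k k1 k2 C c1 c2 => h7 k k1 k2 C ((h C c1).1 c2)⟩
  tri h3 τ := by
    obtain ⟨ρ', M', e, h⟩ := M.ex_ty τ
    obtain ⟨A, B, C, t, h1, h2, h3, h4, h5, h6, h7, h8, h9⟩ := M'.tri h3
    have e1 := M'.el h1
    have e2 := M'.el h2
    have e3 := M'.el h3
    rw [e] at *
    exact ⟨A, B, C, t, e1, e2, e3, (h A e1).2 h1, (h B e2).2 h2, h4, h5, h6, h7, h8,
      fun D c1 c2 => h9 D ((h D c1).1 c2)⟩

end Md
end CF.H3
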